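import Cfsg.Agent.MRel.HSD
import Cfsg.Agent.SchurMult.Basic

set_option autoImplicit false
set_option maxRecDepth 1000000

/-!
The Schur multiplier of the Higman–Sims group (owner: helper83).
-/

namespace Cfsg.Agent.MRel.HS

open Cfsg.Agent.CosetEnum Subgroup

theorem sym (i j : Fin 100) : (row i).testBit j = (row j).testBit i := by
  rcases lt_trichotomy (i : ℕ) j with h | h | h
  · have := allN_sound (allN_sound t_sym j j.2) i h
    exact (beq_iff_eq.1 this).symm
  · rw [h]
  · have := allN_sound (allN_sound t_sym i i.2) j h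
    exact beq_iff_eq.1 this

/-- the graph -/
def Δ : SimpleGraph (Fin 100) where
  Adj i j := (row i).testBit j = true
  symm := ⟨fun i j h => by rw [sym]; exact h⟩
  loopless := ⟨fun i h => by
    have := allN_sound t_irr i i.2
    rw [h] at this
    exact absurd this (by simp)⟩

instance : DecidableRel Δ.Adj := fun i j => inferInstanceAs (Decidable ((row i).testBit j = true))

theorem adj_iff (i j : Fin 100) : Δ.Adj i j ↔ (row i).testBit j = true := Iff.rfl

theorem cn (i j : Fin 100) (h : i ≠ j) : cnt (row i &&& row j) 100 = if Δ.Adj i j then 0 else 6 := by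
  have key : ∀ i j : Fin 100, (j : ℕ) < i → cnt (row i &&& row j) 100 = if Δ.Adj i j then 0 else 6 := by
    intro i j hij
    have := allN_sound (allN_sound t_com i i.2) j hij
    by_cases h : Δ.Adj i j
    · rw [if_pos h]
      rw [adj_iff] at h
      rw [h] at this
      exact Nat.eq_of_beq_eq_true this
    · rw [if_neg h]
      rw [adj_iff, Bool.not_eq_true] at h
      rw [h] at this
      exact Nat.eq_of_beq_eq_true this
  rcases lt_trichotomy (i : ℕ) j with h1 | h1 | h1
  · have := key j i h1
    rw [Nat.land_comm] at this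
    rw [this]
    congr 1
    exact propext ⟨fun h => h.symm, fun h => h.symm⟩
  · exact absurd (Fin.ext h1) h
  · exact key i j h1

theorem srg : Δ.IsSRGWith 100 22 0 6 := by
  have hcn : ∀ i j : Fin 100, Fintype.card (Δ.commonNeighbors i j) = cnt (row i &&& row j) 100 := by
    intro i j
    rw [← cnt_card, ← Set.toFinset_card]
    congr 1
    ext z
    rw [Set.mem_toFinset, SimpleGraph.mem_commonNeighbors, Finset.mem_filter, adj_iff, adj_iff, Nat.testBit_land,
      Bool.and_eq_true]
    exact ⟨fun h => ⟨Finset.mem_univ _, h⟩, fun h => h.2⟩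
  refine ⟨Fintype.card_fin 100, ?_, ?_, ?_⟩
  · intro i
    rw [← SimpleGraph.card_neighborFinset_eq_degree]
    have h1 := Nat.eq_of_beq_eq_true (allN_sound t_deg i i.2)
    rw [← h1, ← cnt_card]
    congr 1
    ext z
    rw [SimpleGraph.mem_neighborFinset, Finset.mem_filter, adj_iff]
    exact ⟨fun h => ⟨Finset.mem_univ _, h⟩, fun h => h.2⟩
  · intro i j hij
    rw [hcn, cn i j hij.ne, if_pos hij]
  · intro i j hij hadj
    rw [hcn, cn i j hij, if_neg hadj]

theorem act_adj {x : ℕ} (hx : isLet 15 x = true) (i j : Fin 100) :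
    (row i).testBit j = (row (act M83K100.P x i)).testBit (act M83K100.P x j) := by
  have h16 : x < 16 := by
    have := isLet_iff.1 hx
    omega
  have h1 := allN_sound (allN_sound t_act i i.2) x h16
  rw [hx] at h1
  have h2 : allN (fun j => (row i).testBit j == (row (act M83K100.P x i)).testBit (act M83K100.P x j)) 100 = true := h1
  exact beq_iff_eq.1 (allN_sound h2 j j.2)

theorem exists_act : ∃ A : MulAction G (Fin 100), (∀ x, isLet 15 x = true → ∀ i : Fin 100,
    (((g x)⁻¹ • i : Fin 100) : ℕ) = act M83K100.P x i) ∧ Function.Injective (MulAction.toPermHom G (Fin 100)) := by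
  obtain ⟨A, hA, _⟩ := M83K100.tabOK.exists_action gU
  exact ⟨A, fun x hx i => hA x (M83K100.tabOK.mem_iff.2 hx) i, faith A hA⟩

theorem exists_hom : ∃ ψ : G →* (Δ ≃g Δ), Function.Injective ψ := by
  obtain ⟨A, hA, hinj⟩ := exists_act
  -- the elements that preserve adjacency
  let S : Subgroup G :=
    { carrier := {y | ∀ i j : Fin 100, Δ.Adj (y • i) (y • j) ↔ Δ.Adj i j}
      mul_mem' := by
        intro a b ha hb i j
        rw [mul_smul, mul_smul]
        exact (ha _ _).trans (hb _ _)
      one_mem' := by
        intro i j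
        rw [one_smul, one_smul]
      inv_mem' := by
        intro a ha i j
        have := ha (a⁻¹ • i) (a⁻¹ • j)
        rw [smul_inv_smul, smul_inv_smul] at this
        exact this.symm }
  have hS : S = ⊤ := by
    rw [eq_top_iff, ← gU.top]
    unfold Cl
    rw [closure_le]
    rintro _ ⟨x, hx, rfl⟩
    have h1 : (g x)⁻¹ ∈ S := by
      intro i j
      rw [adj_iff, adj_iff, hA x hx i, hA x hx j, ← act_adj hx]
    exact inv_mem_iff.1 h1
  let ψ : G →* (Δ ≃g Δ) :=
    { toFun := fun y => ⟨MulAction.toPerm y, fun {i j} => by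
        have : y ∈ S := by rw [hS]; exact mem_top y
        exact this i j⟩
      map_one' := by ext1 x; exact one_smul G x
      map_mul' := fun a b => by ext1 x; exact mul_smul a b x }
  refine ⟨ψ, fun a b hab => hinj ?_⟩
  ext1 x
  exact congrArg (fun φ : Δ ≃g Δ => φ x) hab

theorem iso : Nonempty (G ≃* Spor.HS) := by
  obtain ⟨ψ, hψ⟩ := exists_hom
  exact hs_of_srg Δ srg 0 ψ hψ cardG

/-- **The Schur multiplier of the Higman–Sims group.** -/
theorem mult_HS : HasCyclicSchurMultiplier Spor.HS 2 := by
  obtain ⟨e⟩ := iso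
  exact Cfsg.Agent.SchurMult.hasSchurMultiplier_of_equiv e multG

end Cfsg.Agent.MRel.HS
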