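import Cfsg.Agent.MRel.Step

set_option autoImplicit false

/-!
Generic facts about groups given by letters (owner: helper83).
-/

namespace Cfsg.Agent.MRel.Lets

open Cfsg.Agent.CosetEnum Subgroup Mult

/-- homomorphisms that agree on the letters are equal -/
theorem hom_letters {G H : Type*} [Group G] [Group H] {g : ℕ → G} {ng : ℕ} (ht : Cl g ng = ⊤) {f f' : G →* H}
    (h : ∀ x, isLet ng x = true → f (g x) = f' (g x)) : f = f' := by
  have hle : Cl g ng ≤ f.eqLocus f' := by
    unfold Cl
    rw [closure_le]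
    rintro _ ⟨x, hx, rfl⟩
    exact h x hx
  rw [ht] at hle
  ext x
  exact hle (mem_top x)

/-- a group generated by letters that are trivial in the abelianization is perfect -/
theorem perf_top {G : Type*} [Group G] {g : ℕ → G} {ng : ℕ} (ht : Cl g ng = ⊤)
    (h : ∀ x, isLet ng x = true → Abelianization.of (g x) = 1) : commutator G = ⊤ := by
  have h1 : (Abelianization.of : G →* Abelianization G) = 1 := hom_letters ht h
  rw [eq_top_iff]
  intro y _
  have h2 : Abelianization.of y = 1 := by rw [h1]; rfl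
  exact (QuotientGroup.eq_one_iff y).1 h2

/-- elements that commute with the letters -/
theorem cen_letters {G : Type*} [Group G] {g : ℕ → G} {ng : ℕ} (ht : Cl g ng = ⊤) {z : G}
    (h : ∀ x, isLet ng x = true → g x * z = z * g x) : z ∈ center G := by
  rw [mem_center_iff]
  have hle : Cl g ng ≤ centralizer {z} := by
    unfold Cl
    rw [closure_le]
    rintro _ ⟨x, hx, rfl⟩
    rw [SetLike.mem_coe, mem_centralizer_iff]
    rintro y rfl
    exact (h x hx).symm
  rw [ht] at hle
  intro y
  exact (mem_centralizer_iff.1 (hle (mem_top y)) z rfl).symm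

/-- a surjection of perfect central extensions over the same group -/
theorem ker_dvd {Γ Δ G : Type*} [Group Γ] [Group Δ] [Group G] {τ : Δ →* G} {σ : Γ →* G} (φ : Δ →* Γ)
    (hφ : Function.Surjective φ) (h : ∀ y, σ (φ y) = τ y) : Nat.card σ.ker ∣ Nat.card τ.ker := by
  let f : τ.ker →* σ.ker := (φ.comp τ.ker.subtype).codRestrict σ.ker (fun y => by
    rw [MonoidHom.mem_ker, MonoidHom.comp_apply, h]; exact y.2)
  have hf : Function.Surjective f := by
    rintro ⟨x, hx⟩
    obtain ⟨y, rfl⟩ := hφ x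
    exact ⟨⟨y, by rw [MonoidHom.mem_ker, ← h]; exact hx⟩, rfl⟩
  exact Subgroup.card_dvd_of_surjective f hf

/-- the map between groups with the same letters, where the second group has additional relators `[z] = 1` for central
letters `z` -/
theorem exists_tau {U G : Type} [Group U] [Group G] {u : ℕ → U} {g : ℕ → G} {ng : ℕ} {l : List (ℕ × ℕ)}
    {RL RL' : List (List ℕ × ℕ)} (uU : Univ u ng l RL) (gU : Univ g ng l RL') (zs : List ℕ)
    (h1 : (RL.all fun p => RL'.contains p) = true)
    (h2 : (RL'.all fun p => RL.contains p || (zs.any fun z => p == ([z], 1))) = true)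
    (h3 : (zs.all fun z => RL'.contains ([z], 1)) = true)
    (hz : ∀ z ∈ zs, u z ∈ center U) :
    ∃ τ : U →* G, (∀ x, τ (u x) = g x) ∧ CE τ ∧ ∀ x, τ x = 1 ↔ x ∈ closure (u '' {z | z ∈ zs}) := by
  simp only [List.all_eq_true, List.contains_iff_mem, Bool.or_eq_true, List.any_eq_true, beq_iff_eq] at h1 h2 h3
  obtain ⟨τ, hτ⟩ := uU.univ _ _ (⟨gU.good.inv, gU.good.one, fun p hp => gU.good.rel p (h1 p hp)⟩ : Good g ng l RL)
  have hg1 : ∀ z ∈ zs, g z = 1 := by
    intro z hz
    have := gU.good.rel ([z], 1) (h3 z hz)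
    simpa using this
  set Z : Subgroup U := closure (u '' {z | z ∈ zs}) with hZd
  have hZ : Z ≤ center U := by
    rw [hZd, closure_le]
    rintro _ ⟨z, hz', rfl⟩
    exact hz z hz'
  have hZn : Z.Normal := by
    constructor
    intro x hx y
    rw [mem_center_iff.1 (hZ hx) y, mul_inv_cancel_right]
    exact hx
  have hm : ∀ z ∈ zs, (QuotientGroup.mk' Z) (u z) = 1 := fun z hz' =>
    (QuotientGroup.eq_one_iff _).2 (subset_closure ⟨z, hz', rfl⟩)
  have hgood : Good (fun x => (QuotientGroup.mk' Z) (u x)) ng l RL' := by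
    refine ⟨fun x => ?_, fun x hx => ?_, fun p hp => ?_⟩
    · rw [uU.good.inv, map_inv]
    · rw [uU.good.one x hx, map_one]
    · rcases h2 p hp with h | ⟨z, hz', rfl⟩
      · have := uU.good.rel p h
        have h3 : (p.1.map fun x => (QuotientGroup.mk' Z) (u x)).prod = (QuotientGroup.mk' Z) ((p.1.map u).prod) := by
          rw [map_list_prod, List.map_map]; rfl
        rw [h3, ← map_pow, this, map_one]
      · simp only [List.map_cons, List.map_nil, List.prod_cons, List.prod_nil, mul_one, pow_one]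
        exact hm z hz'
  obtain ⟨φ, hφ⟩ := gU.univ _ _ hgood
  have he : φ.comp τ = QuotientGroup.mk' Z := by
    apply hom_letters uU.top
    intro x _
    rw [MonoidHom.comp_apply, hτ, hφ]
  have hker : ∀ x, τ x = 1 → x ∈ Z := by
    intro x hx
    rw [← QuotientGroup.eq_one_iff x]
    show QuotientGroup.mk' Z x = 1
    rw [← he, MonoidHom.comp_apply, hx, map_one]
  refine ⟨τ, hτ, ⟨?_, ?_⟩, fun x => ⟨hker x, ?_⟩⟩
  · rw [← MonoidHom.range_eq_top, eq_top_iff, ← gU.top]
    unfold Cl
    rw [closure_le]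
    rintro _ ⟨x, _, rfl⟩
    exact ⟨u x, hτ x⟩
  · intro x hx
    exact hZ (hker x hx)
  · intro hx
    have hle : Z ≤ τ.ker := by
      rw [hZd, closure_le]
      rintro _ ⟨z, hz', rfl⟩
      rw [SetLike.mem_coe, MonoidHom.mem_ker, hτ]
      exact hg1 z hz'
    exact hle hx

/-- relations in a group that acts faithfully on a table -/
theorem rels_of {G : Type} [Group G] {g : ℕ → G} {ng : ℕ} {l : List (ℕ × ℕ)} {RL : List (List ℕ × ℕ)}
    (U : Univ g ng l RL) {P : Par} {lets : List ℕ} (T : TabOK P ng l lets RL) (hF : Faith g lets P) {us : List (List ℕ)}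
    (hw : us.all (wOK ng) = true) (hc : Cov (trivB P us) 0 P.m) : ∀ w ∈ us, (w.map g).prod = 1 := by
  obtain ⟨A, hA, _⟩ := T.exists_action U
  intro w hw'
  have hu' : ∀ x ∈ w, x ∈ lets := by
    intro x hx
    simp only [wOK, List.all_eq_true] at hw
    exact T.mem_iff.2 (hw w hw' x hx)
  have h8 : val (fun x => (g x)⁻¹) w = 1 := by
    apply hF A hA
    rw [map_one]
    ext i
    show ((val (fun x => (g x)⁻¹) w • i : Fin P.m) : ℕ) = i
    rw [hA.word hu']
    exact trivB_sound (hc i (Nat.zero_le _) i.2) w hw'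
  rw [val_inv] at h8
  exact inv_eq_one.1 h8

/-- a word that moves a point -/
theorem word_ne {G : Type} [Group G] {g : ℕ → G} {ng : ℕ} {l : List (ℕ × ℕ)} {RL : List (List ℕ × ℕ)}
    (U : Univ g ng l RL) {P : Par} {lets : List ℕ} (T : TabOK P ng l lets RL) {w : List ℕ}
    (hw : wOK ng w = true) {i : ℕ} (hi : i < P.m) (h : Nat.beq (actW P w i) i = false) : (w.map g).prod ≠ 1 := by
  obtain ⟨A, hA, _⟩ := T.exists_action U
  intro h1
  have hu' : ∀ x ∈ w, x ∈ lets := by
    intro x hx
    simp only [wOK, List.all_eq_true] at hw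
    exact T.mem_iff.2 (hw x hx)
  have h2 := hA.word hu' ⟨i, hi⟩
  rw [val_inv, h1, inv_one, one_smul] at h2
  have h3 : (i : ℕ) = actW P w i := h2
  rw [← h3] at h
  exact absurd h (by simp)

end Cfsg.Agent.MRel.Lets
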