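import Cfsg.Agent.MRel.Tr
import Cfsg.Agent.MRel.Lets
import Cfsg.Agent.MRel.Proj
import Cfsg.Agent.CosetEnum.M83.CertsK
import Cfsg.Agent.CosetEnum.M83.K100C
import Cfsg.Agent.CosetEnum.M83.K100D

set_option autoImplicit false
set_option maxRecDepth 1000000

/-!
The double cover of the presented Higman–Sims group (owner: helper83).
-/

namespace Cfsg.Agent.MRel.HS

open Cfsg.Agent.CosetEnum Subgroup Mult Lets

/-- the covering group -/
abbrev U : Type := QG 15 M83K15.iv M83K15.RL

/-- its letters -/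
abbrev u : ℕ → U := qg 15 M83K15.iv M83K15.RL

theorem uU : Univ u 15 M83K15.iv M83K15.RL := univ_qg _ _ _

/-- the presented Higman–Sims group -/
abbrev G : Type := QG 15 M83K100.iv M83K100.RL

/-- its letters -/
abbrev g : ℕ → G := qg 15 M83K100.iv M83K100.RL

theorem gU : Univ g 15 M83K100.iv M83K100.RL := univ_qg _ _ _

theorem bdU : Bd (⊤ : Subgroup U) 88704000 := by
  have gd := uU.good
  rw [← uU.top]
  have h5 := (Bd.zero u).cl (M := 360) M83K5.cert gd (by decide +kernel) (by decide +kernel) (by norm_num) rfl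
  have h6 := h5.cl (M := 2520) M83K6.cert gd (by decide +kernel) (by decide +kernel) (by norm_num) rfl
  have h10 := h6.cl (M := 252000) M83K10.cert gd (by decide +kernel) (by decide +kernel) (by norm_num) rfl
  exact h10.cl (M := 88704000) M83K15.cert gd (by decide +kernel) (by decide +kernel) (by norm_num) rfl

theorem u9_ne : u 9 ≠ 1 := uU.ne_one M83K704.tabOK (x := 9) (i := 0) rfl (by decide +kernel) (by decide +kernel)

instance finU : Finite U := by
  have := bdU.1
  exact Finite.of_equiv _ (Subgroup.topEquiv (G := U)).toEquiv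

theorem ucen (z : ℕ) (hz : z ∈ [9, 12, 14]) : u z ∈ center U := by
  have hr : ∀ z ∈ [9, 12, 14], ∀ x ∈ [1, 3, 4, 5, 6, 7, 9, 11, 12, 14],
      x = z ∨ ([x, z, ivL M83K15.iv x, ivL M83K15.iv z], 1) ∈ M83K15.RL ∨
        ([z, x, ivL M83K15.iv z, ivL M83K15.iv x], 1) ∈ M83K15.RL := by decide +kernel
  have key : ∀ x ∈ [1, 3, 4, 5, 6, 7, 9, 11, 12, 14], u x * u z = u z * u x := by
    intro x hx
    rcases hr z hz x hx with h | h | h
    · rw [h]
    · have h1 := uU.good.rel _ h
      simp only [List.map_cons, List.map_nil, List.prod_cons, List.prod_nil, mul_one, pow_one, uU.good.inv] at h1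
      have h2 : u x * u z * (u z * u x)⁻¹ = 1 := by rw [← h1]; group
      exact mul_inv_eq_one.1 h2
    · have h1 := uU.good.rel _ h
      simp only [List.map_cons, List.map_nil, List.prod_cons, List.prod_nil, mul_one, pow_one, uU.good.inv] at h1
      have h2 : u z * u x * (u x * u z)⁻¹ = 1 := by rw [← h1]; group
      exact (mul_inv_eq_one.1 h2).symm
  have key' : ∀ x y, u y = (u x)⁻¹ → u x * u z = u z * u x → u y * u z = u z * u y := by
    intro x y h1 h2
    rw [h1]
    exact (show Commute (u x) (u z) from h2).inv_left.eq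
  refine cen_letters uU.top fun x hx => ?_
  have h := isLet_iff.1 hx
  match x, h with
  | 1, _ => exact key 1 (by decide)
  | 2, _ => exact key' 1 2 (uU.good.inv 1) (key 1 (by decide))
  | 3, _ => exact key 3 (by decide)
  | 4, _ => exact key 4 (by decide)
  | 5, _ => exact key 5 (by decide)
  | 6, _ => exact key 6 (by decide)
  | 7, _ => exact key 7 (by decide)
  | 8, _ => exact key' 7 8 (uU.good.inv 7) (key 7 (by decide))
  | 9, _ => exact key 9 (by decide)
  | 10, _ => exact key' 9 10 (uU.good.inv 9) (key 9 (by decide))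
  | 11, _ => exact key 11 (by decide)
  | 12, _ => exact key 12 (by decide)
  | 13, _ => exact key' 12 13 (uU.good.inv 12) (key 12 (by decide))
  | 14, _ => exact key 14 (by decide)
  | 15, _ => exact key' 14 15 (uU.good.inv 14) (key 14 (by decide))
  | (n + 16), h => omega

theorem exists_cover : ∃ τ : U →* G, (∀ x, τ (u x) = g x) ∧ CE τ ∧ ∀ x, τ x = 1 ↔ x ∈ closure (u '' {z | z ∈ [9, 12, 14]}) :=
  exists_tau uU gU [9, 12, 14] (by decide +kernel) (by decide +kernel) (by decide +kernel) ucen

/-- the abelianization of a group with these relators is trivial -/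
theorem ab_alg {A : Type*} [CommGroup A] {a b c d e w x z y v : A} (ha : a * a * a = 1) (hb : b * b = 1) (hc : c * c = 1)
    (hd : d * d = 1) (he : e * e = 1) (hx : x * x = 1) (h1 : (a * b) ^ 3 = 1) (h2 : (a * c) ^ 2 = 1) (h3 : (b * c) ^ 3 = 1)
    (h4 : (c * d) ^ 3 = 1) (h5 : (d * e) ^ 3 = 1) (h6 : w * (w * (c * a⁻¹)) = 1) (h8 : (x * b) ^ 3 = 1)
    (h9 : (x * (d * w⁻¹)) ^ 3 = 1)
    (hz : w * (e * (w * (e * (w * (e * (w * (e * (w * (e * (w * (e * (w * (e * z⁻¹))))))))))))) = 1)
    (hy : x * (a * (e * (x * (a * (e * (x * (a * (e * y⁻¹)))))))) = 1)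
    (hv : x * (e * (w⁻¹ * (x * (e * (w⁻¹ * (x * (e * (w⁻¹ * (x * (e * (w⁻¹ * v⁻¹))))))))))) = 1) :
    a = 1 ∧ b = 1 ∧ c = 1 ∧ d = 1 ∧ e = 1 ∧ w = 1 ∧ x = 1 ∧ z = 1 ∧ y = 1 ∧ v = 1 := by
  have cube : ∀ p q : A, (p * q) ^ 3 = (p * p * p) * (q * q) * q := by
    intro p q
    simp only [pow_succ, pow_zero, one_mul]
    ac_rfl
  have cube' : ∀ p q : A, (p * q) ^ 3 = (p * p) * p * ((q * q) * q) := by
    intro p q
    simp only [pow_succ, pow_zero, one_mul]
    ac_rfl
  have eb : b = 1 := by rw [cube, ha, hb, one_mul, one_mul] at h1; exact h1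
  have ec : c = 1 := by rw [cube', hb, hc, eb, one_mul, one_mul, one_mul] at h3; exact h3
  have ea : a = 1 := by
    have : (a * c) ^ 2 = a * a * (c * c) := by rw [pow_two]; ac_rfl
    rw [this, hc, mul_one] at h2
    rw [h2, one_mul] at ha
    exact ha
  have ed : d = 1 := by rw [cube', hc, hd, ec, one_mul, one_mul, one_mul] at h4; exact h4
  have ee : e = 1 := by rw [cube', hd, he, ed, one_mul, one_mul, one_mul] at h5; exact h5
  have ex : x = 1 := by rw [cube', hx, hb, eb, one_mul, one_mul, mul_one] at h8; exact h8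
  have ew : w = 1 := by
    rw [ec, ea, inv_one, mul_one, mul_one] at h6
    rw [ed, ex, one_mul, one_mul, inv_pow, inv_eq_one] at h9
    have : w ^ 3 = w * w * w := by simp only [pow_succ, pow_zero, one_mul]
    rw [this, h6, one_mul] at h9
    exact h9
  refine ⟨ea, eb, ec, ed, ee, ew, ex, ?_, ?_, ?_⟩
  · simpa [ew, ee] using hz
  · simpa [ex, ea, ee] using hy
  · simpa [ex, ew, ee] using hv

theorem perfU : commutator U = ⊤ := by
  set α : U →* Abelianization U := Abelianization.of
  have inv1 : ∀ x, ivL M83K15.iv x = x → α (u x) * α (u x) = 1 := by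
    intro x hx
    have := uU.good.inv x
    rw [hx] at this
    rw [← map_mul]
    nth_rewrite 1 [this]
    rw [inv_mul_cancel, map_one]
  have rel : ∀ (w : List ℕ) (m : ℕ), (w, m) ∈ M83K15.RL → ((w.map fun x => α (u x)).prod) ^ m = 1 := by
    intro w m h
    have := congrArg α (uU.good.rel (w, m) h)
    rw [map_pow, map_list_prod, List.map_map, map_one] at this
    exact this
  have hi : ∀ x, α (u (ivL M83K15.iv x)) = (α (u x))⁻¹ := fun x => by rw [uU.good.inv, map_inv]
  have i2 : α (u 2) = (α (u 1))⁻¹ := hi 1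
  have i8 : α (u 8) = (α (u 7))⁻¹ := hi 7
  have i10 : α (u 10) = (α (u 9))⁻¹ := hi 9
  have i13 : α (u 13) = (α (u 12))⁻¹ := hi 12
  have i15 : α (u 15) = (α (u 14))⁻¹ := hi 14
  obtain ⟨h1, h3, h4, h5, h6, h7, h11, h9, h12, h14⟩ := ab_alg (a := α (u 1)) (b := α (u 3)) (c := α (u 4)) (d := α (u 5))
    (e := α (u 6)) (w := α (u 7)) (x := α (u 11)) (z := α (u 9)) (y := α (u 12)) (v := α (u 14))
    (by simpa [mul_assoc] using rel [1, 1, 1] 1 (by decide +kernel))
    (inv1 3 rfl) (inv1 4 rfl) (inv1 5 rfl) (inv1 6 rfl) (inv1 11 rfl)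
    (by simpa using rel [1, 3] 3 (by decide +kernel))
    (by simpa using rel [1, 4] 2 (by decide +kernel))
    (by simpa using rel [3, 4] 3 (by decide +kernel))
    (by simpa using rel [4, 5] 3 (by decide +kernel))
    (by simpa using rel [5, 6] 3 (by decide +kernel))
    (by simpa only [List.map_cons, List.map_nil, List.prod_cons, List.prod_nil, mul_one, pow_one, i2] using rel [7, 7, 4, 2] 1 (by decide +kernel))
    (by simpa using rel [11, 3] 3 (by decide +kernel))
    (by simpa only [List.map_cons, List.map_nil, List.prod_cons, List.prod_nil, mul_one, i8] using rel [11, 5, 8] 3 (by decide +kernel))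
    (by simpa only [List.map_cons, List.map_nil, List.prod_cons, List.prod_nil, mul_one, pow_one, i10] using rel [7, 6, 7, 6, 7, 6, 7, 6, 7, 6, 7, 6, 7, 6, 10] 1 (by decide +kernel))
    (by simpa only [List.map_cons, List.map_nil, List.prod_cons, List.prod_nil, mul_one, pow_one, i13] using rel [11, 1, 6, 11, 1, 6, 11, 1, 6, 13] 1 (by decide +kernel))
    (by simpa only [List.map_cons, List.map_nil, List.prod_cons, List.prod_nil, mul_one, pow_one, i8, i15] using rel [11, 6, 8, 11, 6, 8, 11, 6, 8, 11, 6, 8, 15] 1 (by decide +kernel))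
  rw [h1, inv_one] at i2
  rw [h7, inv_one] at i8
  rw [h9, inv_one] at i10
  rw [h12, inv_one] at i13
  rw [h14, inv_one] at i15
  apply perf_top uU.top
  intro x hx
  have h := isLet_iff.1 hx
  match x, h with
  | 1, _ => exact h1
  | 2, _ => exact i2
  | 3, _ => exact h3
  | 4, _ => exact h4
  | 5, _ => exact h5
  | 6, _ => exact h6
  | 7, _ => exact h7
  | 8, _ => exact i8
  | 9, _ => exact h9
  | 10, _ => exact i10
  | 11, _ => exact h11
  | 12, _ => exact h12
  | 13, _ => exact i13
  | 14, _ => exact h14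
  | 15, _ => exact i15
  | (n + 16), h => omega

/-- the covering map -/
noncomputable def τ : U →* G := exists_cover.choose

theorem τ_u (x : ℕ) : τ (u x) = g x := exists_cover.choose_spec.1 x

theorem Pτ : PCE τ := ⟨exists_cover.choose_spec.2.1, perfU⟩

theorem τ9 : τ (u 9) = 1 := (exists_cover.choose_spec.2.2 (u 9)).2 (subset_closure ⟨9, by simp, rfl⟩)

instance finG : Finite G := Finite.of_surjective τ Pτ.ce.surj

theorem card_mul : Nat.card U = Nat.card G * Nat.card τ.ker := card_ker_eq Pτ

theorem two_le_ker : 2 ≤ Nat.card τ.ker := by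
  by_contra h
  have h1 : 0 < Nat.card τ.ker := Nat.card_pos
  have h2 : Nat.card τ.ker = 1 := by omega
  have h3 : τ.ker = ⊥ := Subgroup.eq_bot_of_card_eq _ h2
  apply u9_ne
  have : u 9 ∈ τ.ker := τ9
  rw [h3, mem_bot] at this
  exact this

theorem bdG : Bd (⊤ : Subgroup G) 44352000 := by
  refine ⟨inferInstance, ?_⟩
  have h1 := bdU.2
  rw [Subgroup.card_top, card_mul] at h1
  rw [Subgroup.card_top]
  have h2 := two_le_ker
  nlinarith

theorem faith_card : Faith g M83K100.lets M83K100.P ∧
    ((∃ A : MulAction G (Fin M83K100.P.m), @Acts G _ M83K100.P A g M83K100.lets) → Nat.card G = 44352000) :=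
  faith_of_chain (ng := 15) (l := M83K100.iv) (by decide +kernel) gU.top M83K100C.chain bdG (by decide +kernel)

theorem faith : Faith g M83K100.lets M83K100.P := faith_card.1

theorem cardG : Nat.card G = 44352000 := by
  obtain ⟨A, hA, _⟩ := M83K100.tabOK.exists_action gU
  exact faith_card.2 ⟨A, hA⟩

theorem card_ker : Nat.card τ.ker = 2 := by
  have h1 := card_ker_le Pτ (m := 2) bdU cardG (by norm_num) (by norm_num)
  have h2 := two_le_ker
  omega

end Cfsg.Agent.MRel.HS
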