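import Cfsg.Agent.MRel.HSA
import Cfsg.Agent.H90.Mult23

set_option autoImplicit false
set_option maxRecDepth 1000000

/-!
The subgroup `M₁₁` of the presented Higman–Sims group (owner: helper83).
-/

namespace Cfsg.Agent.MRel.HS

open Cfsg.Agent.CosetEnum Subgroup Mult Lets

/-- the letters of `M₁₁` -/
def mu : ℕ → ℕ
  | 1 => 1 | 2 => 2 | 3 => 3 | 4 => 4 | 5 => 5 | 6 => 7 | 7 => 8 | 8 => 11 | _ => 0

/-- the letters of `M₁₁` -/
abbrev gm (x : ℕ) : G := g (mu x)

theorem gm_good : Good gm 8 M83K8.iv M83K8.RL := by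
  refine ⟨fun x => ?_, fun x hx => ?_, fun p hp => ?_⟩
  · have h : mu (ivL M83K8.iv x) = ivL M83K100.iv (mu x) := by
      match x with
      | 0 => rfl
      | 1 => rfl
      | 2 => rfl
      | 3 => rfl
      | 4 => rfl
      | 5 => rfl
      | 6 => rfl
      | 7 => rfl
      | 8 => rfl
      | (n + 9) => rfl
    show g (mu (ivL M83K8.iv x)) = _
    rw [h, gU.good.inv]
  · have h0 : mu x = 0 := by
      match x with
      | 0 => rfl
      | 1 => exact absurd hx (by decide)
      | 2 => exact absurd hx (by decide)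
      | 3 => exact absurd hx (by decide)
      | 4 => exact absurd hx (by decide)
      | 5 => exact absurd hx (by decide)
      | 6 => exact absurd hx (by decide)
      | 7 => exact absurd hx (by decide)
      | 8 => exact absurd hx (by decide)
      | (n + 9) => rfl
    show g (mu x) = 1
    rw [h0]
    exact gU.good.one 0 rfl
  · have h1 : ∀ p ∈ M83K8.RL, (p.1.map mu, p.2) ∈ M83K100.RL := by decide +kernel
    have h2 := gU.good.rel _ (h1 p hp)
    rw [List.map_map] at h2
    exact h2

/-- `M₁₁` -/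
abbrev M : Subgroup G := Cl gm 8

theorem bdM : Bd M 7920 := by
  have gd := gm_good
  have h5 := (Bd.zero gm).cl (M := 360) M83K5.cert gd (by decide +kernel) (by decide +kernel) (by norm_num) rfl
  have h6 := h5.cl (M := 720) M83K7.cert gd (by decide +kernel) (by decide +kernel) (by norm_num) rfl
  exact h6.cl (M := 7920) M83K8.cert gd (by decide +kernel) (by decide +kernel) (by norm_num) rfl

theorem cardM : Nat.card M = 7920 := by
  refine le_antisymm bdM.2 ?_
  obtain ⟨A, hA, _⟩ := M83K100.tabOK.exists_action gU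
  have h1 : Acts (Equiv.Perm (Fin M83K100.P.m)) M83K100.P (fun x => MulAction.toPermHom G (Fin M83K100.P.m) (g x))
      [1, 2, 3, 4, 5, 7, 8, 11] := by
    intro x hx i
    rw [← map_inv]
    have hx' : x ∈ M83K100.lets := by
      revert x
      decide
    exact hA x hx' i
  have h2 := card_ge h1 M83K100D.chain
  have h3 : (M83K100D.ls.map fun p => p.2.length).prod = 7920 := by decide +kernel
  rw [h3] at h2
  refine h2.trans ?_
  have h4 : closure ((fun x => MulAction.toPermHom G (Fin M83K100.P.m) (g x)) '' {x | x ∈ [1, 2, 3, 4, 5, 7, 8, 11]}) ≤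
      M.map (MulAction.toPermHom G (Fin M83K100.P.m)) := by
    rw [closure_le]
    rintro _ ⟨x, hx, rfl⟩
    refine ⟨g x, ?_, rfl⟩
    simp only [List.mem_cons, List.not_mem_nil, or_false, Set.mem_ofPred_eq] at hx
    rcases hx with rfl | rfl | rfl | rfl | rfl | rfl | rfl | rfl
    · exact mem_Cl gm (x := 1) rfl
    · exact mem_Cl gm (x := 2) rfl
    · exact mem_Cl gm (x := 3) rfl
    · exact mem_Cl gm (x := 4) rfl
    · exact mem_Cl gm (x := 5) rfl
    · exact mem_Cl gm (x := 6) rfl
    · exact mem_Cl gm (x := 7) rfl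
    · exact mem_Cl gm (x := 8) rfl
  refine (Nat.card_mono (Set.toFinite _) h4).trans ?_
  exact Nat.card_le_card_of_surjective _ ((MulAction.toPermHom G (Fin M83K100.P.m)).subgroupMap_surjective M)

/-- inverse word -/
def iw (w : List ℕ) : List ℕ := (w.map (ivL M83K100.iv)).reverse

theorem iw_prod (w : List ℕ) : ((iw w).map g).prod = ((w.map g).prod)⁻¹ := by
  induction w with
  | nil => simp [iw]
  | cons x w ih =>
    have : iw (x :: w) = iw w ++ [ivL M83K100.iv x] := by simp [iw]
    rw [this, List.map_append, List.prod_append, ih]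
    simp only [List.map_cons, List.prod_cons, List.map_nil, List.prod_nil, mul_one, mul_inv_rev, gU.good.inv]

/-- words -/
def xw : List ℕ := [2, 8, 3]
def yw : List ℕ := [3, 1, 8]
def ew : List ℕ := [2]
def fw : List ℕ := [2, 4, 5]
def hw : List ℕ := [3, 7, 2, 11, 1, 8, 3]
def kw : List ℕ := [4, 5, 6, 5, 4]

/-- words that are trivial in `HS` -/
def us : List (List ℕ) := [
  xw ++ xw ++ xw ++ xw ++ xw ++ xw ++ xw ++ xw,
  yw ++ xw ++ iw yw ++ iw (xw ++ xw ++ xw),
  yw ++ yw ++ iw (xw ++ xw ++ xw ++ xw),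
  ew ++ fw ++ iw (fw ++ ew),
  hw ++ ew ++ iw hw ++ iw fw,
  hw ++ fw ++ iw hw ++ iw ew,
  fw ++ fw ++ fw,
  kw ++ [1] ++ iw kw ++ [1],
  kw ++ [4, 5] ++ iw kw ++ iw [5, 6],
  [1, 4, 5] ++ iw [4, 5, 1],
  [7, 6, 7, 6, 7, 6, 7, 6, 7, 6, 7, 6, 7, 6],
  [11, 1, 6, 11, 1, 6, 11, 1, 6],
  [11, 6, 8, 11, 6, 8, 11, 6, 8, 11, 6, 8]]

theorem us_rel : ∀ w ∈ us, (w.map g).prod = 1 :=
  rels_of gU M83K100.tabOK faith (by decide +kernel) (Cov.of (c := 100) (by decide +kernel) rfl)

/-- elements of `M₁₁` -/
abbrev mw (w : List ℕ) (hw : wOK 8 w = true) : M := ⟨(w.map gm).prod, word_mem_Cl gm hw⟩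

theorem us_get {w : List ℕ} (h : us.contains w = true) : (w.map g).prod = 1 := us_rel w (List.contains_iff_mem.1 h)

theorem ne_of_tab {w : List ℕ} (hw : wOK 15 w = true) {i : ℕ} (hi : i < M83K100.P.m)
    (h : Nat.beq (actW M83K100.P w i) i = false) : (w.map g).prod ≠ 1 := word_ne gU M83K100.tabOK hw hi h

theorem perfM : commutator M = ⊤ := by
  have inv1 : ∀ x, ivL M83K8.iv x = x → wOK 8 [x, x] = true → abl gm 8 x * abl gm 8 x = 1 := by
    intro x hx hw
    have h1 : ([x, x].map gm).prod = 1 := by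
      have := gm_good.inv x
      rw [hx] at this
      simp only [List.map_cons, List.map_nil, List.prod_cons, List.prod_nil, mul_one]
      nth_rewrite 1 [this]
      exact inv_mul_cancel _
    simpa using abl_rel hw h1
  have rel : ∀ (w : List ℕ) (m : ℕ), (w, m) ∈ M83K8.RL → wOK 8 (expand (w, m)) = true →
      ((w.map (abl gm 8)).prod) ^ m = 1 := by
    intro w m h hw
    have := gm_good.rel (w, m) h
    rw [← rep_prod'] at this
    have := abl_rel hw this
    rwa [rep_prod'] at this
  have hi : ∀ x, wOK 8 [x, ivL M83K8.iv x] = true → abl gm 8 (ivL M83K8.iv x) = (abl gm 8 x)⁻¹ := fun x hw => by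
    have h1 : ([x, ivL M83K8.iv x].map gm).prod = 1 := by
      simp only [List.map_cons, List.map_nil, List.prod_cons, List.prod_nil, mul_one, gm_good.inv x, mul_inv_cancel]
    have := abl_rel hw h1
    simp only [List.map_cons, List.map_nil, List.prod_cons, List.prod_nil, mul_one] at this
    exact eq_inv_of_mul_eq_one_right this
  have i2 : abl gm 8 2 = (abl gm 8 1)⁻¹ := hi 1 rfl
  have i7 : abl gm 8 7 = (abl gm 8 6)⁻¹ := hi 6 rfl
  obtain ⟨h1, h3, h4, h5, -, h6, h8, -⟩ := ab_alg (a := abl gm 8 1) (b := abl gm 8 3) (c := abl gm 8 4) (d := abl gm 8 5)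
    (e := abl gm 8 5) (w := abl gm 8 6) (x := abl gm 8 8)
    (z := abl gm 8 6 * (abl gm 8 5 * (abl gm 8 6 * (abl gm 8 5 * (abl gm 8 6 * (abl gm 8 5 * (abl gm 8 6 * (abl gm 8 5 *
      (abl gm 8 6 * (abl gm 8 5 * (abl gm 8 6 * (abl gm 8 5 * (abl gm 8 6 * abl gm 8 5)))))))))))))
    (y := abl gm 8 8 * (abl gm 8 1 * (abl gm 8 5 * (abl gm 8 8 * (abl gm 8 1 * (abl gm 8 5 * (abl gm 8 8 * (abl gm 8 1 *
      abl gm 8 5))))))))
    (v := abl gm 8 8 * (abl gm 8 5 * ((abl gm 8 6)⁻¹ * (abl gm 8 8 * (abl gm 8 5 * ((abl gm 8 6)⁻¹ * (abl gm 8 8 *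
      (abl gm 8 5 * ((abl gm 8 6)⁻¹ * (abl gm 8 8 * (abl gm 8 5 * (abl gm 8 6)⁻¹)))))))))))
    (by simpa [mul_assoc] using rel [1, 1, 1] 1 (by decide +kernel) (by decide +kernel))
    (inv1 3 rfl rfl) (inv1 4 rfl rfl) (inv1 5 rfl rfl) (inv1 5 rfl rfl) (inv1 8 rfl rfl)
    (by simpa using rel [1, 3] 3 (by decide +kernel) (by decide +kernel))
    (by simpa using rel [1, 4] 2 (by decide +kernel) (by decide +kernel))
    (by simpa using rel [3, 4] 3 (by decide +kernel) (by decide +kernel))
    (by simpa using rel [4, 5] 3 (by decide +kernel) (by decide +kernel))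
    (by rw [inv1 5 rfl rfl, one_pow])
    (by simpa only [List.map_cons, List.map_nil, List.prod_cons, List.prod_nil, mul_one, pow_one, i2] using
      rel [6, 6, 4, 2] 1 (by decide +kernel) (by decide +kernel))
    (by simpa using rel [8, 3] 3 (by decide +kernel) (by decide +kernel))
    (by simpa only [List.map_cons, List.map_nil, List.prod_cons, List.prod_nil, mul_one, i7] using
      rel [8, 5, 7] 3 (by decide +kernel) (by decide +kernel))
    (by simp only [mul_inv_rev, mul_assoc, mul_inv_cancel_left, mul_inv_cancel])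
    (by simp only [mul_inv_rev, mul_assoc, mul_inv_cancel_left, mul_inv_cancel])
    (by simp only [mul_inv_rev, mul_assoc, mul_inv_cancel_left, mul_inv_cancel, inv_inv, inv_mul_cancel_left])
  rw [h1, inv_one] at i2
  rw [h6, inv_one] at i7
  apply perf_of_abl
  intro x hx
  have h := isLet_iff.1 hx
  match x, h with
  | 1, _ => exact h1
  | 2, _ => exact i2
  | 3, _ => exact h3
  | 4, _ => exact h4
  | 5, _ => exact h5
  | 6, _ => exact h6
  | 7, _ => exact i7
  | 8, _ => exact h8
  | (n + 9), h => omega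

instance finM : Finite M := inferInstance

theorem multM : HasCyclicSchurMultiplier M 1 := by
  apply H90.Tab.mult_one_of
  · intro p hp h
    rw [cardM] at h
    have h1 : p ∣ 2 ^ 4 * 3 ^ 2 * 5 * 11 := by
      have : (7920 : ℕ) = 2 ^ 4 * 3 ^ 2 * 5 * 11 := by norm_num
      rw [← this]
      exact (dvd_pow_self p two_ne_zero).trans h
    rcases hp.dvd_mul.1 h1 with h1 | h1
    · rcases hp.dvd_mul.1 h1 with h1 | h1
      · rcases hp.dvd_mul.1 h1 with h1 | h1
        · exact Or.inl ((Nat.prime_dvd_prime_iff_eq hp Nat.prime_two).1 (hp.dvd_of_dvd_pow h1))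
        · exact Or.inr ((Nat.prime_dvd_prime_iff_eq hp Nat.prime_three).1 (hp.dvd_of_dvd_pow h1))
      · have := (Nat.prime_dvd_prime_iff_eq hp (by norm_num)).1 h1
        subst this
        exact absurd h (by norm_num)
    · have := (Nat.prime_dvd_prime_iff_eq hp (by norm_num)).1 h1
      subst this
      exact absurd h (by norm_num)
  · intro Γ _ _ σ hσ hc
    have e1 := us_get (w := xw ++ xw ++ xw ++ xw ++ xw ++ xw ++ xw ++ xw) (by decide +kernel)
    have e2 := us_get (w := yw ++ xw ++ iw yw ++ iw (xw ++ xw ++ xw)) (by decide +kernel)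
    have e3 := us_get (w := yw ++ yw ++ iw (xw ++ xw ++ xw ++ xw)) (by decide +kernel)
    simp only [List.map_append, List.prod_append, iw_prod] at e1 e2 e3
    have e4 := ne_of_tab (w := xw ++ xw ++ xw ++ xw) (by decide +kernel) (i := 0) (by decide +kernel) (by decide +kernel)
    simp only [List.map_append, List.prod_append] at e4
    refine H90.Tab.sd16_false hσ hc (x := mw [2, 7, 3] rfl) (y := mw [3, 1, 7] rfl) ?_ ?_ ?_ ?_ (m := 495) ?_ (by norm_num)
    · apply Subtype.ext
      show ((xw.map g).prod) ^ 8 = 1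
      rw [← e1]; simp only [pow_succ, pow_zero, one_mul]
    · intro h
      apply e4
      have h2 : ((xw.map g).prod) ^ 4 = 1 := congrArg Subtype.val h
      rw [← h2]; simp only [pow_succ, pow_zero, one_mul]
    · apply Subtype.ext
      show (yw.map g).prod * (xw.map g).prod * ((yw.map g).prod)⁻¹ = ((xw.map g).prod) ^ 3
      rw [mul_inv_eq_one.1 e2]; simp only [pow_succ, pow_zero, one_mul]
    · apply Subtype.ext
      show (yw.map g).prod * (yw.map g).prod = ((xw.map g).prod) ^ 4
      rw [mul_inv_eq_one.1 e3]; simp only [pow_succ, pow_zero, one_mul]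
    · rw [cardM]; norm_num
  · intro Γ _ _ σ hσ hc
    have e1 := us_get (w := ew ++ fw ++ iw (fw ++ ew)) (by decide +kernel)
    have e2 := us_get (w := hw ++ ew ++ iw hw ++ iw fw) (by decide +kernel)
    have e3 := us_get (w := hw ++ fw ++ iw hw ++ iw ew) (by decide +kernel)
    have e4 := us_get (w := fw ++ fw ++ fw) (by decide +kernel)
    simp only [List.map_append, List.prod_append, iw_prod] at e1 e2 e3 e4
    have i2 : g 2 = (g 1)⁻¹ := gU.good.inv 1
    have e5 : (ew.map g).prod ^ 3 = 1 := by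
      have := gm_good.rel ([1, 1, 1], 1) (by decide +kernel)
      simp only [List.map_cons, List.map_nil, List.prod_cons, List.prod_nil, mul_one, pow_one] at this
      show (g 2 * 1) ^ 3 = 1
      rw [mul_one, i2, inv_pow, inv_eq_one]
      simp only [pow_succ, pow_zero, one_mul, mul_assoc]
      exact this
    have n1 := ne_of_tab (w := fw) (by decide +kernel) (i := 7) (by decide +kernel) (by decide +kernel)
    have n2 := ne_of_tab (w := fw ++ iw ew) (by decide +kernel) (i := 7) (by decide +kernel) (by decide +kernel)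
    have n3 := ne_of_tab (w := fw ++ ew) (by decide +kernel) (i := 0) (by decide +kernel) (by decide +kernel)
    have n4 := ne_of_tab (w := ew) (by decide +kernel) (i := 7) (by decide +kernel) (by decide +kernel)
    simp only [List.map_append, List.prod_append, iw_prod] at n2 n3
    set E : M := mw [2] rfl with hE
    set F : M := mw [2, 4, 5] rfl with hF
    have cE : (E : G) = (ew.map g).prod := rfl
    have cF : (F : G) = (fw.map g).prod := rfl
    have hcomm : E * F = F * E := Subtype.ext (mul_inv_eq_one.1 e1)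
    have hE3 : E ^ 3 = 1 := Subtype.ext e5
    have hF3 : F ^ 3 = 1 := by
      apply Subtype.ext
      show ((fw.map g).prod) ^ 3 = 1
      rw [← e4]; simp only [pow_succ, pow_zero, one_mul]
    have hE1 : E ≠ 1 := fun h => n4 (congrArg Subtype.val h)
    have f3 : Fact (Nat.Prime 3) := ⟨Nat.prime_three⟩
    have oE : orderOf E = 3 := orderOf_eq_prime hE3 hE1
    have hFE : F ∉ zpowers E := by
      rintro ⟨i, hi⟩
      have hi : E ^ i = F := hi
      rw [← zpow_mod_orderOf, oE] at hi
      have h1 : i % ((3 : ℕ) : ℤ) = 0 ∨ i % ((3 : ℕ) : ℤ) = 1 ∨ i % ((3 : ℕ) : ℤ) = 2 := by omega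
      rcases h1 with h | h | h
      · rw [h, zpow_zero] at hi
        exact n1 (congrArg Subtype.val hi.symm)
      · rw [h, zpow_one] at hi
        apply n2
        rw [mul_inv_eq_one, ← cF, ← cE, hi]
      · rw [h] at hi
        apply n3
        have h2 : F * E = 1 := by
          rw [← hi, ← hE3, pow_succ]
          rfl
        exact congrArg Subtype.val h2
    have hcard := (H90.Stem.adj_card (C := zpowers E) (x := F) Nat.prime_three ?_ ?_ hFE).1
    · refine H90.Stem.false_of_nine hσ hc (e := E) (f := F) (h := mw [3, 6, 2, 8, 1, 7, 3] rfl) hcomm ?_ ?_ (k := 2)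
        (m := 880) (by rw [cardM]; norm_num) (by norm_num) ?_
      · exact Subtype.ext (mul_inv_eq_one.1 e2)
      · exact Subtype.ext (mul_inv_eq_one.1 e3)
      · have h8 : zpowers E ⊔ zpowers F ≤ closure {E, F} := by
          refine sup_le ?_ ?_
          · rw [zpowers_le]; exact subset_closure (by simp)
          · rw [zpowers_le]; exact subset_closure (by simp)
        have h9 := Subgroup.card_dvd_of_le h8
        rw [hcard, Nat.card_zpowers, oE] at h9
        exact h9
    · rintro _ ⟨i, rfl⟩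
      change F * E ^ i * F⁻¹ ∈ _
      have : Commute F (E ^ i) := ((show Commute E F from hcomm).zpow_left i).symm
      rw [this.eq, mul_inv_cancel_right]
      exact ⟨i, rfl⟩
    · rw [hF3]; exact one_mem _

theorem mbM : MB M 1 := MB.of_cyclic multM

end Cfsg.Agent.MRel.HS
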