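import Cfsg.Agent.MRel.Cen
import Cfsg.Agent.CosetEnum.Suz.Chain
import Cfsg.Agent.CosetEnum.M83.CertsJ
import Cfsg.Agent.CosetEnum.M83.WJ

set_option autoImplicit false
set_option maxRecDepth 1000000

/-!
The Schur multiplier of the presented `J₂` has order dividing two (owner: helper83).
-/

namespace Cfsg.Agent.MRel.J2

open Cfsg.Agent.CosetEnum Cfsg.Agent.CosetEnum.Suz Subgroup Mult
open scoped commutatorElement

/-! ### relations in `J₂` -/

theorem rep_prod {G : Type*} [Group G] (g : ℕ → G) (n : ℕ) (u : List ℕ) :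
    ((M83WJ.rep n u).map g).prod = ((u.map g).prod) ^ n := by
  induction n with
  | zero => simp [M83WJ.rep]
  | succ n ih => rw [M83WJ.rep, List.map_append, List.prod_append, ih, pow_succ']

theorem q_sq (x : ℕ) (h : ivL SuzT5.iv x = x) : q5 x * q5 x = 1 := by
  have := U5.good.inv x
  rw [h] at this
  nth_rewrite 1 [this]
  exact inv_mul_cancel _

/-- the element `y` -/
noncomputable def Y : Q5 := (M83WJ.yw.map q5).prod

theorem us_rel : ∀ u ∈ M83WJ.us, (u.map q5).prod = 1 :=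
  L5.rels F5.1 (by decide +kernel) (Cov.of M83WJ.uc0 rfl)

theorem Y_inv : (M83WJ.yw.reverse.map q5).prod = Y⁻¹ := by
  have h := us_rel (M83WJ.yw ++ M83WJ.yw.reverse) (by decide)
  rw [List.map_append, List.prod_append] at h
  exact (inv_eq_of_mul_eq_one_right h).symm

theorem aY : q5 1 * Y = Y * q5 1 := by
  have h := us_rel ([1] ++ M83WJ.yw ++ [1] ++ M83WJ.yw.reverse) (by decide)
  rw [List.map_append, List.prod_append, List.map_append, List.prod_append, List.map_append, List.prod_append, Y_inv] at h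
  have h2 : q5 1 * Y * q5 1 * Y⁻¹ = 1 := by simpa [Y] using h
  have h3 := q_sq 1 rfl
  calc q5 1 * Y = q5 1 * Y * q5 1 * Y⁻¹ * Y * q5 1 := by
        rw [inv_mul_cancel_right, mul_assoc (q5 1 * Y), h3, mul_one]
    _ = Y * q5 1 := by rw [h2, one_mul]

theorem rY1 : (q5 4 * q5 5 * Y * q5 4 * Y) ^ 3 = 1 := by
  have h := us_rel (M83WJ.rep 3 ([4, 5] ++ M83WJ.yw ++ [4] ++ M83WJ.yw)) (by decide)
  rw [rep_prod, List.map_append, List.prod_append, List.map_append, List.prod_append, List.map_append, List.prod_append] at h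
  simpa [Y, mul_assoc] using h

theorem rY2 : (q5 5 * Y) ^ 5 = 1 := by
  have h := us_rel (M83WJ.rep 5 ([5] ++ M83WJ.yw)) (by decide)
  rw [rep_prod, List.map_append, List.prod_append] at h
  simpa [Y, mul_assoc] using h

theorem rY3 : (q5 3 * q5 4 * Y) ^ 3 = 1 := by
  have h := us_rel (M83WJ.rep 3 ([3, 4] ++ M83WJ.yw)) (by decide)
  rw [rep_prod, List.map_append, List.prod_append] at h
  simpa [Y, mul_assoc] using h

/-! ### elementary group theory -/

section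

variable {G : Type*} [Group G]

theorem inv_of_sq {x : G} (h : x * x = 1) : x⁻¹ = x := inv_eq_of_mul_eq_one_right h

theorem comm_of_sq {x y : G} (hx : x * x = 1) (hy : y * y = 1) (h : (x * y) ^ 2 = 1) : x * y = y * x := by
  rw [pow_two] at h
  have h1 := eq_inv_of_mul_eq_one_left h
  rw [mul_inv_rev, inv_of_sq hx, inv_of_sq hy] at h1
  exact h1

theorem conj3_of {x y : G} (hx : x * x = 1) (hy : y * y = 1) (h : (x * y) ^ 3 = 1) : (x * y) * x * (x * y)⁻¹ = y := by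
  rw [mul_inv_rev, inv_of_sq hx, inv_of_sq hy]
  have h1 : x * y * x * (y * x) * y = 1 := by rw [← h]; simp only [pow_succ, pow_zero, one_mul, mul_assoc]
  have := eq_inv_of_mul_eq_one_left h1
  rwa [inv_of_sq hy] at this

theorem conj5_of {x y : G} (hx : x * x = 1) (hy : y * y = 1) (h : (x * y) ^ 5 = 1) :
    (x * y) ^ 2 * x * ((x * y) ^ 2)⁻¹ = y := by
  rw [← inv_pow, mul_inv_rev, inv_of_sq hx, inv_of_sq hy]
  have h1 : (x * y) ^ 2 * x * (y * x) ^ 2 * y = 1 := by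
    rw [← h]; simp only [pow_succ, pow_zero, one_mul, mul_assoc]
  have := eq_inv_of_mul_eq_one_left h1
  rwa [inv_of_sq hy] at this

end

/-- linear algebra in an abelian group -/
theorem chi_alg {A : Type*} [CommGroup A] {c d e y : A} (hc : c * c = 1) (hd : d * d = 1) (he : e * e = 1)
    (hde : (d * e) ^ 3 = 1) (h1 : (d * e * y * d * y) ^ 3 = 1) (h2 : (e * y) ^ 5 = 1) (h3 : (c * d * y) ^ 3 = 1) :
    c = 1 ∧ d = 1 := by
  have hde' : d * e = 1 := by
    have : (d * e) ^ 3 = (d * d) * (e * e) * (d * e) := by rw [mul_pow]; simp only [pow_succ, pow_zero, one_mul]; ac_rfl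
    rw [this, hd, he, one_mul, one_mul] at hde
    exact hde
  have hed : e = d := by
    have h := inv_eq_of_mul_eq_one_right hde'
    rw [← h]; exact inv_of_sq hd
  subst hed
  have e1 : (e * e * y * e * y) ^ 3 = (e * e) ^ 4 * e * y ^ 6 := by
    simp only [pow_succ, pow_zero, one_mul]; ac_rfl
  have e3 : (c * e * y) ^ 3 * (c * e * y) ^ 3 = (c * c) ^ 3 * (e * e) ^ 3 * y ^ 6 := by
    simp only [pow_succ, pow_zero, one_mul]; ac_rfl
  rw [h3, hc, hd] at e3
  simp only [one_pow, one_mul] at e3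
  rw [h1, hd, one_pow, one_mul, ← e3, mul_one] at e1
  have he1 : e = 1 := e1.symm
  subst he1
  have e2 : y ^ 5 = 1 := by rwa [one_mul] at h2
  have e4 : y = 1 := by
    have : y ^ 6 = y ^ 5 * y := pow_succ y 5
    rw [← e3, e2, one_mul] at this
    exact this.symm
  subst e4
  rw [mul_one, mul_one] at h3
  have : c ^ 3 = (c * c) * c := by rw [pow_succ, pow_two]
  rw [this, hc, one_mul] at h3
  exact ⟨h3, rfl⟩

/-! ### more relations in `J₂` -/

theorem q_rel {u : List ℕ} {m : ℕ} (h : (u, m) ∈ SuzT5.RL) : ((u.map q5).prod) ^ m = 1 := U5.good.rel (u, m) h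

theorem q_pair {x y m : ℕ} (h : ([x, y], m) ∈ SuzT5.RL) : (q5 x * q5 y) ^ m = 1 := by
  have := q_rel h
  simpa using this

theorem q_comm {x y : ℕ} (hx : ivL SuzT5.iv x = x) (hy : ivL SuzT5.iv y = y) (h : ([x, y], 2) ∈ SuzT5.RL) :
    q5 x * q5 y = q5 y * q5 x := comm_of_sq (q_sq x hx) (q_sq y hy) (q_pair h)

theorem acd : q5 1 = (q5 3 * q5 4) ^ 4 := by
  have h := q_rel (u := [1, 3, 4, 3, 4, 3, 4, 3, 4]) (m := 1) (by decide)
  have h2 : q5 1 * (q5 3 * q5 4) ^ 4 = 1 := by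
    simpa [pow_succ, mul_assoc] using h
  have h3 := inv_eq_of_mul_eq_one_right h2
  rw [inv_of_sq (q_sq 1 rfl)] at h3
  exact h3

/-- the conjugate of `c` by `d` -/
noncomputable def k : Q5 := q5 4 * q5 3 * q5 4

theorem k_sq : k * k = 1 := by
  unfold k
  calc q5 4 * q5 3 * q5 4 * (q5 4 * q5 3 * q5 4) = q5 4 * q5 3 * (q5 4 * q5 4) * q5 3 * q5 4 := by
        simp only [mul_assoc]
    _ = 1 := by rw [q_sq 4 rfl, mul_one, mul_assoc (q5 4), q_sq 3 rfl, mul_one, q_sq 4 rfl]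

theorem dkd : q5 4 * k * (q5 4)⁻¹ = q5 3 := by
  rw [inv_of_sq (q_sq 4 rfl)]
  unfold k
  calc q5 4 * (q5 4 * q5 3 * q5 4) * q5 4 = (q5 4 * q5 4) * q5 3 * (q5 4 * q5 4) := by simp only [mul_assoc]
    _ = q5 3 := by rw [q_sq 4 rfl, one_mul, mul_one]

theorem dcd : q5 4 * q5 3 * (q5 4)⁻¹ = k := by
  rw [inv_of_sq (q_sq 4 rfl)]; rfl

theorem bk3 : (q5 2 * k) ^ 3 = 1 := by
  have h1 : q5 2 * k = q5 4 * (q5 2 * q5 3) * (q5 4)⁻¹ := by
    unfold k
    rw [inv_of_sq (q_sq 4 rfl), ← mul_assoc, ← mul_assoc, q_comm (x := 2) (y := 4) rfl rfl (by decide)]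
    simp only [mul_assoc]
  rw [h1, conj_pow, q_pair (by decide), mul_one, mul_inv_cancel]

theorem ck2 : (q5 3 * k) ^ 2 = q5 1 := by
  rw [acd]
  unfold k
  simp only [pow_succ, pow_zero, one_mul, mul_assoc]

theorem a_c : q5 1 * q5 3 = q5 3 * q5 1 := q_comm rfl rfl (by decide)
theorem a_d : q5 1 * q5 4 = q5 4 * q5 1 := q_comm rfl rfl (by decide)
theorem a_e : q5 1 * q5 5 = q5 5 * q5 1 := q_comm rfl rfl (by decide)
theorem b_d : q5 2 * q5 4 = q5 4 * q5 2 := q_comm rfl rfl (by decide)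
theorem b_e : q5 2 * q5 5 = q5 5 * q5 2 := q_comm rfl rfl (by decide)
theorem c_e : q5 3 * q5 5 = q5 5 * q5 3 := q_comm rfl rfl (by decide)

/-- the relation `X` -/
theorem relX : ((q5 2 * q5 3 * q5 4 * q5 3 * q5 4) ^ 5 * q5 5) ^ 3 = 1 := by
  have h := q_rel (u := [2, 3, 4, 3, 4, 2, 3, 4, 3, 4, 2, 3, 4, 3, 4, 2, 3, 4, 3, 4, 2, 3, 4, 3, 4, 5]) (m := 3) (by decide)
  have e : ([2, 3, 4, 3, 4, 2, 3, 4, 3, 4, 2, 3, 4, 3, 4, 2, 3, 4, 3, 4, 2, 3, 4, 3, 4, 5] : List ℕ) =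
    M83WJ.rep 5 [2, 3, 4, 3, 4] ++ [5] := rfl
  rw [e, List.map_append, List.prod_append, rep_prod] at h
  simpa [mul_assoc] using h

/-! ### lifts -/

section

variable {Γ : Type} [Group Γ] {σ : Γ →* Q5} (C : CE σ)

theorem tr_ca_da : C.Tr (q5 3) (q5 1) ∧ C.Tr (q5 4) (q5 1) := by
  have mc := mem_cen (a := q5 1) (x := q5 3) a_c.symm
  have md := mem_cen (a := q5 1) (x := q5 4) a_d.symm
  have me := mem_cen (a := q5 1) (x := q5 5) a_e.symm
  have my := mem_cen (a := q5 1) (x := Y) aY.symm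
  let c' : ↥(centralizer ({q5 1} : Set Q5)) := ⟨q5 3, mc⟩
  let d' : ↥(centralizer ({q5 1} : Set Q5)) := ⟨q5 4, md⟩
  let e' : ↥(centralizer ({q5 1} : Set Q5)) := ⟨q5 5, me⟩
  let y' : ↥(centralizer ({q5 1} : Set Q5)) := ⟨Y, my⟩
  have hsq : ∀ x : ↥(centralizer ({q5 1} : Set Q5)), (x : Q5) * x = 1 → chi C (q5 1) x * chi C (q5 1) x = 1 := by
    intro x hx
    rw [← map_mul, show x * x = 1 from Subtype.ext hx, map_one]
  have hp : ∀ (x : ↥(centralizer ({q5 1} : Set Q5))) (n : ℕ), (x : Q5) ^ n = 1 → (chi C (q5 1) x) ^ n = 1 := by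
    intro x n hx
    rw [← map_pow, show x ^ n = 1 from Subtype.ext hx, map_one]
  let iC : CommGroup ↥(center Γ) := { (inferInstance : Group ↥(center Γ)) with
    mul_comm := fun x y => Subtype.ext (mem_center_iff.1 x.2 y).symm }
  obtain ⟨h1, h2⟩ := chi_alg (c := chi C (q5 1) c') (d := chi C (q5 1) d') (e := chi C (q5 1) e') (y := chi C (q5 1) y')
    (hsq c' (q_sq 3 rfl)) (hsq d' (q_sq 4 rfl)) (hsq e' (q_sq 5 rfl))
    (by rw [← map_mul]; exact hp _ _ (q_pair (x := 4) (y := 5) (by decide)))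
    (by rw [← map_mul, ← map_mul, ← map_mul, ← map_mul]; exact hp _ _ rY1)
    (by rw [← map_mul]; exact hp _ _ rY2)
    (by rw [← map_mul, ← map_mul]; exact hp _ _ rY3)
  exact ⟨chi_eq_one C mc h1, chi_eq_one C md h2⟩

theorem tr_ka : C.Tr k (q5 1) := (((tr_ca_da C).2.mul_left (tr_ca_da C).1).mul_left (tr_ca_da C).2)

/-- a canonical lift of `a` -/
noncomputable def a0 : Γ := C.cm (q5 4) (q5 3 * q5 4 * q5 3)

theorem σ_a0 : σ (a0 C) = q5 1 := by
  unfold a0
  rw [C.σ_cm, commutatorElement_def]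
  have h1 : (q5 3 * q5 4 * q5 3)⁻¹ = q5 3 * q5 4 * q5 3 := by
    rw [mul_inv_rev, mul_inv_rev, inv_of_sq (q_sq 3 rfl), inv_of_sq (q_sq 4 rfl), mul_assoc]
  rw [h1, inv_of_sq (q_sq 4 rfl)]
  have h2 : q5 4 * (q5 3 * q5 4 * q5 3) * q5 4 * (q5 3 * q5 4 * q5 3) = (q5 4 * q5 3) ^ 4 := by
    simp only [pow_succ, pow_zero, one_mul, mul_assoc]
  have h3 : (q5 4 * q5 3) ^ 4 = ((q5 3 * q5 4) ^ 4)⁻¹ := by
    rw [← inv_pow, mul_inv_rev, inv_of_sq (q_sq 3 rfl), inv_of_sq (q_sq 4 rfl)]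
  rw [h2, h3, ← acd, inv_of_sq (q_sq 1 rfl)]

theorem a0_sq : a0 C * a0 C = 1 := by
  have h1 : C.Tr (q5 4) ⁅q5 4, q5 3 * q5 4 * q5 3⁆ := by
    have := σ_a0 C
    unfold a0 at this
    rw [C.σ_cm] at this
    rw [this]
    exact (tr_ca_da C).2
  unfold a0
  rw [cm_sq_eq C h1, q_sq 4 rfl, C.cm_one_left]

noncomputable def b0 : Γ := C.cj ((q5 1 * q5 2) ^ 2) (a0 C)

theorem ab0 : (a0 C * b0 C) ^ 5 = 1 ∧ σ (b0 C) = q5 2 :=
  art5 C (σ_a0 C) (conj5_of (q_sq 1 rfl) (q_sq 2 rfl) (q_pair (by decide))) (a0_sq C)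

theorem b0_sq : b0 C * b0 C = 1 := cj_sq C (a0_sq C)

noncomputable def c0 : Γ := C.cj (q5 2 * q5 3) (b0 C)
noncomputable def k0 : Γ := C.cj (q5 2 * k) (b0 C)

theorem c0_sq : c0 C * c0 C = 1 := cj_sq C (b0_sq C)
theorem k0_sq : k0 C * k0 C = 1 := cj_sq C (b0_sq C)
theorem bc0 : (b0 C * c0 C) ^ 3 = 1 := art3_inv C (ab0 C).2 (conj3_of (q_sq 2 rfl) (q_sq 3 rfl) (q_pair (by decide))) (b0_sq C)
theorem bk0 : (b0 C * k0 C) ^ 3 = 1 := art3_inv C (ab0 C).2 (conj3_of (q_sq 2 rfl) k_sq bk3) (b0_sq C)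
theorem σ_c0 : σ (c0 C) = q5 3 := (art3 C (ab0 C).2 (conj3_of (q_sq 2 rfl) (q_sq 3 rfl) (q_pair (by decide)))).2
theorem σ_k0 : σ (k0 C) = k := (art3 C (ab0 C).2 (conj3_of (q_sq 2 rfl) k_sq bk3)).2

theorem ac0 : a0 C * c0 C = c0 C * a0 C := (C.tr_iff' (σ_a0 C) (σ_c0 C)).1 (tr_ca_da C).1.symm
theorem ak0 : a0 C * k0 C = k0 C * a0 C := (C.tr_iff' (σ_a0 C) (σ_k0 C)).1 (tr_ka C).symm

/-- the sign -/
noncomputable def ep : Γ := (c0 C * k0 C) ^ 2 * a0 C

theorem σ_ep : σ (ep C) = 1 := by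
  unfold ep
  rw [map_mul, map_pow, map_mul, σ_c0, σ_k0, σ_a0, ck2, q_sq 1 rfl]

theorem ep_comm (x : Γ) : ep C * x = x * ep C := cen_of_one C (σ_ep C) x

theorem ck0 : (c0 C * k0 C) ^ 2 = ep C * a0 C := by
  unfold ep
  rw [mul_assoc, a0_sq, mul_one]

theorem ep_sq : ep C * ep C = 1 := by
  have h1 : c0 C * (c0 C * k0 C) ^ 2 * c0 C = ((c0 C * k0 C) ^ 2)⁻¹ := by
    rw [← inv_pow, mul_inv_rev, inv_of_sq (c0_sq C), inv_of_sq (k0_sq C)]
    calc c0 C * (c0 C * k0 C) ^ 2 * c0 C = (c0 C * c0 C) * k0 C * c0 C * k0 C * c0 C := by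
          simp only [pow_succ, pow_zero, one_mul, mul_assoc]
      _ = _ := by rw [c0_sq, one_mul]; simp only [pow_succ, pow_zero, one_mul, mul_assoc]
  rw [ck0, mul_inv_rev, inv_of_sq (a0_sq C)] at h1
  have h2 : c0 C * (ep C * a0 C) * c0 C = ep C * a0 C := by
    rw [← mul_assoc, ← ep_comm, mul_assoc, mul_assoc, ac0, ← mul_assoc (c0 C), c0_sq, one_mul]
  rw [h2] at h1
  have h3 : ep C * a0 C = a0 C * ep C := ep_comm C _
  rw [h3] at h1
  have h4 := mul_left_cancel h1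
  nth_rewrite 1 [h4]
  exact inv_mul_cancel _

/-- product with the sign -/
theorem ep_mul_sq {x : Γ} (hx : x * x = 1) : (x * ep C) * (x * ep C) = 1 := by
  rw [mul_assoc, ← mul_assoc (ep C), ep_comm, mul_assoc, ep_sq, mul_one, hx]

theorem ep_mul_mul (x y : Γ) : (x * ep C) * (y * ep C) = x * y := by
  rw [mul_assoc, ← mul_assoc (ep C), ep_comm, mul_assoc, ep_sq, mul_one]

noncomputable def a1 : Γ := a0 C * ep C
noncomputable def b1 : Γ := b0 C * ep C
noncomputable def c1 : Γ := c0 C * ep C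
noncomputable def k1 : Γ := k0 C * ep C

theorem σ_a1 : σ (a1 C) = q5 1 := by unfold a1; rw [map_mul, σ_ep, mul_one, σ_a0]
theorem σ_b1 : σ (b1 C) = q5 2 := by unfold b1; rw [map_mul, σ_ep, mul_one, (ab0 C).2]
theorem σ_c1 : σ (c1 C) = q5 3 := by unfold c1; rw [map_mul, σ_ep, mul_one, σ_c0]
theorem σ_k1 : σ (k1 C) = k := by unfold k1; rw [map_mul, σ_ep, mul_one, σ_k0]

/-- the lifted letters of `3·A₆` -/
noncomputable def fH : ℕ → Γ
  | 1 => a1 C
  | 2 => b1 C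
  | 3 => c1 C
  | 4 => k1 C
  | _ => 1

theorem fH_good : Good (fH C) 4 M83H2.iv M83H2.RL where
  inv x := by
    show fH C x = (fH C x)⁻¹
    match x with
    | 0 => exact inv_one.symm
    | 1 => exact (inv_of_sq (ep_mul_sq C (a0_sq C))).symm
    | 2 => exact (inv_of_sq (ep_mul_sq C (b0_sq C))).symm
    | 3 => exact (inv_of_sq (ep_mul_sq C (c0_sq C))).symm
    | 4 => exact (inv_of_sq (ep_mul_sq C (k0_sq C))).symm
    | (n + 5) => exact inv_one.symm
  one x hx := by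
    match x with
    | 0 => rfl
    | 1 => exact absurd hx (by decide)
    | 2 => exact absurd hx (by decide)
    | 3 => exact absurd hx (by decide)
    | 4 => exact absurd hx (by decide)
    | (n + 5) => rfl
  rel := by
    intro p hp
    simp only [M83H2.RL, List.mem_cons, List.not_mem_nil, or_false] at hp
    rcases hp with rfl | rfl | rfl | rfl | rfl | rfl
    · simp only [List.map_cons, List.map_nil, List.prod_cons, List.prod_nil, mul_one, fH, a1, b1, ep_mul_mul, ab0]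
    · simp only [List.map_cons, List.map_nil, List.prod_cons, List.prod_nil, mul_one, fH, c1, b1, ep_mul_mul, bc0]
    · simp only [List.map_cons, List.map_nil, List.prod_cons, List.prod_nil, mul_one, fH, k1, b1, ep_mul_mul, bk0]
    · simp only [List.map_cons, List.map_nil, List.prod_cons, List.prod_nil, mul_one, fH, a1, c1, ep_mul_mul]
      rw [pow_two, mul_assoc, ← mul_assoc (c0 C), ← ac0, mul_assoc, c0_sq, mul_one, a0_sq]
    · simp only [List.map_cons, List.map_nil, List.prod_cons, List.prod_nil, mul_one, fH, a1, k1, ep_mul_mul]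
      rw [pow_two, mul_assoc, ← mul_assoc (k0 C), ← ak0, mul_assoc, k0_sq, mul_one, a0_sq]
    · simp only [List.map_cons, List.map_nil, List.prod_cons, List.prod_nil, mul_one, fH, pow_one]
      have h : c1 C * (k1 C * (c1 C * (k1 C * a1 C))) = (c0 C * k0 C) ^ 2 * a0 C * ep C := by
        unfold c1 k1 a1
        calc c0 C * ep C * (k0 C * ep C * (c0 C * ep C * (k0 C * ep C * (a0 C * ep C)))) =
            (c0 C * ep C * (k0 C * ep C)) * ((c0 C * ep C) * (k0 C * ep C)) * (a0 C * ep C) := by simp only [mul_assoc]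
          _ = _ := by rw [ep_mul_mul, pow_two]; simp only [mul_assoc]
      rw [h, ck0, mul_assoc (ep C), a0_sq, mul_one, ep_sq]

/-! ### the elements `d` and `e` -/

/-- the presented group `3·A₆` -/
abbrev QH : Type := QG 4 M83H2.iv M83H2.RL

abbrev qH : ℕ → QH := qg 4 M83H2.iv M83H2.RL

theorem UH : Univ qH 4 M83H2.iv M83H2.RL := univ_qg _ _ _

theorem bdH : Bd (⊤ : Subgroup QH) 1080 := by
  have g := UH.good
  rw [← UH.top]
  have h2 := (Bd.zero qH).cl (M := 10) M83H1.cert g (by decide +kernel) (by decide +kernel) (by norm_num) rfl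
  exact h2.cl (M := 1080) M83H2.cert g (by decide +kernel) (by decide +kernel) (by norm_num) rfl

theorem perfH : commutator QH = ⊤ := perfect_of UH.good UH.top (lets := [1, 2, 3, 4]) M83H3.cert

/-- exchanging `c` and `k`, followed by a conjugation -/
noncomputable def fH' (x : Γ) : ℕ → Γ
  | 1 => x * a1 C * x⁻¹
  | 2 => x * b1 C * x⁻¹
  | 3 => x * k1 C * x⁻¹
  | 4 => x * c1 C * x⁻¹
  | _ => 1

theorem fH_rel {u : List ℕ} {m : ℕ} (h : (u, m) ∈ M83H2.RL) : ((u.map (fH C)).prod) ^ m = 1 := (fH_good C).rel (u, m) h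

theorem fH_sq (x : ℕ) : fH C x * fH C x = 1 := by
  have := (fH_good C).inv x
  have h2 : ivL M83H2.iv x = x := rfl
  rw [h2] at this
  nth_rewrite 1 [this]
  exact inv_mul_cancel _

theorem a1_sq : a1 C * a1 C = 1 := fH_sq C 1
theorem b1_sq : b1 C * b1 C = 1 := fH_sq C 2
theorem c1_sq : c1 C * c1 C = 1 := fH_sq C 3
theorem k1_sq : k1 C * k1 C = 1 := fH_sq C 4

theorem ck1 : (c1 C * k1 C) ^ 2 = a1 C := by
  have h := fH_rel C (u := [3, 4, 3, 4, 1]) (m := 1) (by decide)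
  have h2 : (c1 C * k1 C) ^ 2 * a1 C = 1 := by simpa [fH, pow_two, mul_assoc] using h
  have := eq_inv_of_mul_eq_one_left h2
  rwa [inv_of_sq (a1_sq C)] at this

theorem conj_sq' {x y : Γ} (h : y * y = 1) : (x * y * x⁻¹) * (x * y * x⁻¹) = 1 := by
  have : (x * y * x⁻¹) * (x * y * x⁻¹) = x * (y * y) * x⁻¹ := by group
  rw [this, h, mul_one, mul_inv_cancel]

theorem fH'_good (x : Γ) : Good (fH' C x) 4 M83H2.iv M83H2.RL where
  inv y := by
    show fH' C x y = (fH' C x y)⁻¹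
    match y with
    | 0 => exact inv_one.symm
    | 1 => exact (inv_of_sq (conj_sq' (fH_sq C 1))).symm
    | 2 => exact (inv_of_sq (conj_sq' (fH_sq C 2))).symm
    | 3 => exact (inv_of_sq (conj_sq' (fH_sq C 4))).symm
    | 4 => exact (inv_of_sq (conj_sq' (fH_sq C 3))).symm
    | (n + 5) => exact inv_one.symm
  one y hx := by
    match y with
    | 0 => rfl
    | 1 => exact absurd hx (by decide)
    | 2 => exact absurd hx (by decide)
    | 3 => exact absurd hx (by decide)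
    | 4 => exact absurd hx (by decide)
    | (n + 5) => rfl
  rel := by
    have key : ∀ (y z : Γ) (n : ℕ), (y * z) ^ n = 1 → (x * y * x⁻¹ * (x * z * x⁻¹)) ^ n = 1 := by
      intro y z n h
      have : x * y * x⁻¹ * (x * z * x⁻¹) = x * (y * z) * x⁻¹ := by group
      rw [this, conj_pow, h, mul_one, mul_inv_cancel]
    intro p hp
    simp only [M83H2.RL, List.mem_cons, List.not_mem_nil, or_false] at hp
    rcases hp with rfl | rfl | rfl | rfl | rfl | rfl
    · simp only [List.map_cons, List.map_nil, List.prod_cons, List.prod_nil, mul_one, fH']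
      exact key _ _ _ (by simpa [fH] using fH_rel C (u := [1, 2]) (m := 5) (by decide))
    · simp only [List.map_cons, List.map_nil, List.prod_cons, List.prod_nil, mul_one, fH']
      exact key _ _ _ (by simpa [fH] using fH_rel C (u := [2, 4]) (m := 3) (by decide))
    · simp only [List.map_cons, List.map_nil, List.prod_cons, List.prod_nil, mul_one, fH']
      exact key _ _ _ (by simpa [fH] using fH_rel C (u := [2, 3]) (m := 3) (by decide))
    · simp only [List.map_cons, List.map_nil, List.prod_cons, List.prod_nil, mul_one, fH']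
      exact key _ _ _ (by simpa [fH] using fH_rel C (u := [1, 4]) (m := 2) (by decide))
    · simp only [List.map_cons, List.map_nil, List.prod_cons, List.prod_nil, mul_one, fH']
      exact key _ _ _ (by simpa [fH] using fH_rel C (u := [1, 3]) (m := 2) (by decide))
    · simp only [List.map_cons, List.map_nil, List.prod_cons, List.prod_nil, mul_one, fH', pow_one]
      have h1 : x * k1 C * x⁻¹ * (x * c1 C * x⁻¹ * (x * k1 C * x⁻¹ * (x * c1 C * x⁻¹ * (x * a1 C * x⁻¹)))) =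
          x * ((k1 C * c1 C) ^ 2 * a1 C) * x⁻¹ := by
        rw [pow_two]; group
      have h2 : (k1 C * c1 C) ^ 2 = a1 C := by
        have : (k1 C * c1 C) ^ 2 = ((c1 C * k1 C) ^ 2)⁻¹ := by
          rw [← inv_pow, mul_inv_rev, inv_of_sq (c1_sq C), inv_of_sq (k1_sq C)]
        rw [this, ck1, inv_of_sq (a1_sq C)]
      rw [h1, h2, a1_sq C, mul_one, mul_inv_cancel]

/-- `d` acts on the lifted letters -/
theorem d_act {x : Γ} (hx : σ x = q5 4) : x * a1 C * x⁻¹ = a1 C ∧ x * b1 C * x⁻¹ = b1 C ∧ x * c1 C * x⁻¹ = k1 C ∧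
    x * k1 C * x⁻¹ = c1 C := by
  obtain ⟨φ, hφ⟩ := qg_univ (fH_good C)
  obtain ⟨ψ, hψ⟩ := qg_univ (fH'_good C x)
  have hq : ∀ n, σ (fH C n) = σ (fH' C x n) := by
    intro n
    match n with
    | 0 => rfl
    | 1 =>
      show σ (a1 C) = σ (x * a1 C * x⁻¹)
      rw [map_mul, map_mul, map_inv, hx, σ_a1, ← a_d, mul_inv_cancel_right]
    | 2 =>
      show σ (b1 C) = σ (x * b1 C * x⁻¹)
      rw [map_mul, map_mul, map_inv, hx, σ_b1, ← b_d, mul_inv_cancel_right]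
    | 3 =>
      show σ (c1 C) = σ (x * k1 C * x⁻¹)
      rw [map_mul, map_mul, map_inv, hx, σ_c1, σ_k1, dkd]
    | 4 =>
      show σ (k1 C) = σ (x * c1 C * x⁻¹)
      rw [map_mul, map_mul, map_inv, hx, σ_c1, σ_k1, dcd]
    | (n + 5) => rfl
  have h : φ = ψ := by
    apply lift_unique C perfH
    have h1 : σ.comp φ = σ.comp ψ := by
      apply PresentedGroup.ext
      intro n
      show σ (φ (qH n)) = σ (ψ (qH n))
      rw [hφ, hψ, hq]
    exact fun a => DFunLike.congr_fun h1 a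
  have h2 : ∀ n, fH C n = fH' C x n := fun n => by rw [← hφ, ← hψ, h]
  exact ⟨(h2 1).symm, (h2 2).symm, (h2 4).symm, (h2 3).symm⟩

theorem conj_de : (q5 4 * q5 5) * q5 4 * (q5 4 * q5 5)⁻¹ = q5 5 := conj3_of (q_sq 4 rfl) (q_sq 5 rfl) (q_pair (by decide))

/-- a lift of `d` -/
noncomputable def d0 : Γ := C.y (q5 4)

theorem σ_d0 : σ (d0 C) = q5 4 := C.σ_y _

/-- the corresponding lift of `e` -/
noncomputable def e0 : Γ := C.cj (q5 4 * q5 5) (d0 C)

theorem σ_e0 : σ (e0 C) = q5 5 := by unfold e0; rw [C.σ_cj, σ_d0, conj_de]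

/-- the value of the relator `X` -/
noncomputable def X0 : Γ := ((b1 C * c1 C * d0 C * c1 C * d0 C) ^ 5 * e0 C) ^ 3

theorem σ_X0 : σ (X0 C) = 1 := by
  unfold X0
  simp only [map_pow, map_mul, σ_b1, σ_c1, σ_d0, σ_e0, relX]

/-- the scaling -/
noncomputable def la : Γ := (d0 C) ^ 32 * (X0 C)⁻¹

theorem σ_la : σ (la C) = 1 := by
  unfold la
  rw [map_mul, map_pow, map_inv, σ_X0, σ_d0, inv_one, mul_one]
  have : (q5 4) ^ 32 = (q5 4 * q5 4) ^ 16 := by rw [← pow_two, ← pow_mul]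
  rw [this, q_sq 4 rfl, one_pow]

theorem la_comm (x : Γ) : Commute (la C) x := cen_of_one C (σ_la C) x

noncomputable def d1 : Γ := d0 C * la C
noncomputable def e1 : Γ := e0 C * la C

theorem σ_d1 : σ (d1 C) = q5 4 := by unfold d1; rw [map_mul, σ_la, mul_one, σ_d0]
theorem σ_e1 : σ (e1 C) = q5 5 := by unfold e1; rw [map_mul, σ_la, mul_one, σ_e0]

theorem e1_eq : e1 C = C.cj (q5 4 * q5 5) (d1 C) := by
  unfold e1 d1 e0
  have h := (C.cj (q5 4 * q5 5)).map_mul (d0 C) (la C)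
  rw [h, C.cj_center (x := la C) _ (C.central (σ_la C))]

theorem X1 : ((b1 C * c1 C * d1 C * c1 C * d1 C) ^ 5 * e1 C) ^ 3 = (d1 C) ^ 32 := by
  have h1 : b1 C * c1 C * d1 C * c1 C * d1 C = (b1 C * c1 C * d0 C * c1 C * d0 C) * (la C) ^ 2 := by
    unfold d1
    calc b1 C * c1 C * (d0 C * la C) * c1 C * (d0 C * la C) = b1 C * c1 C * d0 C * (la C * (c1 C * d0 C)) * la C := by
          simp only [mul_assoc]
      _ = _ := by rw [(la_comm C (c1 C * d0 C)).eq, pow_two]; simp only [mul_assoc]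
  have h2 : ((b1 C * c1 C * d0 C * c1 C * d0 C) * (la C) ^ 2) ^ 5 =
      (b1 C * c1 C * d0 C * c1 C * d0 C) ^ 5 * (la C) ^ 10 := by
    rw [((la_comm C _).symm.pow_right 2).mul_pow, ← pow_mul]
  have h3 : ((b1 C * c1 C * d1 C * c1 C * d1 C) ^ 5 * e1 C) = ((b1 C * c1 C * d0 C * c1 C * d0 C) ^ 5 * e0 C) * (la C) ^ 11 := by
    rw [h1, h2]
    unfold e1
    calc (b1 C * c1 C * d0 C * c1 C * d0 C) ^ 5 * (la C) ^ 10 * (e0 C * la C) =
        (b1 C * c1 C * d0 C * c1 C * d0 C) ^ 5 * ((la C) ^ 10 * e0 C) * la C := by simp only [mul_assoc]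
      _ = _ := by rw [((la_comm C (e0 C)).pow_left 10).eq, pow_succ (la C) 10]; simp only [mul_assoc]
  rw [h3, ((la_comm C _).symm.pow_right 11).mul_pow, ← pow_mul]
  show X0 C * (la C) ^ 33 = (d0 C * la C) ^ 32
  rw [((la_comm C _).symm).mul_pow, pow_succ' (la C) 32]
  have h4 : X0 C * la C = (d0 C) ^ 32 := by
    have h5 : X0 C * (d0 C) ^ 32 = (d0 C) ^ 32 * X0 C := cen_of_one C (σ_X0 C) _
    unfold la
    rw [← mul_assoc, h5, mul_inv_cancel_right]
  rw [← mul_assoc, h4]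

theorem d1_sq_comm (x : Γ) : (d1 C * d1 C) * x = x * (d1 C * d1 C) :=
  cen_of_one C (by rw [map_mul, σ_d1, q_sq 4 rfl]) x

theorem e1_sq : e1 C * e1 C = d1 C * d1 C := by
  rw [e1_eq, ← map_mul, C.cj_center]
  exact C.central (by rw [MonoidHom.mem_ker, map_mul, σ_d1, q_sq 4 rfl])

theorem art_de : d1 C * e1 C * d1 C = e1 C * d1 C * e1 C := by
  rw [e1_eq]
  exact (art3 C (σ_d1 C) conj_de).1.symm

theorem de_fix {x : Γ} (h : C.Tr (q5 5) (σ x)) : e1 C * x = x * e1 C := (C.tr_iff' (σ_e1 C) rfl).1 h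

/-- the pairing of `e` with `a`, `b`, `c` is trivial -/
theorem chi_alg2 {A : Type*} [CommGroup A] {a b c : A} (ha : a * a = 1) (hb : b * b = 1) (hc : c * c = 1)
    (hab : (a * b) ^ 5 = 1) (hbc : (b * c) ^ 3 = 1) (h : (a * b * c) ^ 5 = 1) : a = 1 ∧ b = 1 ∧ c = 1 := by
  have h1 : (a * b) ^ 5 = (a * a) ^ 2 * (b * b) ^ 2 * (a * b) := by
    simp only [pow_succ, pow_zero, one_mul]; ac_rfl
  rw [hab, ha, hb] at h1
  simp only [one_pow, one_mul] at h1
  have h2 : (b * c) ^ 3 = (b * b) * (c * c) * (b * c) := by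
    simp only [pow_succ, pow_zero, one_mul]; ac_rfl
  rw [hbc, hb, hc] at h2
  simp only [one_mul] at h2
  rw [← h1, one_mul] at h
  have h3 : c ^ 5 = (c * c) ^ 2 * c := by simp only [pow_succ, pow_zero, one_mul]; ac_rfl
  rw [h3, hc, one_pow, one_mul] at h
  subst h
  rw [mul_one] at h2
  subst h2
  exact ⟨by rw [mul_one] at h1; exact h1.symm, rfl, rfl⟩

theorem abc5 : (q5 1 * q5 2 * q5 3) ^ 5 = 1 := by
  have h := us_rel (M83WJ.rep 5 [1, 2, 3]) (by decide)
  rw [rep_prod] at h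
  simpa [mul_assoc] using h

theorem tr_e : C.Tr (q5 1) (q5 5) ∧ C.Tr (q5 2) (q5 5) ∧ C.Tr (q5 3) (q5 5) := by
  have ma := mem_cen (a := q5 5) (x := q5 1) a_e
  have mb := mem_cen (a := q5 5) (x := q5 2) b_e
  have mc := mem_cen (a := q5 5) (x := q5 3) c_e
  let a' : ↥(centralizer ({q5 5} : Set Q5)) := ⟨q5 1, ma⟩
  let b' : ↥(centralizer ({q5 5} : Set Q5)) := ⟨q5 2, mb⟩
  let c' : ↥(centralizer ({q5 5} : Set Q5)) := ⟨q5 3, mc⟩
  have hsq : ∀ x : ↥(centralizer ({q5 5} : Set Q5)), (x : Q5) * x = 1 → chi C (q5 5) x * chi C (q5 5) x = 1 := by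
    intro x hx
    rw [← map_mul, show x * x = 1 from Subtype.ext hx, map_one]
  have hp : ∀ (x : ↥(centralizer ({q5 5} : Set Q5))) (n : ℕ), (x : Q5) ^ n = 1 → (chi C (q5 5) x) ^ n = 1 := by
    intro x n hx
    rw [← map_pow, show x ^ n = 1 from Subtype.ext hx, map_one]
  let iC : CommGroup ↥(center Γ) := { (inferInstance : Group ↥(center Γ)) with
    mul_comm := fun x y => Subtype.ext (mem_center_iff.1 x.2 y).symm }
  obtain ⟨h1, h2, h3⟩ := chi_alg2 (a := chi C (q5 5) a') (b := chi C (q5 5) b') (c := chi C (q5 5) c')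
    (hsq a' (q_sq 1 rfl)) (hsq b' (q_sq 2 rfl)) (hsq c' (q_sq 3 rfl))
    (by rw [← map_mul]; exact hp _ _ (q_pair (x := 1) (y := 2) (by decide)))
    (by rw [← map_mul]; exact hp _ _ (q_pair (x := 2) (y := 3) (by decide)))
    (by rw [← map_mul, ← map_mul]; exact hp _ _ abc5)
  exact ⟨chi_eq_one C ma h1, chi_eq_one C mb h2, chi_eq_one C mc h3⟩

/-- the family of letters `a b c k d D e E` -/
noncomputable def fJ : ℕ → Γ
  | 1 => a1 C
  | 2 => b1 C
  | 3 => c1 C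
  | 4 => k1 C
  | 5 => d1 C
  | 6 => (d1 C)⁻¹
  | 7 => e1 C
  | 8 => (e1 C)⁻¹
  | _ => 1

theorem rel_conj {x y z : Γ} (h : x * y * x⁻¹ = z) (hz : z * z = 1) : x * (y * (x⁻¹ * z)) = 1 := by
  rw [← mul_assoc, ← mul_assoc, h, hz]

theorem fJ_good : Good (fJ C) 8 M83J.iv M83J.RL where
  inv x := by
    match x with
    | 0 => exact inv_one.symm
    | 1 => exact (inv_of_sq (a1_sq C)).symm
    | 2 => exact (inv_of_sq (b1_sq C)).symm
    | 3 => exact (inv_of_sq (c1_sq C)).symm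
    | 4 => exact (inv_of_sq (k1_sq C)).symm
    | 5 => rfl
    | 6 => exact (inv_inv _).symm
    | 7 => rfl
    | 8 => exact (inv_inv _).symm
    | (n + 9) => exact inv_one.symm
  one x hx := by
    match x with
    | 0 => rfl
    | 1 => exact absurd hx (by decide)
    | 2 => exact absurd hx (by decide)
    | 3 => exact absurd hx (by decide)
    | 4 => exact absurd hx (by decide)
    | 5 => exact absurd hx (by decide)
    | 6 => exact absurd hx (by decide)
    | 7 => exact absurd hx (by decide)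
    | 8 => exact absurd hx (by decide)
    | (n + 9) => rfl
  rel := by
    obtain ⟨d1a, d1b, d1c, d1k⟩ := d_act C (σ_d1 C)
    obtain ⟨ta, tb, tc⟩ := tr_e C
    have ea : e1 C * a1 C = a1 C * e1 C := de_fix C (by rw [σ_a1]; exact ta.symm)
    have eb : e1 C * b1 C = b1 C * e1 C := de_fix C (by rw [σ_b1]; exact tb.symm)
    have ec : e1 C * c1 C = c1 C * e1 C := de_fix C (by rw [σ_c1]; exact tc.symm)
    have conj : ∀ {x y : Γ}, x * y = y * x → x * y * x⁻¹ = y := fun h => by rw [h, mul_inv_cancel_right]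
    intro p hp
    simp only [M83J.RL, List.mem_cons, List.not_mem_nil, or_false] at hp
    rcases hp with rfl | rfl | rfl | rfl | rfl | rfl | rfl | rfl | rfl | rfl | rfl | rfl | rfl | rfl | rfl | rfl | rfl
    · exact fH_rel C (u := [1, 2]) (m := 5) (by decide)
    · exact fH_rel C (u := [2, 3]) (m := 3) (by decide)
    · exact fH_rel C (u := [2, 4]) (m := 3) (by decide)
    · exact fH_rel C (u := [1, 3]) (m := 2) (by decide)
    · exact fH_rel C (u := [1, 4]) (m := 2) (by decide)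
    · exact fH_rel C (u := [3, 4, 3, 4, 1]) (m := 1) (by decide)
    · simpa [fJ] using rel_conj d1a (a1_sq C)
    · simpa [fJ] using rel_conj d1b (b1_sq C)
    · simpa [fJ] using rel_conj d1c (k1_sq C)
    · simpa [fJ] using rel_conj d1k (c1_sq C)
    · simp only [List.map_cons, List.map_nil, List.prod_cons, List.prod_nil, mul_one, fJ, pow_one]
      have h := d1_sq_comm C (e1 C)
      have h2 : d1 C * (d1 C * (e1 C * ((d1 C)⁻¹ * ((d1 C)⁻¹ * (e1 C)⁻¹)))) =
          (d1 C * d1 C * e1 C) * (d1 C * d1 C)⁻¹ * (e1 C)⁻¹ := by group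
      rw [h2, h, mul_inv_cancel_right, mul_inv_cancel]
    · simpa [fJ] using rel_conj (conj ea) (a1_sq C)
    · simpa [fJ] using rel_conj (conj eb) (b1_sq C)
    · simpa [fJ] using rel_conj (conj ec) (c1_sq C)
    · simp only [List.map_cons, List.map_nil, List.prod_cons, List.prod_nil, mul_one, fJ, pow_one]
      have h := art_de C
      have h2 : d1 C * (e1 C * (d1 C * ((e1 C)⁻¹ * ((d1 C)⁻¹ * (e1 C)⁻¹)))) =
          (d1 C * e1 C * d1 C) * (e1 C * d1 C * e1 C)⁻¹ := by group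
      rw [h2, h, mul_inv_cancel]
    · simp only [List.map_cons, List.map_nil, List.prod_cons, List.prod_nil, mul_one, fJ, pow_one]
      have h2 : e1 C * (e1 C * ((d1 C)⁻¹ * (d1 C)⁻¹)) = (e1 C * e1 C) * (d1 C * d1 C)⁻¹ := by group
      rw [h2, e1_sq, mul_inv_cancel]
    · have e : ([2, 3, 5, 3, 5, 2, 3, 5, 3, 5, 2, 3, 5, 3, 5, 2, 3, 5, 3, 5, 2, 3, 5, 3, 5, 7, 2, 3, 5, 3, 5, 2, 3, 5, 3, 5, 2, 3, 5, 3, 5, 2, 3, 5, 3, 5, 2, 3, 5, 3, 5, 7, 2, 3, 5, 3, 5, 2, 3, 5, 3, 5, 2, 3, 5, 3, 5, 2, 3, 5, 3, 5, 2, 3, 5, 3, 5, 7, 6, 6, 6, 6, 6, 6, 6, 6, 6, 6, 6, 6, 6, 6, 6, 6, 6, 6, 6, 6, 6, 6, 6, 6, 6, 6, 6, 6, 6, 6, 6, 6] : List ℕ) =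
        M83WJ.rep 3 (M83WJ.rep 5 [2, 3, 5, 3, 5] ++ [7]) ++ M83WJ.rep 32 [6] := rfl
      have h2 : ((M83WJ.rep 3 (M83WJ.rep 5 [2, 3, 5, 3, 5] ++ [7]) ++ M83WJ.rep 32 [6]).map (fJ C)).prod =
          ((b1 C * c1 C * d1 C * c1 C * d1 C) ^ 5 * e1 C) ^ 3 * ((d1 C)⁻¹) ^ 32 := by
        rw [List.map_append, List.prod_append, rep_prod, rep_prod, List.map_append, List.prod_append, rep_prod]
        simp [fJ, mul_assoc]
      show ((List.map (fJ C) _).prod) ^ 1 = 1
      rw [e, h2, X1, pow_one, inv_pow, mul_inv_cancel]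

theorem fJ_top (P : PCE σ) : Cl (fJ C) 8 = ⊤ := by
  apply P.top_of_map
  rw [eq_top_iff, ← U5.top]
  unfold Cl
  rw [Subgroup.closure_le]
  rintro _ ⟨x, hx, rfl⟩
  have hx' := isLet_iff.1 (show isLet 5 x = true from hx)
  have mem : ∀ n, isLet 8 n = true → fJ C n ∈ Subgroup.closure (fJ C '' {x | isLet 8 x = true}) :=
    fun n hn => Subgroup.subset_closure ⟨n, hn, rfl⟩
  match x, hx' with
  | 1, _ => exact ⟨fJ C 1, mem 1 rfl, σ_a1 C⟩
  | 2, _ => exact ⟨fJ C 2, mem 2 rfl, σ_b1 C⟩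
  | 3, _ => exact ⟨fJ C 3, mem 3 rfl, σ_c1 C⟩
  | 4, _ => exact ⟨fJ C 5, mem 5 rfl, σ_d1 C⟩
  | 5, _ => exact ⟨fJ C 7, mem 7 rfl, σ_e1 C⟩
  | (n + 6), h => omega

end

/-- the Schur multiplier of the presented `J₂` has order dividing two -/
theorem mb5 : MB Q5 2 := by
  intro Γ _ _ σ P
  have g := fJ_good P.ce
  have b1 : Bd (Cl (fJ P.ce) 4) 1080 := by
    have h2 := (Bd.zero (fJ P.ce)).cl (M := 10) M83H1.cert g (by decide +kernel) (by decide +kernel) (by norm_num) rfl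
    exact h2.cl (M := 1080) M83H2.cert g (by decide +kernel) (by decide +kernel) (by norm_num) rfl
  have b2 : Bd (Cl (fJ P.ce) 8) 1209600 := b1.cl M83J.cert g (by decide +kernel) (by decide +kernel) (by norm_num) rfl
  rw [fJ_top P.ce P] at b2
  have h1 := b2.2
  rw [Subgroup.card_top] at h1
  have h2 : Nat.card Γ = Nat.card Q5 * Nat.card σ.ker := by
    rw [Subgroup.card_eq_card_quotient_mul_card_subgroup σ.ker,
      Nat.card_congr (QuotientGroup.quotientKerEquivOfSurjective σ P.ce.surj).toEquiv]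
  rw [card5] at h2
  have h3 : 0 < Nat.card σ.ker := Nat.card_pos
  have h4 : Nat.card σ.ker ≤ 2 := by omega
  interval_cases Nat.card σ.ker
  · exact one_dvd 2
  · exact dvd_rfl

end Cfsg.Agent.MRel.J2
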