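import Cfsg.Agent.MRel.HSB
import Cfsg.Agent.MRel.J2

set_option autoImplicit false
set_option maxRecDepth 1000000

/-!
Perfect central extensions of the presented Higman–Sims group (owner: helper83).
-/

namespace Cfsg.Agent.MRel.HS

open Cfsg.Agent.CosetEnum Subgroup Mult Lets

theorem sqg {x : ℕ} (h : ivL M83K100.iv x = x) : g x * g x = 1 := by
  have := gU.good.inv x
  rw [h] at this
  nth_rewrite 1 [this]
  exact inv_mul_cancel _

theorem relg {w : List ℕ} {m : ℕ} (h : (w, m) ∈ M83K100.RL) : ((w.map g).prod) ^ m = 1 := gU.good.rel (w, m) h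

theorem pairg {x y m : ℕ} (h : ([x, y], m) ∈ M83K100.RL) : (g x * g y) ^ m = 1 := by simpa using relg h

theorem commg {x y : ℕ} (hx : ivL M83K100.iv x = x) (hy : ivL M83K100.iv y = y) (h : ([x, y], 2) ∈ M83K100.RL) :
    g x * g y = g y * g x := J2.comm_of_sq (sqg hx) (sqg hy) (pairg h)

/-- the element of order three -/
abbrev k : G := g 5 * g 6

theorem k3 : k ^ 3 = 1 := pairg (by decide +kernel)

theorem k_conj : k * g 5 * k⁻¹ = g 6 := J2.conj3_of (sqg rfl) (sqg rfl) k3

theorem k_g3 : k * g 3 = g 3 * k := by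
  have h1 := commg (x := 3) (y := 5) rfl rfl (by decide +kernel)
  have h2 := commg (x := 3) (y := 6) rfl rfl (by decide +kernel)
  show g 5 * g 6 * g 3 = g 3 * (g 5 * g 6)
  rw [mul_assoc, ← h2, ← mul_assoc, ← h1, mul_assoc]

section

variable {Γ : Type} [Group Γ] {σ : Γ →* G} (C : CE σ) (s : M →* Γ)

/-- lifts of the letters of the subgroup -/
noncomputable def l (x : ℕ) : Γ := if hx : isLet 8 x = true then s ⟨gm x, mem_Cl gm hx⟩ else 1

theorem l_eq (x : ℕ) (hx : isLet 8 x = true) : l s x = s ⟨gm x, mem_Cl gm hx⟩ := dif_pos hx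

/-- lift of the letter `e` -/
noncomputable def le : Γ := C.cj k (l s 5)

/-- the central letters -/
noncomputable def vz : Γ := (l s 6 * le C s) ^ 7
noncomputable def vy : Γ := (l s 8 * l s 1 * le C s) ^ 3
noncomputable def vv : Γ := (l s 8 * le C s * l s 7) ^ 4

/-- the letters of the covering presentation -/
noncomputable def fE : ℕ → Γ
  | 1 => l s 1
  | 2 => l s 2
  | 3 => l s 3
  | 4 => l s 4
  | 5 => l s 5
  | 6 => le C s
  | 7 => l s 6
  | 8 => l s 7
  | 9 => vz C s
  | 10 => (vz C s)⁻¹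
  | 11 => l s 8
  | 12 => vy C s
  | 13 => (vy C s)⁻¹
  | 14 => vv C s
  | 15 => (vv C s)⁻¹
  | _ => 1

theorem hfM (x : ℕ) (hx : isLet 8 x = true) : fE C s (mu x) = s ⟨gm x, mem_Cl gm hx⟩ := by
  have h := isLet_iff.1 hx
  rw [← l_eq s x hx]
  match x, h with
  | 1, _ => rfl
  | 2, _ => rfl
  | 3, _ => rfl
  | 4, _ => rfl
  | 5, _ => rfl
  | 6, _ => rfl
  | 7, _ => rfl
  | 8, _ => rfl
  | (n + 9), h => omega

theorem l_sq {x : ℕ} (hx : isLet 8 x = true) (h : ivL M83K100.iv (mu x) = mu x) : l s x * l s x = 1 := by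
  rw [l_eq s x hx]
  exact lift_sq s hx (sqg h)

theorem l_pair {x y m : ℕ} (hx : isLet 8 x = true) (hy : isLet 8 y = true) (h : (gm x * gm y) ^ m = 1) :
    (l s x * l s y) ^ m = 1 := by
  rw [l_eq s x hx, l_eq s y hy, ← map_mul, ← map_pow]
  have : ((⟨gm x, mem_Cl gm hx⟩ : M) * ⟨gm y, mem_Cl gm hy⟩) ^ m = 1 := Subtype.ext h
  rw [this, map_one]

theorem le_sq : le C s * le C s = 1 := cj_sq C (l_sq s rfl rfl)

variable (hs : ∀ h : M, σ (s h) = h)

include hs

theorem σ_l (x : ℕ) (hx : isLet 8 x = true) : σ (l s x) = gm x := by rw [l_eq s x hx, hs]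

theorem σ_le : σ (le C s) = g 6 := by
  unfold le
  rw [C.σ_cj, σ_l s hs 5 rfl]
  exact k_conj

theorem le_d : (l s 5 * le C s) ^ 3 = 1 := art3_inv C (σ_l s hs 5 rfl) k_conj (l_sq s rfl rfl)

theorem le_of_fix {x m : ℕ} (hx : isLet 8 x = true) (h : (gm x * gm 5) ^ m = 1) (ht : C.Tr k (gm x)) :
    (l s x * le C s) ^ m = 1 := by
  have h1 := l_pair s hx rfl h
  have h2 := ht.fix (σ_l s hs x hx)
  have h3 := congrArg (C.cj k) h1
  rw [map_pow, map_mul, h2, map_one] at h3
  exact h3

theorem le_a : (l s 1 * le C s) ^ 2 = 1 := by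
  have e1 := us_get (w := kw ++ [1] ++ iw kw ++ [1]) (by decide +kernel)
  have e2 := us_get (w := kw ++ [4, 5] ++ iw kw ++ iw [5, 6]) (by decide +kernel)
  have e3 := us_get (w := [1, 4, 5] ++ iw [4, 5, 1]) (by decide +kernel)
  simp only [List.map_append, List.prod_append, iw_prod] at e1 e2 e3
  set h : G := (kw.map g).prod with hh
  simp only [List.map_cons, List.map_nil, List.prod_cons, List.prod_nil, mul_one] at e1 e2 e3
  have t1 : C.Tr (g 1) (g 4 * g 5) :=
    tr_of_lift C s hs (mem_Cl gm (x := 1) rfl) (mul_mem (mem_Cl gm (x := 4) rfl) (mem_Cl gm (x := 5) rfl)) (by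
      have := mul_inv_eq_one.1 e3
      rw [this, mul_assoc])
  have t2 := t1.conj h
  rw [eq_inv_of_mul_eq_one_left e1, mul_inv_eq_one.1 e2] at t2
  have t3 := t2.inv_left
  rw [inv_inv] at t3
  refine le_of_fix C s hs (x := 1) rfl ?_ t3.symm
  exact pairg (x := 1) (y := 5) (by decide +kernel)

omit hs in
theorem tr_kb : C.Tr k (g 3) := tr_of_odd C (sqg rfl) k_g3 (m := 3) (by decide) k3

theorem le_b : (l s 3 * le C s) ^ 2 = 1 := by
  refine le_of_fix C s hs (x := 3) rfl ?_ (tr_kb C)
  exact pairg (x := 3) (y := 5) (by decide +kernel)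

theorem tr_b : C.Tr (g 3) (g 6) := by
  have t1 : C.Tr (g 3) (g 5) :=
    tr_of_lift C s hs (mem_Cl gm (x := 3) rfl) (mem_Cl gm (x := 5) rfl) (commg rfl rfl (by decide +kernel))
  have t2 := t1.conj k
  rw [k_conj, k_g3, mul_inv_cancel_right] at t2
  exact t2

theorem le_c : (l s 4 * le C s) ^ 2 = 1 := by
  have cb := commg (x := 3) (y := 6) rfl rfl (by decide +kernel)
  have cc := commg (x := 4) (y := 6) rfl rfl (by decide +kernel)
  have t1 : C.Tr (g 3 * g 4) (g 6) := by
    refine tr_of_odd C (sqg rfl) ?_ (m := 3) (by decide) (pairg (by decide +kernel))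
    rw [mul_assoc, cc, ← mul_assoc, cb, mul_assoc]
  have t2 : C.Tr (g 4) (g 6) := tr_cancel t1 (tr_b C s hs)
  have h1 : l s 4 * le C s = le C s * l s 4 := (C.tr_iff' (σ_l s hs 4 rfl) (σ_le C s hs)).1 t2
  rw [pow_two, mul_assoc, ← mul_assoc (le C s), ← h1, mul_assoc, le_sq, mul_one]
  exact l_sq s rfl rfl

theorem σ_vz : σ (vz C s) = 1 := by
  unfold vz
  rw [map_pow, map_mul, σ_l s hs 6 rfl, σ_le C s hs]
  have := us_get (w := [7, 6, 7, 6, 7, 6, 7, 6, 7, 6, 7, 6, 7, 6]) (by decide +kernel)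
  rw [← this]
  simp only [List.map_cons, List.map_nil, List.prod_cons, List.prod_nil, mul_one, pow_succ, pow_zero, one_mul, mul_assoc]
  rfl

theorem σ_vy : σ (vy C s) = 1 := by
  unfold vy
  rw [map_pow, map_mul, map_mul, σ_l s hs 8 rfl, σ_l s hs 1 rfl, σ_le C s hs]
  have := us_get (w := [11, 1, 6, 11, 1, 6, 11, 1, 6]) (by decide +kernel)
  rw [← this]
  simp only [List.map_cons, List.map_nil, List.prod_cons, List.prod_nil, mul_one, pow_succ, pow_zero, one_mul, mul_assoc]
  rfl

theorem σ_vv : σ (vv C s) = 1 := by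
  unfold vv
  rw [map_pow, map_mul, map_mul, σ_l s hs 8 rfl, σ_l s hs 7 rfl, σ_le C s hs]
  have := us_get (w := [11, 6, 8, 11, 6, 8, 11, 6, 8, 11, 6, 8]) (by decide +kernel)
  rw [← this]
  simp only [List.map_cons, List.map_nil, List.prod_cons, List.prod_nil, mul_one, pow_succ, pow_zero, one_mul, mul_assoc]
  rfl

theorem good : Good (fE C s) 15 M83K15.iv M83K15.RL := by
  have hi : ∀ x, fE C s (ivL M83K15.iv x) = (fE C s x)⁻¹ := by
    have hl : ∀ x y, isLet 8 x = true → isLet 8 y = true → gm y = (gm x)⁻¹ → l s y = (l s x)⁻¹ := by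
      intro x y hx hy h
      rw [l_eq s x hx, l_eq s y hy, ← map_inv]
      congr 1
      exact Subtype.ext h
    have hq : ∀ x : Γ, x * x = 1 → x = x⁻¹ := fun x h => eq_inv_of_mul_eq_one_left h
    intro x
    match x with
    | 0 => exact inv_one.symm
    | 1 => exact hl 1 2 rfl rfl (gm_good.inv 1)
    | 2 => exact hl 2 1 rfl rfl (gm_good.inv 2)
    | 3 => exact hq _ (l_sq s rfl rfl)
    | 4 => exact hq _ (l_sq s rfl rfl)
    | 5 => exact hq _ (l_sq s rfl rfl)
    | 6 => exact hq _ (le_sq C s)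
    | 7 => exact hl 6 7 rfl rfl (gm_good.inv 6)
    | 8 => exact hl 7 6 rfl rfl (gm_good.inv 7)
    | 9 => rfl
    | 10 => exact (inv_inv _).symm
    | 11 => exact hq _ (l_sq s rfl rfl)
    | 12 => rfl
    | 13 => exact (inv_inv _).symm
    | 14 => rfl
    | 15 => exact (inv_inv _).symm
    | (n + 16) => exact inv_one.symm
  refine ⟨hi, fun x hx => ?_, fun p hp => ?_⟩
  · match x, hx with
    | 0, _ => rfl
    | (n + 16), _ => rfl
  · have hsplit : (M83K15.RL.all fun p => cenRel [9, 12, 14] M83K15.iv p ||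
        (M83K8.RL.any fun q => (q.1.map mu == p.1 && q.2 == p.2) && wOK 8 q.1) ||
        [(([1, 6], 2) : List ℕ × ℕ), ([3, 6], 2), ([4, 6], 2), ([5, 6], 3),
          ([7, 6, 7, 6, 7, 6, 7, 6, 7, 6, 7, 6, 7, 6, 10], 1), ([11, 1, 6, 11, 1, 6, 11, 1, 6, 13], 1),
          ([11, 6, 8, 11, 6, 8, 11, 6, 8, 11, 6, 8, 15], 1)].contains p) = true := by decide +kernel
    simp only [List.all_eq_true, Bool.or_eq_true, Bool.and_eq_true, List.contains_iff_mem, List.any_eq_true,
      beq_iff_eq] at hsplit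
    rcases hsplit p hp with (h | ⟨q, hq, ⟨h1, h2⟩, h3⟩) | h
    · refine cenRel_prod hi (zs := [9, 12, 14]) ?_ h
      intro z hz y
      simp only [List.mem_cons, List.not_mem_nil, or_false] at hz
      rcases hz with rfl | rfl | rfl
      · exact cen_of_one C (σ_vz C s hs) y
      · exact cen_of_one C (σ_vy C s hs) y
      · exact cen_of_one C (σ_vv C s hs) y
    · rw [← h1, ← h2, List.map_map]
      have h4 := gm_good.rel q hq
      have h5 := lift_word s (f := fE C s ∘ mu) (hfM C s) h3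
      rw [h5, ← map_pow]
      have h6 : (⟨(q.1.map gm).prod, word_mem_Cl gm h3⟩ : M) ^ q.2 = 1 := Subtype.ext h4
      rw [h6, map_one]
    · simp only [List.mem_cons, List.not_mem_nil, or_false] at h
      rcases h with rfl | rfl | rfl | rfl | rfl | rfl | rfl
      · simp only [List.map_cons, List.map_nil, List.prod_cons, List.prod_nil, mul_one]
        exact le_a C s hs
      · simp only [List.map_cons, List.map_nil, List.prod_cons, List.prod_nil, mul_one]
        exact le_b C s hs
      · simp only [List.map_cons, List.map_nil, List.prod_cons, List.prod_nil, mul_one]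
        exact le_c C s hs
      · simp only [List.map_cons, List.map_nil, List.prod_cons, List.prod_nil, mul_one]
        exact le_d C s hs
      · simp only [List.map_cons, List.map_nil, List.prod_cons, List.prod_nil, mul_one, pow_one]
        show l s 6 * (le C s * (l s 6 * (le C s * (l s 6 * (le C s * (l s 6 * (le C s * (l s 6 * (le C s *
          (l s 6 * (le C s * (l s 6 * (le C s * (vz C s)⁻¹))))))))))))) = 1
        have : vz C s = l s 6 * (le C s * (l s 6 * (le C s * (l s 6 * (le C s * (l s 6 * (le C s * (l s 6 * (le C s *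
          (l s 6 * (le C s * (l s 6 * le C s)))))))))))) := by
          unfold vz
          simp only [pow_succ, pow_zero, one_mul, mul_assoc]
        rw [this]
        group
      · simp only [List.map_cons, List.map_nil, List.prod_cons, List.prod_nil, mul_one, pow_one]
        show l s 8 * (l s 1 * (le C s * (l s 8 * (l s 1 * (le C s * (l s 8 * (l s 1 * (le C s * (vy C s)⁻¹)))))))) = 1
        have : vy C s = l s 8 * (l s 1 * (le C s * (l s 8 * (l s 1 * (le C s * (l s 8 * (l s 1 * le C s))))))) := by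
          unfold vy
          simp only [pow_succ, pow_zero, one_mul, mul_assoc]
        rw [this]
        group
      · simp only [List.map_cons, List.map_nil, List.prod_cons, List.prod_nil, mul_one, pow_one]
        show l s 8 * (le C s * (l s 7 * (l s 8 * (le C s * (l s 7 * (l s 8 * (le C s * (l s 7 * (l s 8 * (le C s *
          (l s 7 * (vv C s)⁻¹))))))))))) = 1
        have : vv C s = l s 8 * (le C s * (l s 7 * (l s 8 * (le C s * (l s 7 * (l s 8 * (le C s * (l s 7 * (l s 8 *
          (le C s * l s 7)))))))))) := by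
          unfold vv
          simp only [pow_succ, pow_zero, one_mul, mul_assoc]
        rw [this]
        group

end

theorem rb : RB M 2 := by
  intro Γ _ _ σ P hex
  obtain ⟨s, hs⟩ := hex
  obtain ⟨φ, hφ⟩ := uU.univ _ _ (good P.ce s hs)
  have hc : ∀ x, isLet 15 x = true → σ (fE P.ce s x) = g x := by
    have g9 : g 9 = 1 := by simpa using relg (w := [9]) (m := 1) (by decide +kernel)
    have g12 : g 12 = 1 := by simpa using relg (w := [12]) (m := 1) (by decide +kernel)
    have g14 : g 14 = 1 := by simpa using relg (w := [14]) (m := 1) (by decide +kernel)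
    have g10 : g 10 = 1 := (gU.good.inv 9).trans (by rw [g9, inv_one])
    have g13 : g 13 = 1 := (gU.good.inv 12).trans (by rw [g12, inv_one])
    have g15 : g 15 = 1 := (gU.good.inv 14).trans (by rw [g14, inv_one])
    intro x hx
    have h := isLet_iff.1 hx
    match x, h with
    | 1, _ => exact σ_l s hs 1 rfl
    | 2, _ => exact σ_l s hs 2 rfl
    | 3, _ => exact σ_l s hs 3 rfl
    | 4, _ => exact σ_l s hs 4 rfl
    | 5, _ => exact σ_l s hs 5 rfl
    | 6, _ => exact σ_le P.ce s hs
    | 7, _ => exact σ_l s hs 6 rfl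
    | 8, _ => exact σ_l s hs 7 rfl
    | 9, _ => rw [g9]; exact σ_vz P.ce s hs
    | 10, _ =>
      rw [g10]
      show σ (vz P.ce s)⁻¹ = 1
      rw [map_inv, σ_vz P.ce s hs, inv_one]
    | 11, _ => exact σ_l s hs 8 rfl
    | 12, _ => rw [g12]; exact σ_vy P.ce s hs
    | 13, _ =>
      rw [g13]
      show σ (vy P.ce s)⁻¹ = 1
      rw [map_inv, σ_vy P.ce s hs, inv_one]
    | 14, _ => rw [g14]; exact σ_vv P.ce s hs
    | 15, _ =>
      rw [g15]
      show σ (vv P.ce s)⁻¹ = 1
      rw [map_inv, σ_vv P.ce s hs, inv_one]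
    | (n + 16), h => omega
  have hτφ : σ.comp φ = τ := by
    apply hom_letters uU.top
    intro x hx
    rw [MonoidHom.comp_apply, hφ, hc x hx, τ_u]
  rw [← card_ker]
  refine ker_dvd φ ?_ (fun y => DFunLike.congr_fun hτφ y)
  rw [← MonoidHom.range_eq_top]
  apply P.top_of_map
  rw [eq_top_iff, ← gU.top]
  unfold Cl
  rw [closure_le]
  rintro _ ⟨x, hx, rfl⟩
  exact ⟨φ (u x), ⟨u x, rfl⟩, by rw [hφ, hc x hx]⟩

theorem mbG : MB G 2 := by
  have := MB.of_rel perfM mbM rb
  rwa [one_mul] at this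

theorem perfG : commutator G = ⊤ := Pτ.base_perf

/-- **The Schur multiplier of the presented Higman–Sims group.** -/
theorem multG : HasCyclicSchurMultiplier G 2 := by
  refine cyclic_of perfG (by norm_num) mbG Pτ (z := u 9) τ9 ?_
  have h1 : orderOf (⟨u 9, τ9⟩ : τ.ker) = orderOf (u 9) := Subgroup.orderOf_mk _ _
  rw [← h1]
  have f2 : Fact (Nat.Prime 2) := ⟨by norm_num⟩
  have h2 : (⟨u 9, τ9⟩ : τ.ker) ≠ 1 := fun h => u9_ne (congrArg Subtype.val h)
  have h3 : orderOf (⟨u 9, τ9⟩ : τ.ker) ∣ 2 := by rw [← card_ker]; exact orderOf_dvd_natCard _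
  rcases (Nat.dvd_prime Nat.prime_two).1 h3 with h | h
  · exact absurd (orderOf_eq_one_iff.1 h) h2
  · rw [h]

end Cfsg.Agent.MRel.HS
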