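import Cfsg.Agent.MRel.StabH

/-!
Rules of subgroups of matrix groups in the packed format of `KMat` (owner: helper83).
-/

set_option autoImplicit false

namespace Cfsg.Agent.MRel.KM

open Cfsg.Agent.MulX.Coh Cfsg.Agent.MRel.Stab Cfsg.Agent.KMat
open Cfsg.Agent.CosetEnum (Cov)

/-- expansion of a word -/
def ex (W : List (List ℕ)) : List ℕ → List ℕ
  | [] => []
  | i :: w => W.getD i [] ++ ex W w

theorem val_ex {G : Type*} [Group G] (g : ℕ → G) (W : List (List ℕ)) (w : List ℕ) :
    val g (ex W w) = val (fun i => val g (W.getD i [])) w := by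
  induction w with
  | nil => rfl
  | cons i w ih =>
    show val g (W.getD i [] ++ ex W w) = _
    rw [val_append, val_cons, ih]

theorem ex_mem {W : List (List ℕ)} {L : List ℕ} (hW : ∀ w ∈ W, ∀ x ∈ w, x ∈ L) (w : List ℕ) : ∀ x ∈ ex W w, x ∈ L := by
  induction w with
  | nil => intro x hx; cases hx
  | cons i w ih =>
    intro x hx
    have h : x ∈ W.getD i [] ++ ex W w := hx
    rcases List.mem_append.1 h with h | h
    · by_cases hi : i < W.length
      · rw [List.getD_eq_getElem _ _ hi] at h
        exact hW _ (List.getElem_mem hi) x h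
      · rw [List.getD_eq_default _ _ (not_lt.mp hi)] at h
        cases h
    · exact ih x h

section

variable {P : Pm} {ms : ℕ → ℕ} {lets : List ℕ} {U : ℕ → (Matrix (Fin P.n) (Fin P.n) (ZMod P.p))ˣ} (F : Fam P ms lets U)
  (R : Subgroup (Matrix (Fin P.n) (Fin P.n) (ZMod P.p))ˣ)

open Classical in
/-- letters in the subgroup -/
noncomputable def gu (U : ℕ → (Matrix (Fin P.n) (Fin P.n) (ZMod P.p))ˣ)
    (R : Subgroup (Matrix (Fin P.n) (Fin P.n) (ZMod P.p))ˣ) (x : ℕ) : R := if h : U x ∈ R then ⟨U x, h⟩ else 1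

theorem gu_coe {x : ℕ} (h : U x ∈ R) : ((gu U R x : R) : (Matrix (Fin P.n) (Fin P.n) (ZMod P.p))ˣ) = U x := by
  unfold gu
  rw [dif_pos h]

theorem coe_val {w : List ℕ} (h : ∀ x ∈ w, U x ∈ R) :
    ((val (gu U R) w : R) : (Matrix (Fin P.n) (Fin P.n) (ZMod P.p))ˣ) = (w.map U).prod := by
  induction w with
  | nil => rfl
  | cons x w ih =>
    rw [val_cons, Subgroup.coe_mul, ih (fun y hy => h y (List.mem_cons_of_mem _ hy)), gu_coe R (h x (List.mem_cons_self)),
      List.map_cons, List.prod_cons]

variable {prs : List (List ℕ × List ℕ)} (hc : Cov (prB P ms prs) 0 P.n) {L : List ℕ} (hL : ∀ x ∈ L, x ∈ lets)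
  (hR : ∀ x ∈ L, U x ∈ R)

include F hc hL hR

theorem val_eq {w w' : List ℕ} (hp : (w, w') ∈ prs) (hw : ∀ x ∈ w, x ∈ L) (hw' : ∀ x ∈ w', x ∈ L) :
    val (gu U R) w = val (gu U R) w' := by
  apply Subtype.ext
  rw [coe_val R (fun x hx => hR x (hw x hx)), coe_val R (fun x hx => hR x (hw' x hx))]
  exact F.rel hc hp (fun x hx => hL x (hw x hx)) (fun x hx => hL x (hw' x hx))

variable {W : List (List ℕ)} (hW : (W.all fun w => w.all fun x => L.contains x) = true)

include hW

theorem hWm : ∀ w ∈ W, ∀ x ∈ w, x ∈ L := by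
  intro w hw x hx
  have := (List.all_eq_true.1 ((List.all_eq_true.1 hW) w hw)) x hx
  simpa using this

theorem holds {rules : List (List ℕ × List ℕ)} (hr : (rules.all fun q => prs.contains (ex W q.1, ex W q.2)) = true) :
    Holds (fun i => val (gu U R) (W.getD i [])) rules := by
  intro q hq
  have h1 := (List.all_eq_true.1 hr) q hq
  have h2 : (ex W q.1, ex W q.2) ∈ prs := by simpa using h1
  have hm := hWm F R hc hL hR hW
  rw [← val_ex, ← val_ex]
  exact val_eq F R hc hL hR h2 (ex_mem hm _) (ex_mem hm _)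

theorem card_closure {p n : ℕ} {l0 l1 : List ℕ} {lw : List (List ℕ)}
    (hlw : ((l0 ++ l1).all fun x => prs.contains ([x], ex W (lw.getD x []))) = true)
    (hlt : (lw.all fun w => w.all fun i => Nat.blt i n) = true) (h01 : ((l0 ++ l1).all fun x => L.contains x) = true)
    {v b : ℕ} (hv : Vec P v) (hb : Vec P b) (hfix : l0.all (fun x => Nat.beq (walk P ms [x] v) v) = true)
    (hd1 : dstB P ms v (pws p l1) = true) (hd0 : dstB P ms b (pws p l0) = true) (hfin : Finite R)
    (hn : l0.length + l1.length = n) :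
    p ^ n ≤ Nat.card ↥(Subgroup.closure ((fun i => val (gu U R) (W.getD i [])) '' {i | i < n})) := by
  set S := Subgroup.closure ((fun i => val (gu U R) (W.getD i [])) '' {i | i < n}) with hS
  have hm := hWm F R hc hL hR hW
  have hmemL : ∀ x ∈ l0 ++ l1, x ∈ L := fun x hx => by
    have := (List.all_eq_true.1 h01) x hx
    simpa using this
  have key : ∀ x ∈ l0 ++ l1, U x ∈ S.map R.subtype := by
    intro x hx
    have h1 : ([x], ex W (lw.getD x [])) ∈ prs := by
      have := (List.all_eq_true.1 hlw) x hx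
      simpa using this
    have h2 := val_eq F R hc hL hR h1 (fun y hy => by
      rw [List.mem_singleton] at hy
      subst hy
      exact hmemL y hx) (ex_mem hm _)
    rw [val_ex] at h2
    have h3 : val (gu U R) [x] = gu U R x := by rw [val_cons]; exact mul_one _
    refine ⟨gu U R x, ?_, gu_coe R (hR x (hmemL x hx))⟩
    show gu U R x ∈ S
    rw [← h3, h2]
    apply Subgroup.list_prod_mem
    intro y hy
    obtain ⟨i, hi, rfl⟩ := List.mem_map.1 hy
    refine Subgroup.subset_closure ⟨i, ?_, rfl⟩
    by_cases hx2 : x < lw.length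
    · rw [List.getD_eq_getElem _ _ hx2] at hi
      exact Nat.le_of_ble_eq_true ((List.all_eq_true.1 ((List.all_eq_true.1 hlt) _ (List.getElem_mem hx2))) i hi)
    · rw [List.getD_eq_default _ _ (not_lt.mp hx2)] at hi
      cases hi
  have hfinS : Finite ↥(S.map R.subtype) := by
    have h1 : Finite S := inferInstance
    exact Finite.of_equiv _ (S.equivMapOfInjective R.subtype (Subgroup.subtype_injective R)).toEquiv
  have h5 := F.card_ge (p := p) (l0 := l0) (l1 := l1) (fun x hx => hL x (hmemL x (List.mem_append_left _ hx)))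
    (fun x hx => hL x (hmemL x (List.mem_append_right _ hx))) hv hb
    (fun x hx => Nat.eq_of_beq_eq_true ((List.all_eq_true.1 hfix) x hx)) hd1 hd0 (Q := S.map R.subtype)
    (fun x hx => key x (List.mem_append_left _ hx)) (fun x hx => key x (List.mem_append_right _ hx)) hfinS
  rw [hn] at h5
  refine h5.trans (le_of_eq ?_)
  exact (Nat.card_congr (S.equivMapOfInjective R.subtype (Subgroup.subtype_injective R)).toEquiv).symm

omit hW in
theorem orderOf_word {p v : ℕ} {w : List ℕ} (hp : p.Prime) (hv : Vec P v) (hw : (w.all fun x => L.contains x) = true)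
    (hpw : prs.contains ((List.replicate p w).flatten, []) = true) (hne : Nat.beq (walk P ms w v) v = false) :
    orderOf (val (gu U R) w) = p := by
  haveI := Fact.mk hp
  have hw' : ∀ x ∈ w, x ∈ L := fun x hx => by
    have := (List.all_eq_true.1 hw) x hx
    simpa using this
  have hrep : ∀ k : ℕ, val (gu U R) (List.replicate k w).flatten = (val (gu U R) w) ^ k := by
    intro k
    induction k with
    | zero => rw [pow_zero]; rfl
    | succ k ih => rw [List.replicate_succ, List.flatten_cons, val_append, ih, pow_succ']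
  apply orderOf_eq_prime
  · rw [← hrep]
    refine (val_eq F R hc hL hR (w' := []) (by simpa using hpw) ?_ (by simp)).trans rfl
    intro x hx
    rw [List.mem_flatten] at hx
    obtain ⟨u, hu, hxu⟩ := hx
    rw [List.mem_replicate] at hu
    rw [hu.2] at hxu
    exact hw' x hxu
  · intro h
    have h1 : (w.map U).prod = 1 := by
      rw [← coe_val R (fun x hx => hR x (hw' x hx)), h]; rfl
    have h2 := (F.walk_eq (u := w) (u' := []) (fun x hx => hL x (hw' x hx)) (by simp) hv).2 (by rw [h1]; rfl)
    rw [h2, walk_nil] at hne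
    simp at hne

end

end Cfsg.Agent.MRel.KM
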