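import Cfsg.Agent.MulX.Coh
import Cfsg.Agent.MRel.Basic

/-!
# Tails in central extensions by groups of finite exponent (owner: helper83)

Letters `e i` of a central extension `E`, rules `lhs → rhs` that hold modulo the kernel, unknown central
tails.  Every closed rewriting path gives a linear equation modulo `m` for the tails.  The vectors of
exponents are packed in natural numbers (digits of `b` bits).
-/

set_option autoImplicit false

namespace Cfsg.Agent.MRel.Stab

open Cfsg.Agent.Golay Cfsg.Agent.MulX Cfsg.Agent.MulX.Coh Finset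
open scoped IsMulCommutative

/-! ### Packed vectors -/

/-- packed vector -/
def pk (b : ℕ) (d : ℕ → ℕ) : ℕ → ℕ
  | 0 => 0
  | n + 1 => d 0 + 2 ^ b * pk b (fun k => d (k + 1)) n

theorem pk_zero (b : ℕ) (d : ℕ → ℕ) : pk b d 0 = 0 := rfl
theorem pk_succ (b : ℕ) (d : ℕ → ℕ) (n : ℕ) : pk b d (n + 1) = d 0 + 2 ^ b * pk b (fun k => d (k + 1)) n := rfl

theorem pk_add (b n : ℕ) : ∀ d d' : ℕ → ℕ, pk b (fun k => d k + d' k) n = pk b d n + pk b d' n := by
  induction n with
  | zero => intro d d'; rfl
  | succ n ih => intro d d'; rw [pk_succ, pk_succ, pk_succ, ih]; ring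

theorem pk_mul (b c n : ℕ) : ∀ d : ℕ → ℕ, pk b (fun k => c * d k) n = c * pk b d n := by
  induction n with
  | zero => intro d; rfl
  | succ n ih => intro d; rw [pk_succ, pk_succ, ih]; ring

theorem pk_const_zero (b n : ℕ) : pk b (fun _ => 0) n = 0 := by
  induction n with
  | zero => rfl
  | succ n ih => rw [pk_succ, ih]; rfl

theorem pk_single (b c n : ℕ) : ∀ r, r < n → pk b (fun k => if r = k then c else 0) n = c * 2 ^ (b * r) := by
  induction n with
  | zero => intro r h; omega
  | succ n ih =>
    intro r h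
    rw [pk_succ]
    rcases r with _ | r
    · have : (fun k => if (0 : ℕ) = k + 1 then c else 0) = fun _ => 0 := by funext k; simp
      rw [this, pk_const_zero]; simp
    · have : (fun k => if r + 1 = k + 1 then c else 0) = fun k => if r = k then c else 0 := by
        funext k; simp
      rw [this, ih r (by omega), mul_add, mul_one, pow_add]
      simp
      ring

/-- digits congruent modulo `m` -/
def congB (b m : ℕ) : ℕ → ℕ → ℕ → Bool
  | 0, _, _ => true
  | n + 1, x, y => match Nat.beq (Nat.mod (Nat.mod x (Nat.pow 2 b)) m) (Nat.mod (Nat.mod y (Nat.pow 2 b)) m) with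
    | true => fz (Nat.shiftRight x b) fun x' => fz (Nat.shiftRight y b) fun y' => congB b m n x' y'
    | false => false

theorem pk_mod {b n : ℕ} {d : ℕ → ℕ} (h : d 0 < 2 ^ b) : pk b d (n + 1) % 2 ^ b = d 0 := by
  rw [pk_succ, Nat.add_mul_mod_self_left, Nat.mod_eq_of_lt h]

theorem pk_shift {b n : ℕ} {d : ℕ → ℕ} (h : d 0 < 2 ^ b) : pk b d (n + 1) >>> b = pk b (fun k => d (k + 1)) n := by
  rw [pk_succ, Nat.shiftRight_eq_div_pow, Nat.add_mul_div_left _ _ (by positivity), Nat.div_eq_of_lt h, zero_add]

theorem congB_spec {b m : ℕ} : ∀ (n : ℕ) (d d' : ℕ → ℕ), (∀ r, d r < 2 ^ b) → (∀ r, d' r < 2 ^ b) →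
    congB b m n (pk b d n) (pk b d' n) = true → ∀ r < n, d r % m = d' r % m := by
  intro n
  induction n with
  | zero => intro d d' _ _ _ r hr; omega
  | succ n ih =>
    intro d d' hd hd' h r hr
    have h1 : (match Nat.beq (Nat.mod (Nat.mod (pk b d (n + 1)) (Nat.pow 2 b)) m)
        (Nat.mod (Nat.mod (pk b d' (n + 1)) (Nat.pow 2 b)) m) with
      | true => fz (Nat.shiftRight (pk b d (n + 1)) b) fun x' => fz (Nat.shiftRight (pk b d' (n + 1)) b) fun y' => congB b m n x' y'
      | false => false) = true := h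
    cases hb : Nat.beq (Nat.mod (Nat.mod (pk b d (n + 1)) (Nat.pow 2 b)) m)
        (Nat.mod (Nat.mod (pk b d' (n + 1)) (Nat.pow 2 b)) m) with
    | false => rw [hb] at h1; cases h1
    | true =>
      rw [hb] at h1
      have h2 := Nat.eq_of_beq_eq_true hb
      have e1 : Nat.mod (pk b d (n + 1)) (Nat.pow 2 b) = d 0 := pk_mod (hd 0)
      have e2 : Nat.mod (pk b d' (n + 1)) (Nat.pow 2 b) = d' 0 := pk_mod (hd' 0)
      have e3 : Nat.shiftRight (pk b d (n + 1)) b = pk b (fun k => d (k + 1)) n := pk_shift (hd 0)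
      have e4 : Nat.shiftRight (pk b d' (n + 1)) b = pk b (fun k => d' (k + 1)) n := pk_shift (hd' 0)
      rw [e1, e2] at h2
      simp only [fz_eq] at h1
      rw [e3, e4] at h1
      rcases r with _ | r
      · exact h2
      · exact ih _ _ (fun r => hd _) (fun r => hd' _) h1 r (by omega)

/-- all digits are below 16 -/
def digB (b : ℕ) : ℕ → ℕ → Bool
  | 0, x => Nat.beq x 0
  | n + 1, x => match Nat.blt (Nat.mod x (Nat.pow 2 b)) 16 with
    | true => fz (Nat.shiftRight x b) fun x' => digB b n x'
    | false => false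

theorem digB_spec {b : ℕ} : ∀ (n x : ℕ), digB b n x = true → ∃ d : ℕ → ℕ, (∀ r, d r < 16) ∧ x = pk b d n := by
  intro n
  induction n with
  | zero =>
    intro x h
    exact ⟨fun _ => 0, fun _ => by norm_num, Nat.eq_of_beq_eq_true h⟩
  | succ n ih =>
    intro x h
    have h1 : (match Nat.blt (Nat.mod x (Nat.pow 2 b)) 16 with
      | true => fz (Nat.shiftRight x b) fun x' => digB b n x'
      | false => false) = true := h
    cases hb : Nat.blt (Nat.mod x (Nat.pow 2 b)) 16 with
    | false => rw [hb] at h1; cases h1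
    | true =>
      rw [hb] at h1
      simp only [fz_eq] at h1
      obtain ⟨d, hd, e⟩ := ih _ h1
      have h2 : x % 2 ^ b < 16 := Nat.le_of_ble_eq_true hb
      refine ⟨fun r => match r with | 0 => x % 2 ^ b | r + 1 => d r, ?_, ?_⟩
      · intro r
        rcases r with _ | r
        · exact h2
        · exact hd r
      · rw [pk_succ]
        have e1 : Nat.shiftRight x b = x / 2 ^ b := Nat.shiftRight_eq_div_pow x b
        rw [e1] at e
        show x = x % 2 ^ b + 2 ^ b * pk b d n
        rw [← e, Nat.mod_add_div]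

/-! ### Evaluation -/

section Ev

variable {Z : Type*} [CommGroup Z]

/-- value of a vector of exponents -/
def ev (x : ℕ → Z) (n : ℕ) (d : ℕ → ℕ) : Z := ∏ r ∈ range n, x r ^ d r

theorem ev_add (x : ℕ → Z) (n : ℕ) (d d' : ℕ → ℕ) : ev x n (fun k => d k + d' k) = ev x n d * ev x n d' := by
  unfold ev
  rw [← prod_mul_distrib]
  exact prod_congr rfl fun r _ => pow_add _ _ _

theorem ev_mul (x : ℕ → Z) (n c : ℕ) (d : ℕ → ℕ) : ev x n (fun k => c * d k) = ev x n d ^ c := by
  unfold ev
  rw [← prod_pow]
  exact prod_congr rfl fun r _ => by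
    show x r ^ (c * d r) = (x r ^ d r) ^ c
    rw [mul_comm, pow_mul]

theorem ev_zero (x : ℕ → Z) (n : ℕ) : ev x n (fun _ => 0) = 1 := by
  unfold ev
  exact prod_eq_one fun r _ => pow_zero _

theorem ev_single (x : ℕ → Z) {n r : ℕ} (hr : r < n) (c : ℕ) : ev x n (fun k => if r = k then c else 0) = x r ^ c := by
  unfold ev
  rw [prod_eq_single r]
  · simp
  · intro k _ hk
    show x k ^ (if r = k then c else 0) = 1
    rw [if_neg (Ne.symm hk), pow_zero]
  · intro h; exact absurd (mem_range.2 hr) h

theorem ev_congr {x : ℕ → Z} {n m : ℕ} (hm : ∀ r < n, x r ^ m = 1) {d d' : ℕ → ℕ} (h : ∀ r < n, d r % m = d' r % m) :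
    ev x n d = ev x n d' := by
  unfold ev
  apply prod_congr rfl
  intro r hr
  have h1 := hm r (mem_range.1 hr)
  rw [← Nat.div_add_mod (d r) m, ← Nat.div_add_mod (d' r) m, pow_add, pow_add, pow_mul, pow_mul, h1, one_pow, one_pow,
    h r (mem_range.1 hr)]

theorem ev_pow_exp {x : ℕ → Z} {n m : ℕ} (hm : ∀ r < n, x r ^ m = 1) (d : ℕ → ℕ) : ev x n d ^ m = 1 := by
  unfold ev
  rw [← prod_pow]
  exact prod_eq_one fun r hr => by rw [← pow_mul, mul_comm, pow_mul, hm r (mem_range.1 hr), one_pow]

theorem ev_mem {x : ℕ → Z} {n : ℕ} (K : Subgroup Z) (h : ∀ r < n, x r ∈ K) (d : ℕ → ℕ) : ev x n d ∈ K :=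
  Subgroup.prod_mem _ fun r hr => K.pow_mem (h r (mem_range.1 hr)) _

end Ev

/-! ### Combinations of rows -/

/-- combination of packed rows, coefficients below 16 -/
def comb : List ℕ → ℕ → ℕ
  | [], _ => 0
  | r :: rs, c => fz (Nat.shiftRight c 4) fun c' => Nat.add (Nat.mul (Nat.land c 15) r) (comb rs c')

theorem comb_cons (r : ℕ) (rs : List ℕ) (c : ℕ) : comb (r :: rs) c = (c % 16) * r + comb rs (c / 16) := by
  have h : comb (r :: rs) c = fz (Nat.shiftRight c 4) fun c' => Nat.add (Nat.mul (Nat.land c 15) r) (comb rs c') := rfl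
  rw [h, fz_eq]
  have h2 : Nat.shiftRight c 4 = c / 16 := Nat.shiftRight_eq_div_pow c 4
  have h3 : Nat.land c 15 = c % 16 := Nat.and_two_pow_sub_one_eq_mod c 4
  rw [h2, h3]
  rfl

/-- the same for functions -/
def combD : List (ℕ → ℕ) → ℕ → ℕ → ℕ
  | [], _, _ => 0
  | r :: rs, c, k => (c % 16) * r k + combD rs (c / 16) k

theorem comb_pk (b n : ℕ) : ∀ (rs : List (ℕ → ℕ)) (c : ℕ), comb (rs.map fun d => pk b d n) c = pk b (combD rs c) n := by
  intro rs
  induction rs with
  | nil => intro c; exact (pk_const_zero b n).symm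
  | cons r rs ih =>
    intro c
    rw [List.map_cons, comb_cons, ih, ← pk_mul, ← pk_add]
    rfl

theorem combD_le {M : ℕ} : ∀ (rs : List (ℕ → ℕ)) (c k : ℕ), (∀ r ∈ rs, ∀ k, r k ≤ M) → combD rs c k ≤ 15 * M * rs.length := by
  intro rs
  induction rs with
  | nil => intro c k _; exact Nat.zero_le _
  | cons r rs ih =>
    intro c k h
    have h1 := ih (c / 16) k fun s hs => h s (List.mem_cons_of_mem _ hs)
    have h2 := h r List.mem_cons_self k
    have h3 : c % 16 ≤ 15 := by omega
    have h4 : (c % 16) * r k ≤ 15 * M := Nat.mul_le_mul h3 h2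
    show (c % 16) * r k + combD rs (c / 16) k ≤ 15 * M * (rs.length + 1)
    rw [mul_add, mul_one]
    omega

theorem ev_combD {Z : Type*} [CommGroup Z] (x : ℕ → Z) (n : ℕ) : ∀ (rs : List (ℕ → ℕ)) (c : ℕ),
    (∀ r ∈ rs, ev x n r = 1) → ev x n (combD rs c) = 1 := by
  intro rs
  induction rs with
  | nil => intro c _; exact ev_zero x n
  | cons r rs ih =>
    intro c h
    have h1 : combD (r :: rs) c = fun k => (c % 16) * r k + combD rs (c / 16) k := rfl
    rw [h1, ev_add, ev_mul, h r List.mem_cons_self, one_pow, ih _ fun s hs => h s (List.mem_cons_of_mem _ hs), one_mul]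

theorem ev_combD_mem {Z : Type*} [CommGroup Z] (x : ℕ → Z) (n : ℕ) (A : Subgroup Z) : ∀ (rs : List (ℕ → ℕ)) (c : ℕ),
    (∀ r ∈ rs, ev x n r ∈ A) → ev x n (combD rs c) ∈ A := by
  intro rs
  induction rs with
  | nil => intro c _; exact (ev_zero x n) ▸ A.one_mem
  | cons r rs ih =>
    intro c h
    have h1 : combD (r :: rs) c = fun k => (c % 16) * r k + combD rs (c / 16) k := rfl
    rw [h1, ev_add, ev_mul]
    exact A.mul_mem (A.pow_mem (h r List.mem_cons_self) _) (ih _ fun s hs => h s (List.mem_cons_of_mem _ hs))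

/-! ### Paths -/

/-- exponent of a step -/
def sd (m : ℕ) (s : Step) : ℕ := match s.2.2 with
  | true => Nat.sub m 1
  | false => 1

/-- digits of a path -/
def pd (m : ℕ) : List Step → ℕ → ℕ
  | [], _ => 0
  | s :: l, k => (if s.2.1 = k then sd m s else 0) + pd m l k

/-- packed row of a path -/
def rowOf' (b m : ℕ) : List Step → ℕ
  | [] => 0
  | s :: l => Nat.add (Nat.shiftLeft (sd m s) (Nat.mul b s.2.1)) (rowOf' b m l)

theorem sd_le {m : ℕ} (hm : 1 ≤ m) (s : Step) : sd m s ≤ m := by
  unfold sd
  rcases s with ⟨p, r, d⟩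
  cases d
  · exact hm
  · exact Nat.sub_le _ _

theorem rowOf'_pk (b m n : ℕ) : ∀ l : List Step, (∀ s ∈ l, s.2.1 < n) → rowOf' b m l = pk b (pd m l) n := by
  intro l
  induction l with
  | nil => intro _; exact (pk_const_zero b n).symm
  | cons s l ih =>
    intro h
    have h1 : pd m (s :: l) = fun k => (if s.2.1 = k then sd m s else 0) + pd m l k := rfl
    rw [h1, pk_add, pk_single b _ n _ (h s List.mem_cons_self), ← ih fun t ht => h t (List.mem_cons_of_mem _ ht)]
    show (sd m s) <<< (b * s.2.1) + rowOf' b m l = _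
    rw [Nat.shiftLeft_eq]

theorem pd_le {m : ℕ} (hm : 1 ≤ m) : ∀ (l : List Step) (k : ℕ), pd m l k ≤ m * l.length := by
  intro l
  induction l with
  | nil => intro k; exact Nat.zero_le _
  | cons s l ih =>
    intro k
    have h1 := ih k
    have h2 := sd_le hm s
    show (if s.2.1 = k then sd m s else 0) + pd m l k ≤ m * (l.length + 1)
    rw [mul_add, mul_one]
    split <;> omega

section Ext

variable {E : Type*} [Group E]

/-- central elements with prescribed values -/
structure Tails (e : ℕ → E) (rules : List (List ℕ × List ℕ)) (m : ℕ) (z : ℕ → Subgroup.center E) : Prop where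
  m1 : 1 ≤ m
  eq : ∀ r, ((z r : Subgroup.center E) : E) = nr e rules r
  exp : ∀ r, z r ^ m = 1

variable {e : ℕ → E} {rules : List (List ℕ × List ℕ)} {m : ℕ} {z : ℕ → Subgroup.center E}

theorem cen_comm (c : Subgroup.center E) (x : E) : (c : E) * x = x * c := (Subgroup.mem_center_iff.1 c.2 x).symm

theorem Tails.lhs (T : Tails e rules m z) (r : ℕ) : val e (rules.getD r ([], [])).1 = (z r : E) * val e (rules.getD r ([], [])).2 := by
  rw [T.eq r]; unfold nr; group

theorem Tails.step (T : Tails e rules m z) {s : Step} {w w' : List ℕ} (h : app rules s w = some w') :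
    val e w = ((z s.2.1 ^ sd m s : Subgroup.center E) : E) * val e w' := by
  obtain ⟨p, r, b⟩ := s
  set a1 := (rules.getD r ([], [])).1 with ha1
  set a2 := (rules.getD r ([], [])).2 with ha2
  have hn : val e a1 = (z r : E) * val e a2 := T.lhs r
  have hw := (List.take_append_drop p w).symm
  unfold app at h
  cases b with
  | false =>
    have h1 : (match strip a1 (w.drop p) with
      | some v => some (w.take p ++ (a2 ++ v))
      | none => none) = some w' := h
    cases hs : strip a1 (w.drop p) with
    | none => rw [hs] at h1; cases h1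
    | some v =>
      rw [hs] at h1
      have h2 : w.take p ++ (a2 ++ v) = w' := Option.some.inj h1
      have h3 : ((z r ^ sd m (p, r, false) : Subgroup.center E) : E) = (z r : E) := by
        show ((z r ^ 1 : Subgroup.center E) : E) = _
        rw [pow_one]
      show _ = ((z r ^ sd m (p, r, false) : Subgroup.center E) : E) * val e w'
      rw [h3, ← h2]
      conv_lhs => rw [hw, strip_spec hs]
      rw [val_append, val_append, val_append, val_append, hn, ← mul_assoc, ← mul_assoc, ← cen_comm]
      simp only [mul_assoc]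
  | true =>
    have h1 : (match strip a2 (w.drop p) with
      | some v => some (w.take p ++ (a1 ++ v))
      | none => none) = some w' := h
    cases hs : strip a2 (w.drop p) with
    | none => rw [hs] at h1; cases h1
    | some v =>
      rw [hs] at h1
      have h2 : w.take p ++ (a1 ++ v) = w' := Option.some.inj h1
      have h3 : z r ^ sd m (p, r, true) = (z r)⁻¹ := by
        rw [eq_inv_iff_mul_eq_one]
        show z r ^ (m - 1) * z r = 1
        rw [← pow_succ, Nat.sub_add_cancel T.m1, T.exp]
      show _ = ((z r ^ sd m (p, r, true) : Subgroup.center E) : E) * val e w'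
      rw [h3, ← h2]
      conv_lhs => rw [hw, strip_spec hs]
      rw [val_append, val_append, val_append, val_append, hn]
      have h4 : ((z r)⁻¹ : Subgroup.center E) * z r = 1 := inv_mul_cancel _
      have h5 : (((z r)⁻¹ : Subgroup.center E) : E) * (z r : E) = 1 := congrArg Subtype.val h4
      calc val e (w.take p) * (val e a2 * val e v)
          = (((z r)⁻¹ : Subgroup.center E) : E) * (z r : E) * (val e (w.take p) * (val e a2 * val e v)) := by
            rw [h5, one_mul]
        _ = (((z r)⁻¹ : Subgroup.center E) : E) * ((z r : E) * val e (w.take p) * (val e a2 * val e v)) := by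
            simp only [mul_assoc]
        _ = _ := by
            rw [cen_comm (z r) (val e (w.take p))]
            simp only [mul_assoc]

theorem Tails.run (T : Tails e rules m z) {n : ℕ} (l : List Step) : ∀ {w w' : List ℕ}, Coh.run rules l w = some w' →
    (∀ s ∈ l, s.2.1 < n) → val e w = ((ev z n (pd m l) : Subgroup.center E) : E) * val e w' := by
  induction l with
  | nil =>
    intro w w' h _
    have h1 : some w = some w' := h
    have h2 : ev z n (pd m []) = 1 := ev_zero z n
    rw [h2, Option.some.inj h1, Subgroup.coe_one, one_mul]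
  | cons s l ih =>
    intro w w' h hl
    have h1 : (match app rules s w with
      | some w' => Coh.run rules l w'
      | none => none) = some w' := h
    cases hs : app rules s w with
    | none => rw [hs] at h1; cases h1
    | some w1 =>
      rw [hs] at h1
      rw [T.step hs, ih h1 fun t ht => hl t (List.mem_cons_of_mem _ ht), ← mul_assoc, ← Subgroup.coe_mul]
      have h2 : ev z n (pd m (s :: l)) = z s.2.1 ^ sd m s * ev z n (pd m l) := by
        have h3 : pd m (s :: l) = fun k => (if s.2.1 = k then sd m s else 0) + pd m l k := rfl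
        rw [h3, ev_add, ev_single z (hl s List.mem_cons_self)]
      rw [h2]

/-- a closed path gives an equation -/
theorem Tails.closed (T : Tails e rules m z) {n : ℕ} {l : List Step} {w : List ℕ} (h : Coh.run rules l w = some w)
    (hl : ∀ s ∈ l, s.2.1 < n) : ev z n (pd m l) = 1 := by
  have h1 := T.run (n := n) l h hl
  have h2 : ((ev z n (pd m l) : Subgroup.center E) : E) = 1 := mul_eq_right.1 h1.symm
  exact Subtype.ext h2

/-! ### Change of the letters -/

/-- sum of the values of a list at the letters of a word -/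
def gs (gauge : List ℕ) : List ℕ → ℕ
  | [] => 0
  | i :: w => Nat.add (gauge.getD i 0) (gs gauge w)

/-- the same for functions -/
def gsD (gD : ℕ → ℕ → ℕ) : List ℕ → ℕ → ℕ
  | [], _ => 0
  | i :: w, k => gD i k + gsD gD w k

theorem gs_pk {b n : ℕ} {gauge : List ℕ} {gD : ℕ → ℕ → ℕ} (h : ∀ i, gauge.getD i 0 = pk b (gD i) n) :
    ∀ w, gs gauge w = pk b (gsD gD w) n := by
  intro w
  induction w with
  | nil => exact (pk_const_zero b n).symm
  | cons i w ih =>
    have h1 : gsD gD (i :: w) = fun k => gD i k + gsD gD w k := rfl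
    rw [h1, pk_add, ← ih, ← h]
    rfl

theorem gsD_le {gD : ℕ → ℕ → ℕ} (h : ∀ i k, gD i k < 16) : ∀ w k, gsD gD w k ≤ 15 * w.length := by
  intro w
  induction w with
  | nil => intro k; exact Nat.zero_le _
  | cons i w ih =>
    intro k
    have h1 := ih k
    have h2 := h i k
    show gD i k + gsD gD w k ≤ 15 * (w.length + 1)
    omega

theorem val_change (v : ℕ → Subgroup.center E) (w : List ℕ) :
    val (fun i => (v i : E) * e i) w = (((w.map v).prod : Subgroup.center E) : E) * val e w := by
  induction w with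
  | nil =>
    show (1 : E) = ((1 : Subgroup.center E) : E) * 1
    rw [Subgroup.coe_one, one_mul]
  | cons i w ih =>
    rw [val_cons, val_cons, ih, List.map_cons, List.prod_cons, Subgroup.coe_mul]
    have h := cen_comm ((w.map v).prod) (e i)
    calc (v i : E) * e i * ((((w.map v).prod : Subgroup.center E) : E) * val e w)
        = (v i : E) * (e i * (((w.map v).prod : Subgroup.center E) : E)) * val e w := by simp only [mul_assoc]
      _ = (v i : E) * ((((w.map v).prod : Subgroup.center E) : E) * e i) * val e w := by rw [h]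
      _ = _ := by simp only [mul_assoc]

theorem prod_ev {n : ℕ} (gD : ℕ → ℕ → ℕ) (w : List ℕ) : (w.map fun i => ev z n (gD i)).prod = ev z n (gsD gD w) := by
  induction w with
  | nil => exact (ev_zero z n).symm
  | cons i w ih =>
    have h1 : gsD gD (i :: w) = fun k => gD i k + gsD gD w k := rfl
    rw [h1, ev_add, List.map_cons, List.prod_cons, ih]

/-! ### Certificates -/

/-- data of a certificate: `b` bits, modulus `m`, `n` rules, the first `ns` of which are to be made exact -/
structure Cert where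
  b : ℕ
  m : ℕ
  n : ℕ
  ns : ℕ
  rules : List (List ℕ × List ℕ)
  M : ℕ
  rows : List ℕ
  gauge : List ℕ
  prm : List ℕ
  ords : List ℕ
  certs : List (ℕ × ℕ)
  ocerts : List ℕ

/-- target of the rule `r` -/
def Cert.tgt (D : Cert) (r : ℕ) : ℕ :=
  Nat.add (Nat.shiftLeft 1 (Nat.mul D.b r)) (Nat.add (gs D.gauge (D.rules.getD r ([], [])).1)
    (Nat.mul (Nat.sub D.m 1) (gs D.gauge (D.rules.getD r ([], [])).2)))

/-- check of a path -/
def pathB (b m n M : ℕ) (rules : List (List ℕ × List ℕ)) (p : (List ℕ × List Step) × ℕ) : Bool :=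
  (match Coh.run rules p.1.2 p.1.1 with
    | some w => beqL' w p.1.1
    | none => false) && ((p.1.2.all fun s => Nat.blt s.2.1 n) && (Nat.ble (Nat.mul m p.1.2.length) M &&
      Nat.beq (rowOf' b m p.1.2) p.2))
where
  /-- equality of lists -/
  beqL' : List ℕ → List ℕ → Bool
  | [], [] => true
  | a :: l, b :: m => match Nat.beq a b with
    | true => beqL' l m
    | false => false
  | _, _ => false

theorem beqL'_spec : ∀ {l m : List ℕ}, pathB.beqL' l m = true → l = m
  | [], [], _ => rfl
  | a :: l, b :: m, h => by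
    have h1 : (match Nat.beq a b with
      | true => pathB.beqL' l m
      | false => false) = true := h
    cases hb : Nat.beq a b with
    | true => rw [hb] at h1; rw [Nat.eq_of_beq_eq_true hb, beqL'_spec h1]
    | false => rw [hb] at h1; cases h1
  | [], _ :: _, h => by cases h
  | _ :: _, [], h => by cases h

/-- check of a target -/
def Cert.tgtB (D : Cert) (r : ℕ) : Bool :=
  fz (D.certs.getD r (0, 0)).1 fun c => fz (D.certs.getD r (0, 0)).2 fun q =>
    fz (D.tgt r) fun t => fz (Nat.add (comb D.rows c) (comb D.prm q)) fun s =>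
      Nat.blt (Nat.add (Nat.mul 15 (D.rules.getD r ([], [])).1.length)
        (Nat.add 1 (Nat.mul D.m (Nat.mul 15 (D.rules.getD r ([], [])).2.length)))) (Nat.pow 2 D.b) &&
      congB D.b D.m D.n t s

/-- check of an order -/
def Cert.ordB (D : Cert) (j : ℕ) : Bool :=
  fz (comb D.rows (D.ocerts.getD j 0)) fun s => fz (Nat.mul (D.ords.getD j 1) (D.prm.getD j 0)) fun t =>
    Nat.blt (Nat.mul 16 (D.ords.getD j 1)) (Nat.pow 2 D.b) && congB D.b D.m D.n t s

/-- the rows come from closed paths -/
def Rows (b m n M : ℕ) (rules : List (List ℕ × List ℕ)) (rows : List ℕ) : Prop :=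
  ∀ x ∈ rows, ∃ p : List ℕ × List Step, pathB b m n M rules (p, x) = true

theorem Rows.nil {b m n M : ℕ} {rules : List (List ℕ × List ℕ)} : Rows b m n M rules [] := by
  intro x hx; simp at hx

theorem Rows.append {b m n M : ℕ} {rules : List (List ℕ × List ℕ)} {r1 r2 : List ℕ} (h1 : Rows b m n M rules r1)
    (h2 : Rows b m n M rules r2) : Rows b m n M rules (r1 ++ r2) := by
  intro x hx
  rcases List.mem_append.1 hx with h | h
  · exact h1 x h
  · exact h2 x h

/-- check of a list of paths with their rows -/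
def rowsB (b m n M : ℕ) (rules : List (List ℕ × List ℕ)) : List (List ℕ × List Step) → List ℕ → Bool
  | p :: ps, x :: xs => match pathB b m n M rules (p, x) with
    | true => rowsB b m n M rules ps xs
    | false => false
  | _, [] => true
  | _, _ => false

theorem rowsB_spec {b m n M : ℕ} {rules : List (List ℕ × List ℕ)} : ∀ {ps : List (List ℕ × List Step)} {rows : List ℕ},
    rowsB b m n M rules ps rows = true → Rows b m n M rules rows
  | p :: ps, x :: xs, h => by
    have h1 : (match pathB b m n M rules (p, x) with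
      | true => rowsB b m n M rules ps xs
      | false => false) = true := h
    cases hb : pathB b m n M rules (p, x) with
    | false => rw [hb] at h1; cases h1
    | true =>
      rw [hb] at h1
      intro y hy
      rcases List.mem_cons.1 hy with rfl | hy
      · exact ⟨p, hb⟩
      · exact rowsB_spec h1 y hy
  | _ :: _, [], _ => Rows.nil
  | [], [], _ => Rows.nil
  | [], _ :: _, h => by cases h

/-- a correct certificate -/
structure Cert.Good (D : Cert) : Prop where
  m1 : 1 ≤ D.m
  nsn : D.ns ≤ D.n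
  rows : Rows D.b D.m D.n D.M D.rules D.rows
  gau : (D.gauge.all fun x => digB D.b D.n x) = true
  prm : (D.prm.all fun x => digB D.b D.n x) = true
  bnd : 15 * D.M * D.rows.length + 15 * 16 * D.prm.length < 2 ^ D.b
  tgt : ∀ r < D.ns, D.tgtB r = true
  ord : ∀ j < D.prm.length, D.ordB j = true

theorem tgt_bound {b m l1 l2 r k : ℕ} {gD : ℕ → ℕ → ℕ} (hgD : ∀ i k, gD i k < 16) (w1 w2 : List ℕ) (h1 : w1.length = l1)
    (h2 : w2.length = l2) (h : 15 * l1 + (1 + m * (15 * l2)) < 2 ^ b) :
    (if r = k then 1 else 0) + (gsD gD w1 k + (m - 1) * gsD gD w2 k) < 2 ^ b := by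
  have h3 := gsD_le hgD w1 k
  have h4 := gsD_le hgD w2 k
  rw [h1] at h3
  rw [h2] at h4
  have h5 : (m - 1) * gsD gD w2 k ≤ m * (15 * l2) := Nat.mul_le_mul (Nat.sub_le _ _) h4
  split <;> omega

theorem rowsD_aux {b m n M : ℕ} (m1 : 1 ≤ m) (T : Tails e rules m z) :
    ∀ rows : List ℕ, (∀ x ∈ rows, ∃ p : List ℕ × List Step, pathB b m n M rules (p, x) = true) →
      ∃ rs : List (ℕ → ℕ), rows = rs.map (fun d => pk b d n) ∧ (∀ r ∈ rs, ∀ k, r k ≤ M) ∧
      ∀ r ∈ rs, ev z n r = 1 := by
  intro rows
  induction rows with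
  | nil => intro _; exact ⟨[], rfl, by simp, by simp⟩
  | cons x rows ih =>
    intro h
    obtain ⟨rs, h1, h2, h3⟩ := ih fun y hy => h y (List.mem_cons_of_mem _ hy)
    obtain ⟨p, hp⟩ := h x List.mem_cons_self
    unfold pathB at hp
    rw [Bool.and_eq_true, Bool.and_eq_true, Bool.and_eq_true] at hp
    obtain ⟨hp1, hp2, hp3, hp4⟩ := hp
    have hl : ∀ s ∈ p.2, s.2.1 < n := by
      intro s hs
      have := (List.all_eq_true.1 hp2) s hs
      simpa [Nat.blt_eq] using this
    have hrun : Coh.run rules p.2 p.1 = some p.1 := by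
      cases hb : Coh.run rules p.2 p.1 with
      | none =>
        exfalso
        have h4 : (match Coh.run rules p.2 p.1 with
          | some w => pathB.beqL' w p.1
          | none => false) = true := hp1
        rw [hb] at h4
        cases h4
      | some w =>
        have h4 : (match Coh.run rules p.2 p.1 with
          | some w => pathB.beqL' w p.1
          | none => false) = true := hp1
        rw [hb] at h4
        have h5 : pathB.beqL' w p.1 = true := h4
        rw [beqL'_spec h5]
    refine ⟨pd m p.2 :: rs, ?_, ?_, ?_⟩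
    · rw [List.map_cons, h1, ← rowOf'_pk b m n p.2 hl, Nat.eq_of_beq_eq_true hp4]
    · intro r hr k
      rcases List.mem_cons.1 hr with rfl | hr
      · exact (pd_le m1 p.2 k).trans (Nat.le_of_ble_eq_true hp3)
      · exact h2 r hr k
    · intro r hr
      rcases List.mem_cons.1 hr with rfl | hr
      · exact T.closed hrun hl
      · exact h3 r hr

theorem Cert.Good.rowsD {D : Cert} (G : D.Good) (T : Tails e D.rules D.m z) :
    ∃ rs : List (ℕ → ℕ), D.rows = rs.map (fun d => pk D.b d D.n) ∧ (∀ r ∈ rs, ∀ k, r k ≤ D.M) ∧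
      ∀ r ∈ rs, ev z D.n r = 1 := rowsD_aux G.m1 T D.rows G.rows

theorem exists_pk {b n : ℕ} : ∀ {l : List ℕ}, (l.all fun x => digB b n x) = true →
    ∃ ds : List (ℕ → ℕ), l = ds.map (fun d => pk b d n) ∧ ∀ d ∈ ds, ∀ k, d k < 16 := by
  intro l
  induction l with
  | nil => intro _; exact ⟨[], rfl, by simp⟩
  | cons x l ih =>
    intro h
    rw [List.all_cons, Bool.and_eq_true] at h
    obtain ⟨ds, h1, h2⟩ := ih h.2
    obtain ⟨d, hd, e⟩ := digB_spec n x h.1
    refine ⟨d :: ds, by rw [List.map_cons, ← h1, ← e], ?_⟩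
    intro d' hd' k
    rcases List.mem_cons.1 hd' with rfl | hd'
    · exact hd k
    · exact h2 d' hd' k

theorem getD_map_pk {b n : ℕ} {l : List ℕ} {ds : List (ℕ → ℕ)} (h : l = ds.map (fun d => pk b d n)) (i : ℕ) :
    l.getD i 0 = pk b (ds.getD i (fun _ => 0)) n := by
  rw [h]
  by_cases hi : i < ds.length
  · rw [List.getD_eq_getElem _ _ (by rw [List.length_map]; exact hi), List.getD_eq_getElem _ _ hi, List.getElem_map]
  · rw [List.getD_eq_default _ _ (by rw [List.length_map]; omega), List.getD_eq_default _ _ (by omega), pk_const_zero]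

theorem getD_lt {ds : List (ℕ → ℕ)} (h : ∀ d ∈ ds, ∀ k, d k < 16) (i k : ℕ) : ds.getD i (fun _ => 0) k < 16 := by
  by_cases hi : i < ds.length
  · rw [List.getD_eq_getElem _ _ hi]; exact h _ (List.getElem_mem hi) k
  · rw [List.getD_eq_default _ _ (by omega)]; norm_num

/-- **Main theorem on certificates.** -/
theorem Cert.Good.main {D : Cert} (G : D.Good) (T : Tails e D.rules D.m z) {K : Subgroup (Subgroup.center E)}
    (hK : ∀ r < D.n, z r ∈ K) {pr : List (ℕ → ℕ)} (hp : D.prm = pr.map fun d => pk D.b d D.n)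
    (hp16 : ∀ d ∈ pr, ∀ k, d k < 16) : ∃ v : ℕ → Subgroup.center E, (∀ i, v i ∈ K) ∧
      (∀ j < D.prm.length, ev z D.n (pr.getD j (fun _ => 0)) ^ D.ords.getD j 1 = 1) ∧
      ∀ r < D.ns, ∃ c ∈ Subgroup.closure ((fun j => ev z D.n (pr.getD j (fun _ => 0))) '' {j | j < D.prm.length}),
        val (fun i => (v i : E) * e i) (D.rules.getD r ([], [])).1 =
          (c : E) * val (fun i => (v i : E) * e i) (D.rules.getD r ([], [])).2 := by
  obtain ⟨rs, hrs, hrM, hr1⟩ := G.rowsD T
  obtain ⟨gd, hg, hg16⟩ := exists_pk G.gau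
  set gD : ℕ → ℕ → ℕ := fun i => gd.getD i (fun _ => 0) with hgD
  have hgD16 : ∀ i k, gD i k < 16 := fun i k => getD_lt hg16 i k
  have hgpk : ∀ i, D.gauge.getD i 0 = pk D.b (gD i) D.n := fun i => getD_map_pk hg i
  have hlen : rs.length = D.rows.length := by rw [hrs, List.length_map]
  have hplen : pr.length = D.prm.length := by rw [hp, List.length_map]
  have hbnd := G.bnd
  have hcomb : ∀ c, comb D.rows c = pk D.b (combD rs c) D.n := fun c => by rw [hrs, comb_pk]
  have hcomb2 : ∀ c, comb D.prm c = pk D.b (combD pr c) D.n := fun c => by rw [hp, comb_pk]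
  have hcb : ∀ c k, combD rs c k ≤ 15 * D.M * D.rows.length := fun c k => by
    rw [← hlen]; exact combD_le rs c k hrM
  have hcb2 : ∀ c k, combD pr c k ≤ 15 * 16 * D.prm.length := fun c k => by
    rw [← hplen]; exact combD_le pr c k fun r hr k => (hp16 r hr k).le
  have hone : ∀ c, ev z D.n (combD rs c) = 1 := fun c => ev_combD z D.n rs c hr1
  refine ⟨fun i => ev z D.n (gD i), fun i => ev_mem K hK _, ?_, ?_⟩
  · intro j hj
    have h := G.ord j hj
    unfold Cert.ordB at h
    simp only [fz_eq] at h
    rw [Bool.and_eq_true] at h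
    obtain ⟨h1, h2⟩ := h
    have h1' : 16 * D.ords.getD j 1 < 2 ^ D.b := by simpa [Nat.blt_eq] using h1
    have h3 : Nat.mul (D.ords.getD j 1) (D.prm.getD j 0) =
        pk D.b (fun k => D.ords.getD j 1 * pr.getD j (fun _ => 0) k) D.n := by
      rw [pk_mul, ← getD_map_pk hp]; rfl
    rw [h3, hcomb] at h2
    have h4 := congB_spec D.n _ _ (fun r => by
      have := getD_lt hp16 j r
      have h5 : D.ords.getD j 1 * pr.getD j (fun _ => 0) r ≤ D.ords.getD j 1 * 16 := Nat.mul_le_mul_left _ this.le
      show D.ords.getD j 1 * pr.getD j (fun _ => 0) r < 2 ^ D.b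
      omega) (fun r => by have := hcb (D.ocerts.getD j 0) r; omega) h2
    have h5 := ev_congr (x := z) (fun r _ => T.exp r) h4
    rw [ev_mul, hone] at h5
    exact h5
  · intro r hr
    have h := G.tgt r hr
    unfold Cert.tgtB at h
    simp only [fz_eq] at h
    rw [Bool.and_eq_true] at h
    obtain ⟨h1, h2⟩ := h
    set l1 := (D.rules.getD r ([], [])).1 with hl1
    set l2 := (D.rules.getD r ([], [])).2 with hl2
    set c := (D.certs.getD r (0, 0)).1
    set q := (D.certs.getD r (0, 0)).2
    have h1' : 15 * l1.length + (1 + D.m * (15 * l2.length)) < 2 ^ D.b := by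
      have h1'' : Nat.blt (Nat.add (Nat.mul 15 l1.length) (Nat.add 1 (Nat.mul D.m (Nat.mul 15 l2.length)))) (Nat.pow 2 D.b) = true := h1
      have := Nat.le_of_ble_eq_true h1''
      exact this
    set td : ℕ → ℕ := fun k => (if r = k then 1 else 0) + (gsD gD l1 k + (D.m - 1) * gsD gD l2 k) with htd
    have h3 : D.tgt r = pk D.b td D.n := by
      rw [htd, pk_add, pk_add, pk_mul, pk_single D.b 1 D.n r (lt_of_lt_of_le hr G.nsn), ← gs_pk hgpk, ← gs_pk hgpk]
      show Nat.add (Nat.shiftLeft 1 (Nat.mul D.b r)) _ = _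
      have : Nat.shiftLeft 1 (Nat.mul D.b r) = 1 * 2 ^ (D.b * r) := Nat.shiftLeft_eq _ _
      rw [this]
      rfl
    have h4 : Nat.add (comb D.rows c) (comb D.prm q) = pk D.b (fun k => combD rs c k + combD pr q k) D.n := by
      rw [pk_add, ← hcomb, ← hcomb2]; rfl
    rw [h3, h4] at h2
    have h5 := congB_spec D.n td (fun k => combD rs c k + combD pr q k) (fun k => tgt_bound hgD16 l1 l2 rfl rfl h1')
      (fun k => by have := hcb c k; have := hcb2 q k; show combD rs c k + combD pr q k < 2 ^ D.b; omega) h2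
    have h6 := ev_congr (x := z) (fun r _ => T.exp r) h5
    rw [ev_add, ev_add, ev_mul, ev_single z (lt_of_lt_of_le hr G.nsn), pow_one, ev_add, hone, one_mul] at h6
    refine ⟨ev z D.n (combD pr q), ?_, ?_⟩
    · apply ev_combD_mem
      intro d hd
      obtain ⟨j, hj, rfl⟩ := List.getElem_of_mem hd
      refine Subgroup.subset_closure ⟨j, by rw [← hplen]; exact hj, ?_⟩
      show ev z D.n (pr.getD j (fun _ => 0)) = _
      rw [List.getD_eq_getElem _ _ hj]
    · rw [val_change, val_change, prod_ev, prod_ev, T.lhs r, ← hl2, ← h6]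
      have h7 : ev z D.n (gsD gD l2) ^ (D.m - 1) * ev z D.n (gsD gD l2) = 1 := by
        rw [← pow_succ, Nat.sub_add_cancel G.m1]
        exact ev_pow_exp (fun r _ => T.exp r) _
      have h8 : ev z D.n (gsD gD l1) * z r = z r * (ev z D.n (gsD gD l1) * ev z D.n (gsD gD l2) ^ (D.m - 1)) *
          ev z D.n (gsD gD l2) := by
        calc ev z D.n (gsD gD l1) * z r = z r * ev z D.n (gsD gD l1) * 1 := by rw [mul_one, mul_comm]
          _ = _ := by rw [← h7]; simp only [mul_assoc]
      rw [← mul_assoc, ← mul_assoc, ← Subgroup.coe_mul, ← Subgroup.coe_mul, h8]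

end Ext

end Cfsg.Agent.MRel.Stab
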