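import Cfsg.Agent.MRel.Stab
import Cfsg.Agent.H90.StemTools

/-!
# Bounds for the p-parts of Schur multipliers from a Sylow subgroup with fusing elements (owner: helper83)
-/

set_option autoImplicit false

namespace Cfsg.Agent.MRel

open Subgroup Mult
open scoped commutatorElement IsMulCommutative

universe u v w

/-- bound for the `p`-part of the kernels of perfect central extensions -/
def PB (G : Type v) [Group G] (p d : ℕ) : Prop :=
  ∀ (Γ : Type) [Group Γ] [Finite Γ] (σ : Γ →* G), PCE σ → ∀ k, p ^ k ∣ Nat.card σ.ker → p ^ k ∣ d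

theorem MB.of_PB {G : Type v} [Group G] {n : ℕ} (h : ∀ p, p.Prime → PB G p n) : MB G n := by
  intro Γ _ _ σ P
  rw [Nat.dvd_iff_prime_pow_dvd_dvd]
  intro p k hp hk
  exact h p hp Γ σ P k hk

theorem PB.mono {G : Type v} [Group G] {p d d' : ℕ} (h : PB G p d) (hd : d ∣ d') : PB G p d' :=
  fun Γ _ _ σ P k hk => (h Γ σ P k hk).trans hd

theorem PB.of_not_dvd {G : Type v} [Group G] {p : ℕ} (h : ∀ (Γ : Type) [Group Γ] [Finite Γ] (σ : Γ →* G), PCE σ →
    ¬ p ∣ Nat.card σ.ker) (d : ℕ) : PB G p d := by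
  intro Γ _ _ σ P k hk
  rcases k with _ | k
  · rw [pow_zero]; exact one_dvd _
  · exact absurd ((dvd_pow_self p (Nat.succ_ne_zero k)).trans hk) (h Γ σ P)

theorem PB.equiv {G : Type v} {G' : Type w} [Group G] [Group G'] {p n : ℕ} (h : PB G p n) (e : G ≃* G') : PB G' p n := by
  intro Γ _ _ σ P k hk
  have := h Γ _ (P.comp_equiv e.symm) k
  rw [ker_comp_equiv] at this
  exact this hk

/-- cyclic Sylow subgroups -/
theorem PB.of_cyclic {G : Type v} [Group G] {p : ℕ} (hp : p.Prime) {x : G} (h : ¬ p ∣ (zpowers x).index) (d : ℕ) :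
    PB G p d := by
  apply PB.of_not_dvd
  intro Γ _ _ σ P hd
  have : Fact p.Prime := ⟨hp⟩
  obtain ⟨y, hy⟩ := P.ce.surj x
  have key : ∀ a ∈ (zpowers x).comap σ, ∃ (i : ℤ) (c : Γ), σ c = 1 ∧ a = y ^ i * c := by
    intro a ha
    obtain ⟨i, hi⟩ := mem_zpowers_iff.1 (mem_comap.1 ha)
    refine ⟨i, (y ^ i)⁻¹ * a, ?_, by group⟩
    rw [map_mul, map_inv, map_zpow, hy, hi, inv_mul_cancel]
  refine Cfsg.Agent.H90.Stem.false_of_comm P.stem hd ((zpowers x).comap σ) ?_ ⊥ ?_ ?_
  · rw [index_comap_of_surjective _ P.ce.surj]; exact h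
  · intro a ha b hb
    obtain ⟨i, c, hc, rfl⟩ := key a ha
    obtain ⟨j, c', hc', rfl⟩ := key b hb
    rw [mem_bot, commutatorElement_eq_one_iff_mul_comm]
    have h1 := CE.comm_mem P.ce hc
    have h2 := CE.comm_mem P.ce hc'
    calc y ^ i * c * (y ^ j * c') = y ^ i * (c * (y ^ j * c')) := by rw [mul_assoc]
      _ = y ^ i * (y ^ j * c' * c) := by rw [h1]
      _ = y ^ j * y ^ i * c' * c := by rw [← mul_assoc, ← mul_assoc, (Commute.refl y).zpow_zpow i j]
      _ = y ^ j * (c' * y ^ i) * c := by rw [h2 (y ^ i), ← mul_assoc]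
      _ = y ^ j * c' * (y ^ i * c) := by simp only [mul_assoc]
  · intro a ha _
    exact mem_bot.1 ha

/-- primes that do not divide the order -/
theorem PB.of_not_card {G : Type v} [Group G] {p : ℕ} (hp : p.Prime) (h : ¬ p ∣ Nat.card G) (d : ℕ) : PB G p d := by
  refine PB.of_cyclic hp (x := 1) ?_ d
  rw [zpowers_one_eq_bot, index_bot]
  exact h

/-- the `m`-th powers in the kernel -/
def powKer {Γ : Type u} {G : Type v} [Group Γ] [Group G] {σ : Γ →* G} (C : CE σ) (m : ℕ) : Subgroup Γ where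
  carrier := {x | ∃ y ∈ σ.ker, y ^ m = x}
  mul_mem' := by
    rintro _ _ ⟨a, ha, rfl⟩ ⟨b, hb, rfl⟩
    refine ⟨a * b, mul_mem ha hb, ?_⟩
    exact Commute.mul_pow (CE.comm_mem C ha b) m
  one_mem' := ⟨1, one_mem _, one_pow m⟩
  inv_mem' := by
    rintro _ ⟨a, ha, rfl⟩
    exact ⟨a⁻¹, inv_mem ha, inv_pow a m⟩

theorem normal_of_le {Γ : Type u} {G : Type v} [Group Γ] [Group G] {σ : Γ →* G} (C : CE σ) {N : Subgroup Γ} (h : N ≤ σ.ker) :
    N.Normal := by
  constructor
  intro x hx g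
  have h1 := CE.comm_mem C (h hx) g
  have : g * x * g⁻¹ = x := by rw [← h1, mul_inv_cancel_right]
  rw [this]; exact hx

/-- reduction to kernels of bounded exponent -/
theorem PB.of_exp {G : Type v} [Group G] {p : ℕ} (hp : p.Prime) (k : ℕ) {D : ℕ}
    (h : ∀ (Γ : Type) [Group Γ] [Finite Γ] (σ : Γ →* G), PCE σ → (∀ x ∈ σ.ker, x ^ p ^ (k + 1) = 1) →
      Nat.card σ.ker ∣ D ∧ ∀ x ∈ σ.ker, x ^ p ^ k = 1) : PB G p D := by
  intro Γ _ _ σ P j hj
  have : Fact p.Prime := ⟨hp⟩
  set N := powKer P.ce (p ^ (k + 1)) with hN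
  have hle : N ≤ σ.ker := by
    rintro _ ⟨a, ha, rfl⟩
    exact pow_mem ha _
  have hNn : N.Normal := normal_of_le P.ce hle
  obtain ⟨h1, h2⟩ := h (Γ ⧸ N) _ (P.quot N hle) (by
    intro x hx
    obtain ⟨y, rfl⟩ := QuotientGroup.mk_surjective x
    rw [← QuotientGroup.mk_pow, QuotientGroup.eq_one_iff]
    exact ⟨y, hx, rfl⟩)
  have h3 : ∀ y ∈ σ.ker, y ^ p ^ k ∈ N := by
    intro y hy
    have := h2 (QuotientGroup.mk y) hy
    rwa [← QuotientGroup.mk_pow, QuotientGroup.eq_one_iff] at this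
  have hsur : Function.Surjective (fun x : N => (⟨(x : Γ) ^ p, pow_mem x.2 p⟩ : N)) := by
    rintro ⟨_, y, hy, rfl⟩
    refine ⟨⟨y ^ p ^ k, h3 y hy⟩, ?_⟩
    apply Subtype.ext
    show (y ^ p ^ k) ^ p = y ^ p ^ (k + 1)
    rw [← pow_mul, pow_succ]
  have hinj := Finite.injective_iff_surjective.2 hsur
  have h4 : ¬ p ∣ Nat.card N := by
    intro h5
    obtain ⟨x, hx⟩ := exists_prime_orderOf_dvd_card' (G := N) p h5
    have h6 : x ^ p = 1 := by rw [← hx]; exact pow_orderOf_eq_one x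
    have h7 : x = 1 := hinj (by
      apply Subtype.ext
      show (x : Γ) ^ p = ((1 : N) : Γ) ^ p
      rw [Subgroup.coe_one, one_pow]
      exact congrArg Subtype.val h6)
    rw [h7, orderOf_one] at hx
    exact hp.one_lt.ne hx
  rw [card_ker_quot N hle] at hj
  have h8 : Nat.Coprime (p ^ j) (Nat.card N) := Nat.Coprime.pow_left j ((Nat.Prime.coprime_iff_not_dvd hp).2 h4)
  exact (h8.dvd_of_dvd_mul_left hj).trans h1

/-! ### Polycyclic rules -/

namespace Stab

open Cfsg.Agent.Golay Cfsg.Agent.MulX Cfsg.Agent.MulX.Coh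

variable {E : Type*} [Group E]

theorem card_insert_le' [Finite E] {p : ℕ} (hp : 0 < p) (K : Subgroup E) (x : E) (h2 : x ^ p ∈ K) (hc : ∀ k ∈ K, x⁻¹ * k * x ∈ K) :
    Nat.card ↥(Subgroup.closure (insert x (K : Set E))) ≤ p * Nat.card ↥K := by
  have hc' : ∀ (i : ℕ), ∀ k ∈ K, (x ^ i)⁻¹ * k * x ^ i ∈ K := by
    intro i
    induction i with
    | zero => intro k hk; simpa using hk
    | succ i ih =>
      intro k hk
      have := hc _ (ih k hk)
      have e : (x ^ (i + 1))⁻¹ * k * x ^ (i + 1) = x⁻¹ * ((x ^ i)⁻¹ * k * x ^ i) * x := by rw [pow_succ]; group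
      rw [e]; exact this
  have key : ∀ y ∈ Subgroup.closure (insert x (K : Set E)), ∃ i < p, ∃ k ∈ K, y = x ^ i * k := by
    intro y hy
    induction hy using Subgroup.closure_induction_left with
    | one => exact ⟨0, hp, 1, K.one_mem, by simp⟩
    | mul_left z hz y _ ih =>
      obtain ⟨i, hi, k, hk, rfl⟩ := ih
      rcases hz with rfl | hz
      · by_cases h : i + 1 < p
        · exact ⟨i + 1, h, k, hk, by rw [← mul_assoc, pow_succ']⟩
        · have : i + 1 = p := by omega
          refine ⟨0, hp, z ^ p * k, K.mul_mem h2 hk, ?_⟩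
          rw [pow_zero, one_mul, ← mul_assoc, ← pow_succ', this]
      · exact ⟨i, hi, (x ^ i)⁻¹ * z * x ^ i * k, K.mul_mem (hc' i z hz) hk, by group⟩
    | inv_mul_cancel z hz y _ ih =>
      obtain ⟨i, hi, k, hk, rfl⟩ := ih
      rcases hz with rfl | hz
      · rcases i with _ | i
        · refine ⟨p - 1, by omega, (z ^ p)⁻¹ * k, K.mul_mem (K.inv_mem h2) hk, ?_⟩
          have : z ^ p = z ^ (p - 1) * z := by rw [← pow_succ, Nat.sub_add_cancel hp]
          rw [this, pow_zero, one_mul, mul_inv_rev]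
          have h3 : z ^ (p - 1) * (z⁻¹ * (z ^ (p - 1))⁻¹ * k) = z⁻¹ * k := by
            have : Commute (z ^ (p - 1)) z⁻¹ := ((Commute.refl z).pow_left _).inv_right
            rw [← mul_assoc, ← mul_assoc, this.eq, mul_assoc z⁻¹, mul_inv_cancel, mul_one]
          exact h3.symm
        · exact ⟨i, by omega, k, hk, by rw [pow_succ']; group⟩
      · refine ⟨i, hi, (x ^ i)⁻¹ * z⁻¹ * x ^ i * k, K.mul_mem (hc' i _ (K.inv_mem hz)) hk, by group⟩
  have hsub : ((Subgroup.closure (insert x (K : Set E)) : Subgroup E) : Set E) ⊆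
      Set.range fun q : Fin p × K => x ^ (q.1 : ℕ) * (q.2 : E) := by
    intro y hy
    obtain ⟨i, hi, k, hk, rfl⟩ := key y hy
    exact ⟨(⟨i, hi⟩, ⟨k, hk⟩), rfl⟩
  have h1 := Set.ncard_le_ncard hsub (Set.toFinite _)
  have h3 : (Set.range fun q : Fin p × K => x ^ (q.1 : ℕ) * (q.2 : E)).ncard ≤ Nat.card (Fin p × K) := by
    rw [← Set.image_univ, ← Set.ncard_univ]
    exact Set.ncard_image_le (Set.toFinite _)
  rw [Nat.card_prod, Nat.card_fin] at h3
  exact h1.trans h3

/-- number of a rule -/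
def ix (n j i : ℕ) : ℕ := Nat.sub (Nat.add (Nat.mul j n) i) (Nat.div (Nat.mul j (Nat.succ j)) 2)

/-- power rule -/
def pwB (p j n : ℕ) (q : List ℕ × List ℕ) : Bool := pathB.beqL' q.1 (List.replicate p j) && inB j n q.2

/-- conjugation rule -/
def cjB (i j n : ℕ) (q : List ℕ × List ℕ) : Bool := pathB.beqL' q.1 [i, j] && match q.2 with
  | c :: w => Nat.beq c j && inB j n w
  | [] => false

/-- the rules are polycyclic rules for the letters below `n` -/
def pcB (p n ns : ℕ) (rules : List (List ℕ × List ℕ)) : Bool :=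
  (List.range n).all fun j => (Nat.blt (ix n j j) ns && pwB p j n (rules.getD (ix n j j) ([], []))) &&
    ((List.range n).all fun i => Nat.ble i j || (Nat.blt (ix n j i) ns && cjB i j n (rules.getD (ix n j i) ([], []))))

variable {rules : List (List ℕ × List ℕ)}

theorem pcB_pow {p n ns : ℕ} (h : pcB p n ns rules = true) {j : ℕ} (hj : j < n) :
    ∃ r < ns, ∃ w, rules.getD r ([], []) = (List.replicate p j, w) ∧ ∀ a ∈ w, j < a ∧ a < n := by
  have h1 := (List.all_eq_true.1 h) j (List.mem_range.2 hj)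
  rw [Bool.and_eq_true, Bool.and_eq_true] at h1
  obtain ⟨⟨h2, h3⟩, -⟩ := h1
  unfold pwB at h3
  rw [Bool.and_eq_true] at h3
  refine ⟨ix n j j, Nat.le_of_ble_eq_true h2, (rules.getD (ix n j j) ([], [])).2, ?_, inB_spec h3.2⟩
  rw [← beqL'_spec h3.1]

theorem pcB_conj {p n ns : ℕ} (h : pcB p n ns rules = true) {i j : ℕ} (hj : j < n) (hi : i < n) (hij : j < i) :
    ∃ r < ns, ∃ w, rules.getD r ([], []) = ([i, j], j :: w) ∧ ∀ a ∈ w, j < a ∧ a < n := by
  have h1 := (List.all_eq_true.1 h) j (List.mem_range.2 hj)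
  rw [Bool.and_eq_true] at h1
  have h2 := (List.all_eq_true.1 h1.2) i (List.mem_range.2 hi)
  rw [Bool.or_eq_true] at h2
  rcases h2 with h2 | h2
  · have := Nat.le_of_ble_eq_true h2; omega
  · rw [Bool.and_eq_true] at h2
    obtain ⟨h3, h4⟩ := h2
    unfold cjB at h4
    rw [Bool.and_eq_true] at h4
    obtain ⟨h5, h6⟩ := h4
    rcases hrr : rules.getD (ix n j i) ([], []) with ⟨l, w⟩
    rw [hrr] at h5 h6
    match w, h6 with
    | c :: w, h6 =>
      have h7 : (Nat.beq c j && inB j n w) = true := h6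
      rw [Bool.and_eq_true] at h7
      refine ⟨ix n j i, Nat.le_of_ble_eq_true h3, w, ?_, inB_spec h7.2⟩
      rw [hrr]
      have e : l = [i, j] := beqL'_spec h5
      rw [e, Nat.eq_of_beq_eq_true h7.1]

theorem card_pcB [Finite E] (f : ℕ → E) {p n ns : ℕ} (hp : 0 < p) (hok : pcB p n ns rules = true)
    (hf : ∀ r < ns, val f (rules.getD r ([], [])).1 = val f (rules.getD r ([], [])).2) :
    Nat.card ↥(Subgroup.closure (f '' {i | i < n})) ≤ p ^ n := by
  have sq : ∀ j < n, ∃ w, (∀ a ∈ w, j < a ∧ a < n) ∧ f j ^ p = val f w := by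
    intro j hj
    obtain ⟨r, hr, w, hw, h1⟩ := pcB_pow hok hj
    refine ⟨w, h1, ?_⟩
    have h2 := hf r hr
    rw [hw] at h2
    rw [← h2]
    show _ = ((List.replicate p j).map f).prod
    rw [List.map_replicate, List.prod_replicate]
  have cj : ∀ j < n, ∀ i < n, j < i → ∃ w, (∀ a ∈ w, j < a ∧ a < n) ∧ f i * f j = f j * val f w := by
    intro j hj i hi hji
    obtain ⟨r, hr, w, hw, h1⟩ := pcB_conj hok hj hi hji
    refine ⟨w, h1, ?_⟩
    have h2 := hf r hr
    rw [hw] at h2
    have h4 : val f [i, j] = val f (j :: w) := h2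
    rw [val_cons, val_cons, val_nil, mul_one, val_cons] at h4
    exact h4
  have main : ∀ k ≤ n, Nat.card ↥(Subgroup.closure (f '' {i | n - k ≤ i ∧ i < n})) ≤ p ^ k := by
    intro k
    induction k with
    | zero =>
      intro _
      have : {i | n - 0 ≤ i ∧ i < n} = (∅ : Set ℕ) := by
        ext i; simp only [Set.mem_ofPred_eq, Set.mem_empty_iff_false, iff_false]; omega
      rw [this, Set.image_empty, Subgroup.closure_empty]
      simp
    | succ k ih =>
      intro hk
      have ih := ih (by omega)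
      set K := Subgroup.closure (f '' {i | n - k ≤ i ∧ i < n}) with hK
      set j := n - (k + 1) with hj
      have hjn : j < n := by omega
      have hle : Subgroup.closure (f '' {i | j ≤ i ∧ i < n}) ≤ Subgroup.closure (insert (f j) (K : Set E)) := by
        rw [Subgroup.closure_le]
        rintro _ ⟨i, ⟨hi1, hi2⟩, rfl⟩
        by_cases hij : i = j
        · rw [hij]; exact Subgroup.subset_closure (Set.mem_insert _ _)
        · exact Subgroup.subset_closure (Set.mem_insert_of_mem _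
            (Subgroup.subset_closure ⟨i, ⟨by omega, hi2⟩, rfl⟩))
      have hsub : ∀ w : List ℕ, (∀ a ∈ w, j < a ∧ a < n) → val f w ∈ K := fun w hw =>
        val_mem_closure f _ w fun a ha => ⟨by have := hw a ha; omega, (hw a ha).2⟩
      have h2 : f j ^ p ∈ K := by
        obtain ⟨w, hw, h⟩ := sq j hjn
        rw [h]; exact hsub w hw
      have hc : ∀ k ∈ K, (f j)⁻¹ * k * f j ∈ K := by
        intro y hy
        rw [hK] at hy
        induction hy using Subgroup.closure_induction with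
        | mem y hy =>
          obtain ⟨i, ⟨hi1, hi2⟩, rfl⟩ := hy
          obtain ⟨w, hw, h⟩ := cj j hjn i hi2 (by omega)
          rw [mul_assoc, h, ← mul_assoc, inv_mul_cancel, one_mul]
          exact hsub w hw
        | one => rw [mul_one, inv_mul_cancel]; exact K.one_mem
        | mul y z _ _ hy hz =>
          have h : (f j)⁻¹ * (y * z) * f j = ((f j)⁻¹ * y * f j) * ((f j)⁻¹ * z * f j) := by group
          rw [h]; exact K.mul_mem hy hz
        | inv y _ hy =>
          have h : (f j)⁻¹ * y⁻¹ * f j = ((f j)⁻¹ * y * f j)⁻¹ := by group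
          rw [h]; exact K.inv_mem hy
      have h5 := card_insert_le' hp K (f j) h2 hc
      have h6 := Subgroup.card_le_of_le hle
      rw [pow_succ, mul_comm]
      exact (h6.trans h5).trans (Nat.mul_le_mul_left _ ih)
  have h := main n le_rfl
  have e0 : {i | n - n ≤ i ∧ i < n} = {i | i < n} := by
    ext i; simp
  rw [e0] at h
  exact h

/-- order of a subgroup generated by central elements -/
theorem card_closure_dvd [Finite E] {C : Subgroup E} (hC : C ≤ center E) (a : ℕ → E) (ha : ∀ j, a j ∈ C) (o : ℕ → ℕ) :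
    ∀ n : ℕ, (∀ j < n, a j ^ o j = 1) →
      Nat.card ↥(Subgroup.closure (a '' {j | j < n})) ∣ ∏ j ∈ Finset.range n, o j := by
  intro n
  induction n with
  | zero =>
    intro _
    have : {i | i < 0} = (∅ : Set ℕ) := by ext i; simp
    rw [this, Set.image_empty, Subgroup.closure_empty]
    simp
  | succ n ih =>
    intro h
    have h1 := ih fun j hj => h j (by omega)
    have e : Subgroup.closure (a '' {j | j < n + 1}) = zpowers (a n) ⊔ Subgroup.closure (a '' {j | j < n}) := by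
      have : a '' {j | j < n + 1} = {a n} ∪ a '' {j | j < n} := by
        ext x
        constructor
        · rintro ⟨j, hj, rfl⟩
          have hj' : j < n + 1 := hj
          by_cases hjn : j = n
          · left; rw [hjn]; rfl
          · right; exact ⟨j, by show j < n; omega, rfl⟩
        · rintro (rfl | ⟨j, hj, rfl⟩)
          · exact ⟨n, Nat.lt_succ_self n, rfl⟩
          · exact ⟨j, by have hj' : j < n := hj; show j < n + 1; omega, rfl⟩
      rw [this, Subgroup.closure_union, zpowers_eq_closure]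
    have hn : (Subgroup.closure (a '' {j | j < n})).Normal := by
      constructor
      intro x hx g
      have hx' : x ∈ center E := hC (by
        have : Subgroup.closure (a '' {j | j < n}) ≤ C := by
          rw [Subgroup.closure_le]; rintro _ ⟨j, _, rfl⟩; exact ha j
        exact this hx)
      rw [mem_center_iff.1 hx' g, mul_inv_cancel_right]
      exact hx
    rw [Finset.prod_range_succ, e]
    have h2 : Nat.card ↥(zpowers (a n) ⊔ Subgroup.closure (a '' {j | j < n})) =
        Nat.card ↥(Subgroup.closure (a '' {j | j < n})) *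
          (Subgroup.closure (a '' {j | j < n})).relIndex (zpowers (a n) ⊔ Subgroup.closure (a '' {j | j < n})) := by
      have h3 := ((Subgroup.closure (a '' {j | j < n})).subgroupOf (zpowers (a n) ⊔ Subgroup.closure (a '' {j | j < n}))).card_mul_index
      rw [Nat.card_congr (subgroupOfEquivOfLe (le_sup_right : Subgroup.closure (a '' {j | j < n}) ≤ zpowers (a n) ⊔ _)).toEquiv] at h3
      exact h3.symm
    rw [h2, relIndex_sup_right]
    refine Nat.mul_dvd_mul h1 ?_
    refine (relIndex_dvd_card _ _).trans ?_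
    rw [Nat.card_zpowers]
    exact orderOf_dvd_of_pow_eq_one (h n (by omega))

theorem exp_closure {C : Subgroup E} (hC : C ≤ center E) (a : ℕ → E) (ha : ∀ j, a j ∈ C) {n m : ℕ}
    (h : ∀ j < n, a j ^ m = 1) : ∀ x ∈ Subgroup.closure (a '' {j | j < n}), x ^ m = 1 := by
  intro x hx
  have hle : Subgroup.closure (a '' {j | j < n}) ≤ C := by
    rw [Subgroup.closure_le]; rintro _ ⟨j, _, rfl⟩; exact ha j
  induction hx using Subgroup.closure_induction with
  | mem x hx => obtain ⟨j, hj, rfl⟩ := hx; exact h j hj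
  | one => exact one_pow m
  | mul x y hx hy h1 h2 =>
    have : Commute x y := (mem_center_iff.1 (hC (hle hy)) x)
    rw [this.mul_pow, h1, h2, one_mul]
  | inv x _ h1 => rw [inv_pow, h1, inv_one]

/-! ### Main theorem -/

/-- product of the orders of the parameters -/
def Cert.bound (D : Cert) : ℕ := ∏ j ∈ Finset.range D.prm.length, D.ords.getD j 1

/-- letters satisfying the polycyclic rules modulo `A` -/
theorem ker_eq_of_rules {G : Type v} [Group G] {Γ : Type u} [Group Γ] [Finite Γ] {σ : Γ →* G} (P : PCE σ) {p k n ns : ℕ}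
    (hp : p.Prime) (hexp : ∀ x ∈ σ.ker, x ^ p ^ k = 1) {g : ℕ → G} {rules : List (List ℕ × List ℕ)}
    (hpc : pcB p n ns rules = true) (hcard : p ^ n ≤ Nat.card ↥(Subgroup.closure (g '' {i | i < n})))
    (hidx : ¬ p ∣ (Subgroup.closure (g '' {i | i < n})).index) {A : Subgroup Γ} (hAle : A ≤ σ.ker)
    {f₀ : ℕ → Γ} (hf₀ : ∀ i, σ (f₀ i) = g i)
    (hr : ∀ r < ns, ∃ c ∈ A, val f₀ (rules.getD r ([], [])).1 = c * val f₀ (rules.getD r ([], [])).2) : σ.ker = A := by
  have hfp : Fact p.Prime := ⟨hp⟩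
  have hAn : A.Normal := normal_of_le P.ce hAle
  have P' := P.quot A hAle
  set τ : Γ ⧸ A →* G := QuotientGroup.lift A σ hAle with hτ
  set f : ℕ → Γ ⧸ A := fun i => QuotientGroup.mk (f₀ i) with hf
  have hτf : ∀ i, τ (f i) = g i := fun i => hf₀ i
  have hvalf : ∀ w, val f w = QuotientGroup.mk (val f₀ w) := by
    intro w
    induction w with
    | nil => rfl
    | cons i w ih => rw [val_cons, val_cons, ih]; rfl
  have hfr : ∀ r < ns, val f (rules.getD r ([], [])).1 = val f (rules.getD r ([], [])).2 := by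
    intro r hr'
    obtain ⟨c, hcA, h1⟩ := hr r hr'
    rw [hvalf, hvalf, h1, QuotientGroup.mk_mul]
    rw [(QuotientGroup.eq_one_iff _).2 hcA, one_mul]
  set H := Subgroup.closure (f '' {i | i < n}) with hH
  set S := Subgroup.closure (g '' {i | i < n}) with hS
  have hcH : Nat.card H ≤ p ^ n := card_pcB f hp.pos hpc hfr
  have hmap : H.map τ = S := by
    rw [hH, hS, MonoidHom.map_closure]
    congr 1
    ext x
    constructor
    · rintro ⟨_, ⟨i, hi, rfl⟩, rfl⟩
      exact ⟨i, hi, (hτf i).symm⟩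
    · rintro ⟨i, hi, rfl⟩
      exact ⟨_, ⟨i, hi, rfl⟩, hτf i⟩
  have hsur : Function.Surjective (fun h : H => (⟨τ h, by rw [← hmap]; exact Subgroup.mem_map_of_mem τ h.2⟩ : S)) := by
    rintro ⟨s, hs⟩
    rw [← hmap] at hs
    obtain ⟨h, hh, rfl⟩ := hs
    exact ⟨⟨h, hh⟩, rfl⟩
  have hbij := hsur.bijective_of_nat_card_le (hcH.trans hcard)
  have hinj : ∀ x ∈ H, τ x = 1 → x = 1 := by
    intro x hx h1
    have h2 : (⟨x, hx⟩ : H) = 1 := by
      apply hbij.1
      apply Subtype.ext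
      show τ x = τ ((1 : H) : Γ ⧸ A)
      rw [h1, Subgroup.coe_one, map_one]
    exact congrArg Subtype.val h2
  -- the quotient has trivial kernel
  have hker : τ.ker = ⊥ := by
    by_contra hne
    have hpd : p ∣ Nat.card τ.ker := by
      have hpg : IsPGroup p τ.ker := by
        rintro ⟨x, hx⟩
        refine ⟨k, ?_⟩
        apply Subtype.ext
        show x ^ p ^ k = 1
        obtain ⟨y, rfl⟩ := QuotientGroup.mk_surjective x
        have : y ^ p ^ k = 1 := hexp y hx
        rw [← QuotientGroup.mk_pow, this]; rfl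
      obtain ⟨j, hj⟩ := (IsPGroup.iff_card).1 hpg
      rcases j with _ | j
      · exfalso
        apply hne
        rw [pow_zero] at hj
        exact (Subgroup.card_eq_one).1 hj
      · rw [hj]; exact dvd_pow_self p (Nat.succ_ne_zero j)
    refine Cfsg.Agent.H90.Stem.false_of_comm P'.stem hpd (S.comap τ) ?_ H ?_ hinj
    · rw [index_comap_of_surjective _ P'.ce.surj]; exact hidx
    · intro x hx y hy
      have key : ∀ x ∈ S.comap τ, ∃ h ∈ H, ∃ c, τ c = 1 ∧ x = h * c := by
        intro x hx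
        have : τ x ∈ H.map τ := by rw [hmap]; exact hx
        obtain ⟨h, hh, h1⟩ := this
        refine ⟨h, hh, h⁻¹ * x, ?_, by group⟩
        rw [map_mul, map_inv, h1, inv_mul_cancel]
      obtain ⟨h, hh, c, hc, rfl⟩ := key x hx
      obtain ⟨h', hh', c', hc', rfl⟩ := key y hy
      have e1 := CE.comm_mem P'.ce hc
      have e2 := CE.comm_mem P'.ce hc'
      have : ⁅h * c, h' * c'⁆ = ⁅h, h'⁆ := by
        rw [commutatorElement_def, commutatorElement_def]
        calc h * c * (h' * c') * (h * c)⁻¹ * (h' * c')⁻¹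
            = h * (c * (h' * c')) * c⁻¹ * h⁻¹ * c'⁻¹ * h'⁻¹ := by group
          _ = h * (h' * c' * c) * c⁻¹ * h⁻¹ * c'⁻¹ * h'⁻¹ := by rw [e1]
          _ = h * h' * (c' * h⁻¹) * c'⁻¹ * h'⁻¹ := by group
          _ = h * h' * (h⁻¹ * c') * c'⁻¹ * h'⁻¹ := by rw [e2]
          _ = h * h' * h⁻¹ * h'⁻¹ := by group
      rw [this, commutatorElement_def]
      exact H.mul_mem (H.mul_mem (H.mul_mem hh hh') (H.inv_mem hh)) (H.inv_mem hh')
  apply le_antisymm _ hAle
  intro x hx
  have h1 : (QuotientGroup.mk x : Γ ⧸ A) ∈ τ.ker := hx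
  rw [hker, Subgroup.mem_bot] at h1
  exact (QuotientGroup.eq_one_iff _).1 h1

theorem nr_mem {G : Type v} [Group G] {Γ : Type u} [Group Γ] {σ : Γ →* G} {e : ℕ → Γ} {g : ℕ → G} (he : ∀ i, σ (e i) = g i)
    {rules : List (List ℕ × List ℕ)} (hr : ∀ r, val g (rules.getD r ([], [])).1 = val g (rules.getD r ([], [])).2) (r : ℕ) :
    nr e rules r ∈ σ.ker := by
  have h1 : ∀ w, σ (val e w) = val g w := by
    intro w
    induction w with
    | nil => exact map_one σ
    | cons i w ih => rw [val_cons, val_cons, map_mul, ih, he]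
  rw [MonoidHom.mem_ker]
  unfold nr
  rw [map_mul, map_inv, h1, h1, hr r, mul_inv_cancel]

theorem cert_main {G : Type v} [Group G] {p k n : ℕ} (hp : p.Prime) (g : ℕ → G) {D : Cert} (G1 : D.Good)
    (hm : D.m = p ^ (k + 1)) (hr : ∀ r, val g (D.rules.getD r ([], [])).1 = val g (D.rules.getD r ([], [])).2)
    (hpc : pcB p n D.ns D.rules = true) (hcard : p ^ n ≤ Nat.card ↥(Subgroup.closure (g '' {i | i < n})))
    (hidx : ¬ p ∣ (Subgroup.closure (g '' {i | i < n})).index)
    (hord : ((List.range D.prm.length).all fun j => Nat.beq (Nat.mod (Nat.pow p k) (D.ords.getD j 1)) 0) = true) :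
    PB G p D.bound := by
  apply PB.of_exp hp k
  intro Γ _ _ σ P hexp
  choose e he using fun i => P.ce.surj (g i)
  have hnr : ∀ r, nr e D.rules r ∈ σ.ker := nr_mem he hr
  let z : ℕ → Subgroup.center Γ := fun r => ⟨nr e D.rules r, P.ce.central (hnr r)⟩
  have T : Tails e D.rules D.m z := by
    refine ⟨G1.m1, fun r => rfl, fun r => Subtype.ext ?_⟩
    show (nr e D.rules r) ^ D.m = 1
    rw [hm]; exact hexp _ (hnr r)
  obtain ⟨pr, hpr, hpr16⟩ := exists_pk G1.prm
  have hzK : ∀ r < D.n, z r ∈ σ.ker.subgroupOf (Subgroup.center Γ) := fun r _ => hnr r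
  obtain ⟨v, hv, hao, hpcr⟩ := G1.main T hzK hpr hpr16
  have hv' : ∀ i, σ (v i : Γ) = 1 := fun i => hv i
  set a : ℕ → Subgroup.center Γ := fun j => Stab.ev z D.n (pr.getD j (fun _ => 0)) with ha_def
  let a' : ℕ → Γ := fun j => (a j : Γ)
  have ha' : ∀ j, a' j ∈ σ.ker := fun j => ev_mem (σ.ker.subgroupOf (Subgroup.center Γ)) hzK _
  set A := Subgroup.closure (a' '' {j | j < D.prm.length}) with hA
  have hAle : A ≤ σ.ker := by
    rw [hA, Subgroup.closure_le]; rintro _ ⟨j, _, rfl⟩; exact ha' j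
  have hkA : σ.ker = A := by
    refine ker_eq_of_rules P hp hexp hpc hcard hidx hAle (f₀ := fun i => (v i : Γ) * e i) (fun i => by
      rw [map_mul, hv', one_mul, he]) ?_
    intro r hr'
    obtain ⟨c, hc, h1⟩ := hpcr r hr'
    refine ⟨c, ?_, h1⟩
    have h2 : (Subgroup.closure (a '' {j | j < D.prm.length})).map (Subgroup.center Γ).subtype ≤ A := by
      rw [MonoidHom.map_closure, hA]
      apply Subgroup.closure_mono
      rintro _ ⟨_, ⟨j, hj, rfl⟩, rfl⟩
      exact ⟨j, hj, rfl⟩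
    exact h2 ⟨c, hc, rfl⟩
  have hCle : σ.ker ≤ Subgroup.center Γ := P.ce.central
  have hao' : ∀ j < D.prm.length, a' j ^ D.ords.getD j 1 = 1 := fun j hj => congrArg Subtype.val (hao j hj)
  refine ⟨?_, ?_⟩
  · rw [hkA, hA]
    exact card_closure_dvd hCle a' ha' _ _ hao'
  · intro x hx
    rw [hkA] at hx
    refine exp_closure hCle a' ha' (n := D.prm.length) (fun j hj => ?_) x hx
    have h1 := (List.all_eq_true.1 hord) j (List.mem_range.2 hj)
    have h2 : p ^ k % D.ords.getD j 1 = 0 := Nat.eq_of_beq_eq_true h1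
    obtain ⟨c, hc⟩ := Nat.dvd_of_mod_eq_zero h2
    rw [hc, pow_mul, hao' j hj, one_pow]

/-! ### Non-trivial kernels -/

/-- equations for the orders of the parameters, modulo `p ^ 2` -/
structure OGood (D : Cert) (p M : ℕ) (rows : List ℕ) (cs : List ℕ) : Prop where
  hrows : Rows D.b (p * p) D.n M D.rules rows
  bnd : 15 * M * rows.length < 2 ^ D.b
  bnd2 : 16 * p < 2 ^ D.b
  ord : ∀ j < D.prm.length, congB D.b (p * p) D.n (Nat.mul p (D.prm.getD j 0)) (comb rows (cs.getD j 0)) = true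

theorem cert_main2 {G : Type v} [Group G] {p n : ℕ} (hp : p.Prime) (g : ℕ → G) {D : Cert} (G1 : D.Good)
    (hm : D.m = p) (hr : ∀ r, val g (D.rules.getD r ([], [])).1 = val g (D.rules.getD r ([], [])).2)
    (hpc : pcB p n D.ns D.rules = true) (hcard : p ^ n ≤ Nat.card ↥(Subgroup.closure (g '' {i | i < n})))
    (hidx : ¬ p ∣ (Subgroup.closure (g '' {i | i < n})).index) {M : ℕ} {rows cs : List ℕ} (O : OGood D p M rows cs) :
    PB G p (p ^ D.prm.length) := by
  apply PB.of_exp hp 1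
  intro Γ _ _ σ P hexp
  have hpp : p ^ (1 + 1) = p * p := by ring
  rw [hpp] at hexp
  choose e he using fun i => P.ce.surj (g i)
  have hnr : ∀ r, nr e D.rules r ∈ σ.ker := nr_mem he hr
  let z : ℕ → Subgroup.center Γ := fun r => ⟨nr e D.rules r, P.ce.central (hnr r)⟩
  have hzK : ∀ r < D.n, z r ∈ σ.ker.subgroupOf (Subgroup.center Γ) := fun r _ => hnr r
  have T2 : Tails e D.rules (p * p) z := by
    refine ⟨Nat.mul_pos hp.pos hp.pos, fun r => rfl, fun r => Subtype.ext ?_⟩
    exact hexp _ (hnr r)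
  obtain ⟨pr, hpr, hpr16⟩ := exists_pk G1.prm
  set a : ℕ → Subgroup.center Γ := fun j => Stab.ev z D.n (pr.getD j (fun _ => 0)) with ha_def
  let a' : ℕ → Γ := fun j => (a j : Γ)
  have ha' : ∀ j, a' j ∈ σ.ker := fun j => ev_mem (σ.ker.subgroupOf (Subgroup.center Γ)) hzK _
  -- orders
  have hao : ∀ j < D.prm.length, a j ^ p = 1 := by
    intro j hj
    obtain ⟨rs, hrs, hrM, hr1⟩ := rowsD_aux (Nat.mul_pos hp.pos hp.pos) T2 rows O.hrows
    have hlen : rs.length = rows.length := by rw [hrs, List.length_map]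
    have h2 := O.ord j hj
    have h3 : Nat.mul p (D.prm.getD j 0) = pk D.b (fun k => p * pr.getD j (fun _ => 0) k) D.n := by
      rw [pk_mul, ← getD_map_pk hpr]; rfl
    have h3' : comb rows (cs.getD j 0) = pk D.b (combD rs (cs.getD j 0)) D.n := by rw [hrs, comb_pk]
    rw [h3, h3'] at h2
    have hbnd := O.bnd
    have hbnd2 := O.bnd2
    have h4 := congB_spec D.n _ _ (fun r => by
      have := getD_lt hpr16 j r
      have h5 : p * pr.getD j (fun _ => 0) r ≤ p * 16 := Nat.mul_le_mul_left _ this.le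
      show p * pr.getD j (fun _ => 0) r < 2 ^ D.b
      omega) (fun r => by
        have := combD_le rs (cs.getD j 0) r hrM
        rw [hlen] at this
        omega) h2
    have h5 := ev_congr (x := z) (fun r _ => T2.exp r) h4
    rw [ev_mul, ev_combD z D.n rs _ hr1] at h5
    exact h5
  have hao' : ∀ j < D.prm.length, a' j ^ p = 1 := fun j hj => congrArg Subtype.val (hao j hj)
  -- the quotient by the p-th powers
  set N := powKer P.ce p with hN
  have hle : N ≤ σ.ker := by
    rintro _ ⟨x, hx, rfl⟩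
    exact pow_mem hx _
  have hNn : N.Normal := normal_of_le P.ce hle
  have P1 := P.quot N hle
  set σ1 : Γ ⧸ N →* G := QuotientGroup.lift N σ hle with hσ1
  have hexp1 : ∀ x ∈ σ1.ker, x ^ p ^ 1 = 1 := by
    intro x hx
    obtain ⟨y, rfl⟩ := QuotientGroup.mk_surjective x
    rw [pow_one, ← QuotientGroup.mk_pow, QuotientGroup.eq_one_iff]
    exact ⟨y, hx, rfl⟩
  let e1 : ℕ → Γ ⧸ N := fun i => QuotientGroup.mk (e i)
  have he1 : ∀ i, σ1 (e1 i) = g i := fun i => he i
  have hnr1 : ∀ r, nr e1 D.rules r ∈ σ1.ker := nr_mem he1 hr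
  let z1 : ℕ → Subgroup.center (Γ ⧸ N) := fun r => ⟨nr e1 D.rules r, P1.ce.central (hnr1 r)⟩
  have hzK1 : ∀ r < D.n, z1 r ∈ σ1.ker.subgroupOf (Subgroup.center (Γ ⧸ N)) := fun r _ => hnr1 r
  have T1 : Tails e1 D.rules D.m z1 := by
    refine ⟨G1.m1, fun r => rfl, fun r => Subtype.ext ?_⟩
    show (nr e1 D.rules r) ^ D.m = 1
    rw [hm]
    have := hexp1 _ (hnr1 r)
    rwa [pow_one] at this
  obtain ⟨v, hv, -, hpcr⟩ := G1.main T1 hzK1 hpr hpr16
  have hv' : ∀ i, σ1 (v i : Γ ⧸ N) = 1 := fun i => hv i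
  have hzz : ∀ r, (z1 r : Γ ⧸ N) = QuotientGroup.mk (z r : Γ) := by
    intro r
    have hvalf : ∀ w, val e1 w = QuotientGroup.mk (val e w) := by
      intro w
      induction w with
      | nil => rfl
      | cons i w ih => rw [val_cons, val_cons, ih]; rfl
    show val e1 _ * (val e1 _)⁻¹ = _
    rw [hvalf, hvalf]; rfl
  set a1 : ℕ → Subgroup.center (Γ ⧸ N) := fun j => Stab.ev z1 D.n (pr.getD j (fun _ => 0)) with ha1_def
  have haa : ∀ j, (a1 j : Γ ⧸ N) = QuotientGroup.mk (a' j) := by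
    intro j
    have key : ∀ d : ℕ → ℕ, ((Stab.ev z1 D.n d : Subgroup.center (Γ ⧸ N)) : Γ ⧸ N) = QuotientGroup.mk ((Stab.ev z D.n d : Subgroup.center Γ) : Γ) := by
      intro d
      unfold Stab.ev
      induction D.n with
      | zero => simp
      | succ m ih =>
        rw [Finset.prod_range_succ, Finset.prod_range_succ, Subgroup.coe_mul, Subgroup.coe_mul, ih, QuotientGroup.mk_mul,
          Subgroup.coe_pow, Subgroup.coe_pow, QuotientGroup.mk_pow, hzz]
    exact key _
  set A1 := Subgroup.closure ((fun j => (a1 j : Γ ⧸ N)) '' {j | j < D.prm.length}) with hA1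
  have hA1le : A1 ≤ σ1.ker := by
    rw [hA1, Subgroup.closure_le]; rintro _ ⟨j, _, rfl⟩
    exact ev_mem (σ1.ker.subgroupOf (Subgroup.center (Γ ⧸ N))) hzK1 _
  have hkA1 : σ1.ker = A1 := by
    refine ker_eq_of_rules P1 hp hexp1 hpc hcard hidx hA1le (f₀ := fun i => (v i : Γ ⧸ N) * e1 i) (fun i => by
      rw [map_mul, hv', one_mul, he1]) ?_
    intro r hr'
    obtain ⟨c, hc, h1⟩ := hpcr r hr'
    refine ⟨c, ?_, h1⟩
    have h2 : (Subgroup.closure (a1 '' {j | j < D.prm.length})).map (Subgroup.center (Γ ⧸ N)).subtype ≤ A1 := by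
      rw [MonoidHom.map_closure, hA1]
      apply Subgroup.closure_mono
      rintro _ ⟨_, ⟨j, hj, rfl⟩, rfl⟩
      exact ⟨j, hj, rfl⟩
    exact h2 ⟨c, hc, rfl⟩
  set A := Subgroup.closure (a' '' {j | j < D.prm.length}) with hA
  have hAle : A ≤ σ.ker := by
    rw [hA, Subgroup.closure_le]; rintro _ ⟨j, _, rfl⟩; exact ha' j
  have hAmap : A.map (QuotientGroup.mk' N) = A1 := by
    rw [hA, MonoidHom.map_closure, hA1]
    congr 1
    ext x
    constructor
    · rintro ⟨_, ⟨j, hj, rfl⟩, rfl⟩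
      exact ⟨j, hj, haa j⟩
    · rintro ⟨j, hj, rfl⟩
      exact ⟨_, ⟨j, hj, rfl⟩, (haa j).symm⟩
  have hdec : ∀ x ∈ σ.ker, ∃ α ∈ A, ∃ y ∈ σ.ker, x = α * y ^ p := by
    intro x hx
    have h1 : (QuotientGroup.mk x : Γ ⧸ N) ∈ A.map (QuotientGroup.mk' N) := by
      rw [hAmap, ← hkA1]; exact hx
    obtain ⟨α, hα, h2⟩ := h1
    have h3 : α⁻¹ * x ∈ N := (QuotientGroup.eq).1 h2
    obtain ⟨y, hy, h4⟩ := h3
    exact ⟨α, hα, y, hy, by rw [h4]; group⟩
  have hkA : σ.ker = A := by
    apply le_antisymm _ hAle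
    intro x hx
    obtain ⟨α, hα, y, hy, rfl⟩ := hdec x hx
    obtain ⟨β, hβ, w, hw, rfl⟩ := hdec y hy
    have h1 : Commute β (w ^ p) := CE.comm_mem P.ce (hAle hβ) _
    rw [h1.mul_pow, ← pow_mul, hexp w hw, mul_one]
    exact A.mul_mem hα (A.pow_mem hβ p)
  have hCle : σ.ker ≤ Subgroup.center Γ := P.ce.central
  refine ⟨?_, ?_⟩
  · rw [hkA, hA]
    have := card_closure_dvd hCle a' ha' (fun _ => p) D.prm.length hao'
    rwa [Finset.prod_const, Finset.card_range] at this
  · intro x hx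
    rw [hkA] at hx
    rw [pow_one]
    exact exp_closure hCle a' ha' (n := D.prm.length) hao' x hx

end Stab

end Cfsg.Agent.MRel
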