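import Cfsg.Agent.MRel.StabG
import Cfsg.Agent.KMat.PCard

/-!
# Sylow subgroups for the method of `StabG` (owner: helper83)
-/

set_option autoImplicit false

namespace Cfsg.Agent.MRel.Stab

open Subgroup Mult Cfsg.Agent.Golay Cfsg.Agent.MulX Cfsg.Agent.MulX.Coh
open Cfsg.Agent.KMat (pws pws_mem pws_length)

universe u v w

section

variable {G : Type v} [Group G]

/-- lower bound for the order of a subgroup: one step -/
theorem card_step [Finite G] {p : ℕ} {f : ℕ → G} {K L : Subgroup G} (hKL : K ≤ L) {l : List ℕ} (hl : ∀ x ∈ l, f x ∈ L)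
    {X : Type*} (F : G → X) (hF : ∀ g, ∀ h ∈ K, F (g * h) = F g) (hnd : ((pws p l).map fun w => F (val f w)).Nodup) :
    p ^ l.length * Nat.card K ≤ Nat.card L := by
  classical
  have hmem : ∀ w ∈ pws p l, val f w ∈ L := by
    intro w hw
    apply Subgroup.list_prod_mem
    intro y hy
    obtain ⟨x, hx, rfl⟩ := List.mem_map.1 hy
    exact hl x (pws_mem hw x hx)
  have hnd' : (pws p l).Nodup := List.Nodup.of_map _ hnd
  let S : Finset (List ℕ) := (pws p l).toFinset
  have hScard : S.card = p ^ l.length := by rw [List.toFinset_card_of_nodup hnd', pws_length]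
  let φ : S × K → L := fun q => ⟨val f q.1.1 * (q.2 : G), mul_mem (hmem _ (List.mem_toFinset.1 q.1.2)) (hKL q.2.2)⟩
  have hφ : Function.Injective φ := by
    rintro ⟨⟨w, hw⟩, ⟨k, hk⟩⟩ ⟨⟨w', hw'⟩, ⟨k', hk'⟩⟩ h
    have h1 : val f w * k = val f w' * k' := congrArg Subtype.val h
    have h2 : F (val f w) = F (val f w') := by rw [← hF _ k hk, h1, hF _ k' hk']
    have h3 : w = w' := List.inj_on_of_nodup_map hnd (List.mem_toFinset.1 hw) (List.mem_toFinset.1 hw') h2
    subst h3
    have h4 : k = k' := mul_left_cancel h1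
    subst h4
    rfl
  have h := Nat.card_le_card_of_injective φ hφ
  rw [Nat.card_prod, Nat.card_eq_fintype_card (α := S), Fintype.card_coe, hScard] at h
  exact h

variable {rules : List (List ℕ × List ℕ)}

/-- the index of a Sylow subgroup -/
theorem not_dvd_index [Finite G] {p n ns : ℕ} (hp : p.Prime) (g : ℕ → G)
    (hr : ∀ r, val g (rules.getD r ([], [])).1 = val g (rules.getD r ([], [])).2)
    (hpc : pcB p n ns rules = true) (hcard : p ^ n ≤ Nat.card ↥(Subgroup.closure (g '' {i | i < n})))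
    {N : ℕ} (hN : Nat.card G = N) (hNp : ¬ p ∣ N / p ^ n) : ¬ p ∣ (Subgroup.closure (g '' {i | i < n})).index := by
  have h1 := card_pcB g hp.pos hpc fun r _ => hr r
  have h2 : Nat.card ↥(Subgroup.closure (g '' {i | i < n})) = p ^ n := le_antisymm h1 hcard
  have h3 := (Subgroup.closure (g '' {i | i < n})).card_mul_index
  rw [h2, hN] at h3
  have h4 : N / p ^ n = (Subgroup.closure (g '' {i | i < n})).index := by
    rw [← h3]; exact Nat.mul_div_cancel_left _ (pow_pos hp.pos n)
  rw [← h4]; exact hNp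

/-- rules that hold in `G` -/
def Holds (g : ℕ → G) (rules : List (List ℕ × List ℕ)) : Prop := ∀ q ∈ rules, val g q.1 = val g q.2

theorem Holds.getD {g : ℕ → G} (h : Holds g rules) (r : ℕ) :
    val g (rules.getD r ([], [])).1 = val g (rules.getD r ([], [])).2 := by
  by_cases hr : r < rules.length
  · rw [List.getD_eq_getElem _ _ hr]; exact h _ (List.getElem_mem hr)
  · rw [List.getD_eq_default _ _ (not_lt.mp hr)]

theorem cyc_index [Finite G] {p N : ℕ} {x : G} {k : ℕ} (hx : orderOf x = k) (hk : 0 < k) (hN : Nat.card G = N)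
    (h : ¬ p ∣ N / k) : ¬ p ∣ (zpowers x).index := by
  have h3 := (zpowers x).card_mul_index
  rw [Nat.card_zpowers, hx, hN] at h3
  have h4 : N / k = (zpowers x).index := by
    rw [← h3]; exact Nat.mul_div_cancel_left _ hk
  rw [← h4]; exact h

end

/-- **Trivial p-part.** -/
theorem PB_one {G : Type v} [Group G] [Finite G] {p n : ℕ} (hp : p.Prime) (g : ℕ → G) {D : Cert} (G1 : D.Good)
    (hm : D.m = p) (hprm : D.prm = []) (hr : Holds g D.rules)
    (hpc : pcB p n D.ns D.rules = true) (hcard : p ^ n ≤ Nat.card ↥(Subgroup.closure (g '' {i | i < n})))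
    {N : ℕ} (hN : Nat.card G = N) (hNp : ¬ p ∣ N / p ^ n) (d : ℕ) : PB G p d := by
  have h := cert_main (k := 0) hp g G1 (by rw [hm, zero_add, pow_one]) hr.getD hpc hcard
    (not_dvd_index hp g hr.getD hpc hcard hN hNp) (by rw [hprm]; rfl)
  refine h.mono ?_
  unfold Cert.bound
  rw [hprm]
  simp

/-- **Non-trivial p-part.** -/
theorem PB_two {G : Type v} [Group G] [Finite G] {p n : ℕ} (hp : p.Prime) (g : ℕ → G) {D : Cert} (G1 : D.Good)
    (hm : D.m = p) (hr : Holds g D.rules)
    (hpc : pcB p n D.ns D.rules = true) (hcard : p ^ n ≤ Nat.card ↥(Subgroup.closure (g '' {i | i < n})))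
    {N : ℕ} (hN : Nat.card G = N) (hNp : ¬ p ∣ N / p ^ n) {M : ℕ} {rows cs : List ℕ} (O : OGood D p M rows cs) {d : ℕ}
    (hd : p ^ D.prm.length ∣ d) : PB G p d :=
  (cert_main2 hp g G1 hm hr.getD hpc hcard (not_dvd_index hp g hr.getD hpc hcard hN hNp) O).mono hd

theorem Holds.comp {G : Type v} [Group G] {G' : Type w} [Group G'] {g : ℕ → G} {rules : List (List ℕ × List ℕ)}
    (h : Holds g rules) (φ : G →* G') : Holds (fun i => φ (g i)) rules := by
  have key : ∀ w, val (fun i => φ (g i)) w = φ (val g w) := by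
    intro w
    induction w with
    | nil => exact (map_one φ).symm
    | cons i w ih => rw [val_cons, val_cons, map_mul, ih]
  intro q hq
  rw [key, key, h q hq]

end Cfsg.Agent.MRel.Stab
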