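import Cfsg.Agent.MRel.Step

set_option autoImplicit false

/-!
Commuting lifts: elements of odd order, lifts of perfect subgroups, conjugation (owner: helper83).
-/

namespace Cfsg.Agent.MRel

open Cfsg.Agent.CosetEnum Subgroup Mult
open scoped commutatorElement

universe u v

section

variable {Γ : Type u} {G : Type v} [Group Γ] [Group G] {σ : Γ →* G} (C : CE σ)

theorem cm_pow_left {a x : G} (hx : x * a = a * x) (m : ℕ) : C.cm (x ^ m) a = (C.cm x a) ^ m := by
  induction m with
  | zero => rw [pow_zero, pow_zero, C.cm_one_left]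
  | succ m ih =>
    have h1 : x ^ m * a = a * x ^ m := ((show Commute x a from hx).pow_left m).eq
    rw [pow_succ, cm_mul_of_comm C h1 hx, ih, pow_succ]

theorem cm_sq_right {a x : G} (ha : a * a = 1) (hx : x * a = a * x) : C.cm x a * C.cm x a = 1 := by
  have h1 : C.cm x a ∈ center Γ := C.cm_mem_center (by rw [commutatorElement_eq_one_iff_mul_comm, hx])
  have h2 := C.cm_mul_right x a a
  rw [ha, C.cm_one_right, C.cj_center _ h1] at h2
  exact h2.symm

/-- an element of odd order in the centralizer of an involution commutes exactly -/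
theorem tr_of_odd {a x : G} (ha : a * a = 1) (hx : x * a = a * x) {m : ℕ} (hm : Odd m) (h : x ^ m = 1) : C.Tr x a := by
  have h1 := cm_pow_left C hx m
  rw [h, C.cm_one_left] at h1
  have h2 := cm_sq_right C ha hx
  obtain ⟨k, rfl⟩ := hm
  rw [pow_succ, pow_mul, pow_two, h2, one_pow, one_mul] at h1
  exact h1.symm

theorem tr_cancel {C : CE σ} {a x y : G} (h : C.Tr (x * y) a) (hx : C.Tr x a) : C.Tr y a := by
  have := hx.inv_left.mul_left h
  rwa [inv_mul_cancel_left] at this

theorem tr_cancel_right {C : CE σ} {a x y : G} (h : C.Tr (x * y) a) (hy : C.Tr y a) : C.Tr x a := by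
  have := h.mul_left hy.inv_left
  rwa [mul_inv_cancel_right] at this

theorem tr_of_lift {H : Subgroup G} (s : H →* Γ) (hs : ∀ h : H, σ (s h) = h) {x y : G} (hx : x ∈ H) (hy : y ∈ H)
    (hxy : x * y = y * x) : C.Tr x y := by
  rw [C.tr_iff' (hs ⟨x, hx⟩) (hs ⟨y, hy⟩), ← map_mul, ← map_mul]
  congr 1
  exact Subtype.ext hxy

include C in
/-- conjugation of the lifts of a perfect subgroup -/
theorem conj_lift {H : Subgroup G} (hH : commutator H = ⊤) (s : H →* Γ) (hs : ∀ h : H, σ (s h) = h) {y : Γ}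
    (hy : ∀ x ∈ H, σ y * x * (σ y)⁻¹ ∈ H) (x : H) : y * s x * y⁻¹ = s ⟨σ y * x * (σ y)⁻¹, hy x x.2⟩ := by
  let c : H →* H := MonoidHom.mk' (fun x => ⟨σ y * x * (σ y)⁻¹, hy x x.2⟩) (by
    intro a b
    apply Subtype.ext
    show σ y * ((a : G) * (b : G)) * (σ y)⁻¹ = (σ y * a * (σ y)⁻¹) * (σ y * b * (σ y)⁻¹)
    group)
  have h : (MulAut.conj y).toMonoidHom.comp s = s.comp c := by
    apply lift_unique C hH
    intro a
    show σ (y * s a * y⁻¹) = σ (s (c a))
    rw [map_mul, map_mul, map_inv, hs, hs]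
    rfl
  exact DFunLike.congr_fun h x

end

end Cfsg.Agent.MRel
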