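import Cfsg.Agent.MRel.Sz8A
import Cfsg.Agent.MRel.Tr
import Cfsg.Agent.MRel.Lets
import Cfsg.Agent.MRel.Proj
import Cfsg.Agent.CosetEnum.M83.CertsS
import Cfsg.Agent.JY.SzC
import Cfsg.Agent.SzLie.Simple

set_option autoImplicit false
set_option maxRecDepth 1000000

/-!
The Schur multiplier of Sz(8) is a four-group (owner: helper83).
-/

namespace Cfsg.Agent.MRel.Sz8

open Cfsg.Agent.CosetEnum Subgroup Mult Lets Cfsg.Agent.MRel.Stab Cfsg.Agent.MRel.Bit2

/-- the covering group -/
abbrev U : Type := QG 7 M83S7.iv M83S7.RL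

/-- its letters -/
abbrev u : ℕ → U := qg 7 M83S7.iv M83S7.RL

theorem uU : Univ u 7 M83S7.iv M83S7.RL := univ_qg _ _ _

theorem bdU : Bd (⊤ : Subgroup U) 116480 := by
  have gd := uU.good
  rw [← uU.top]
  have h5 := (Bd.zero u).cl (M := 52) M83S4.cert gd (by decide +kernel) (by decide +kernel) (by norm_num) rfl
  exact h5.cl (M := 116480) M83S7.cert gd (by decide +kernel) (by decide +kernel) (by norm_num) rfl

instance finU : Finite U := by
  have := bdU.1
  exact Finite.of_equiv _ (Subgroup.topEquiv (G := U)).toEquiv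

/-- quotient in which `z` is trivial -/
abbrev UY : Type := QG 7 M83S1040Y.iv M83S1040Y.RL
/-- quotient in which `y` is trivial -/
abbrev UZ : Type := QG 7 M83S1040Z.iv M83S1040Z.RL
/-- letters -/
abbrev uy : ℕ → UY := qg 7 M83S1040Y.iv M83S1040Y.RL
/-- letters -/
abbrev uz : ℕ → UZ := qg 7 M83S1040Z.iv M83S1040Z.RL

theorem UUY : Univ uy 7 M83S1040Y.iv M83S1040Y.RL := univ_qg _ _ _
theorem UUZ : Univ uz 7 M83S1040Z.iv M83S1040Z.RL := univ_qg _ _ _

theorem uy3 : uy 3 ≠ 1 := UUY.ne_one M83S1040Y.tabOK (x := 3) (i := 0) rfl (by decide +kernel) (by decide +kernel)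
theorem uz4 : uz 4 ≠ 1 := UUZ.ne_one M83S1040Z.tabOK (x := 4) (i := 0) rfl (by decide +kernel) (by decide +kernel)
theorem uy4 : uy 4 = 1 := by simpa using UUY.good.rel ([4], 1) (by decide +kernel)
theorem uz3 : uz 3 = 1 := by simpa using UUZ.good.rel ([3], 1) (by decide +kernel)

theorem goodY : Good uy 7 M83S7.iv M83S7.RL where
  inv := UUY.good.inv
  one := UUY.good.one
  rel p hp := UUY.good.rel p (by
    have h : ∀ q ∈ M83S7.RL, q ∈ M83S1040Y.RL := by decide +kernel
    exact h p hp)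

theorem goodZ : Good uz 7 M83S7.iv M83S7.RL where
  inv := UUZ.good.inv
  one := UUZ.good.one
  rel p hp := UUZ.good.rel p (by
    have h : ∀ q ∈ M83S7.RL, q ∈ M83S1040Z.RL := by decide +kernel
    exact h p hp)

theorem u3_ne : u 3 ≠ 1 := by
  obtain ⟨φ, hφ⟩ := uU.univ UY uy goodY
  intro h
  have := hφ 3
  rw [h, map_one] at this
  exact uy3 this.symm

theorem u4_ne : u 4 ≠ 1 := by
  obtain ⟨φ, hφ⟩ := uU.univ UZ uz goodZ
  intro h
  have := hφ 4
  rw [h, map_one] at this
  exact uz4 this.symm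

theorem u34_ne : u 3 * u 4 ≠ 1 := by
  obtain ⟨φ, hφ⟩ := uU.univ UY uy goodY
  intro h
  have := congrArg φ h
  rw [map_mul, hφ, hφ, uy4, mul_one, map_one] at this
  exact uy3 this

theorem u3_ne_u4 : u 3 ≠ u 4 := by
  obtain ⟨φ, hφ⟩ := uU.univ UY uy goodY
  intro h
  have := congrArg φ h
  rw [hφ, hφ, uy4] at this
  exact uy3 this

theorem sq34 {x : ℕ} (h : ivL M83S7.iv x = x) : u x * u x = 1 := by
  have := uU.good.inv x
  rw [h] at this
  nth_rewrite 1 [this]
  exact inv_mul_cancel _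

theorem ucen (z : ℕ) (hz : z ∈ [3, 4]) : u z ∈ center U := by
  have hr : ∀ z ∈ [3, 4], ∀ x ∈ [1, 3, 4, 5, 6],
      x = z ∨ ([x, z, ivL M83S7.iv x, ivL M83S7.iv z], 1) ∈ M83S7.RL ∨
        ([z, x, ivL M83S7.iv z, ivL M83S7.iv x], 1) ∈ M83S7.RL := by decide +kernel
  have key : ∀ x ∈ [1, 3, 4, 5, 6], u x * u z = u z * u x := by
    intro x hx
    rcases hr z hz x hx with h | h | h
    · rw [h]
    · have h1 := uU.good.rel _ h
      simp only [List.map_cons, List.map_nil, List.prod_cons, List.prod_nil, mul_one, pow_one, uU.good.inv] at h1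
      have h2 : u x * u z * (u z * u x)⁻¹ = 1 := by rw [← h1]; group
      exact mul_inv_eq_one.1 h2
    · have h1 := uU.good.rel _ h
      simp only [List.map_cons, List.map_nil, List.prod_cons, List.prod_nil, mul_one, pow_one, uU.good.inv] at h1
      have h2 : u z * u x * (u x * u z)⁻¹ = 1 := by rw [← h1]; group
      exact (mul_inv_eq_one.1 h2).symm
  have key' : ∀ x y, u y = (u x)⁻¹ → u x * u z = u z * u x → u y * u z = u z * u y := by
    intro x y h1 h2
    rw [h1]
    exact (show Commute (u x) (u z) from h2).inv_left.eq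
  refine cen_letters uU.top fun x hx => ?_
  have h := isLet_iff.1 hx
  match x, h with
  | 1, _ => exact key 1 (by decide)
  | 2, _ => exact key' 1 2 (uU.good.inv 1) (key 1 (by decide))
  | 3, _ => exact key 3 (by decide)
  | 4, _ => exact key 4 (by decide)
  | 5, _ => exact key 5 (by decide)
  | 6, _ => exact key 6 (by decide)
  | 7, _ => exact key' 6 7 (uU.good.inv 6) (key 6 (by decide))
  | (n + 8), h => omega

/-- the abelianization of a group with these relators is trivial -/
theorem ab_alg {A : Type*} [CommGroup A] {a b : A} (ha : a * a = 1) (hb : b * (b * (b * b)) = 1)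
    (h1 : (a * b⁻¹) ^ 7 = 1) (h2 : (a * (b * b)) ^ 7 = 1) : a = 1 ∧ b = 1 := by
  have e1 : (a * (b * b)) ^ 7 = (a * a) * ((a * a) * ((a * a) * (a * ((b * (b * (b * b))) * ((b * (b * (b * b))) *
      ((b * (b * (b * b))) * (b * b))))))) := by
    simp only [pow_succ, pow_zero, one_mul]
    ac_rfl
  rw [h2, ha, hb, one_mul, one_mul, one_mul, one_mul, one_mul, one_mul] at e1
  have e2 : b * b = a := by
    have h3 : a * (b * b) = a * a := by rw [← e1, ha]
    exact mul_left_cancel h3
  have e3 : a * b⁻¹ = b := by rw [← e2, mul_assoc, mul_inv_cancel, mul_one]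
  rw [e3] at h1
  have e4 : b ^ 7 = (b * (b * (b * b))) * (b * (b * b)) := by
    simp only [pow_succ, pow_zero, one_mul]
    ac_rfl
  rw [e4, hb, one_mul] at h1
  rw [h1, mul_one] at hb
  refine ⟨?_, hb⟩
  rw [← e2, hb, one_mul]

theorem perfU : commutator U = ⊤ := by
  set α : U →* Abelianization U := Abelianization.of
  have rel : ∀ (w : List ℕ) (m : ℕ), (w, m) ∈ M83S7.RL → ((w.map fun x => α (u x)).prod) ^ m = 1 := by
    intro w m h
    have := congrArg α (uU.good.rel (w, m) h)
    rw [map_pow, map_list_prod, List.map_map, map_one] at this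
    exact this
  have hi : ∀ x, α (u (ivL M83S7.iv x)) = (α (u x))⁻¹ := fun x => by rw [uU.good.inv, map_inv]
  have i2 : α (u 2) = (α (u 1))⁻¹ := hi 1
  have i7 : α (u 7) = (α (u 6))⁻¹ := hi 6
  have a2 : α (u 5) * α (u 5) = 1 := by rw [← map_mul, sq34 rfl, map_one]
  obtain ⟨h5, h6⟩ := ab_alg (a := α (u 5)) (b := α (u 6)) a2
    (by simpa using rel [6, 6, 6, 6] 1 (by decide +kernel))
    (by simpa only [List.map_cons, List.map_nil, List.prod_cons, List.prod_nil, mul_one, i7] using rel [5, 7] 7 (by decide +kernel))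
    (by simpa using rel [5, 6, 6] 7 (by decide +kernel))
  rw [h6, inv_one] at i7
  have h4 : α (u 4) = 1 := by
    simpa [h5, h6, i7] using rel [5, 7, 5, 7, 5, 6, 5, 6, 6, 5, 7, 5, 6, 5, 6, 5, 6, 6, 5, 7, 5, 6, 6, 5, 6, 6, 5, 6, 5, 6, 6, 4] 1
      (by decide +kernel)
  have h3 : α (u 3) = 1 := by
    simpa [h5, h6, i7] using rel [5, 7, 5, 6, 5, 7, 5, 6, 5, 7, 5, 6, 5, 7, 5, 6, 5, 7, 5, 6, 5, 7, 5, 6, 5, 7, 5, 6, 3] 1
      (by decide +kernel)
  have h1 : α (u 1) = 1 := by
    simpa [h5, h6, i7, h3, h4, i2] using rel [5, 6, 5, 7, 5, 6, 6, 3, 4, 2] 1 (by decide +kernel)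
  rw [h1, inv_one] at i2
  apply perf_top uU.top
  intro x hx
  have h := isLet_iff.1 hx
  match x, h with
  | 1, _ => exact h1
  | 2, _ => exact i2
  | 3, _ => exact h3
  | 4, _ => exact h4
  | 5, _ => exact h5
  | 6, _ => exact h6
  | 7, _ => exact i7
  | (n + 8), h => omega

/-! ### The covering map -/

theorem okinv : ((List.range 8).all fun x => pathB.beqL' (mulF (TM.getD (ivL M83S7.iv x) I) (TM.getD x I)) I) = true := by
  decide +kernel

theorem okrel : (M83S7.RL.all fun p => pathB.beqL' (wF I TM (List.replicate p.2 p.1).flatten) I) = true := by decide +kernel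

theorem M_ge {x : ℕ} (h : 8 ≤ x) : M x = 1 := by
  unfold M
  rw [List.getD_eq_default _ _ (show Mw.length ≤ x from h)]
  rfl

theorem M_inv (x : ℕ) : M (ivL M83S7.iv x) = (M x)⁻¹ := by
  by_cases h : x < 8
  · have h1 := beqL'_spec ((List.all_eq_true.1 okinv) x (List.mem_range.2 h))
    have h2 := Rep.mul B (rep_M (ivL M83S7.iv x)) (rep_M x)
    rw [h1] at h2
    exact eq_inv_of_mul_eq_one_left (B.eq h2 (B.rep_one hI))
  · have h1 : ivL M83S7.iv x = x := by
      obtain ⟨k, rfl⟩ : ∃ k, x = k + 8 := ⟨x - 8, by omega⟩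
      rfl
    rw [h1, M_ge (by omega), inv_one]

theorem goodM : Good M 7 M83S7.iv M83S7.RL where
  inv := M_inv
  one x hx := by
    by_cases h : x < 8
    · have h1 : x = 0 := by
        by_contra h2
        rw [isLet_iff.2 ⟨by omega, by omega⟩] at hx
        exact absurd hx (by decide)
      rw [h1]; rfl
    · exact M_ge (by omega)
  rel p hp := by
    have h1 := beqL'_spec ((List.all_eq_true.1 okrel) p hp)
    have h2 := B.rep_val hI rep_M (List.replicate p.2 p.1).flatten
    rw [h1, val_replicate] at h2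
    exact B.eq h2 (B.rep_one hI)

/-- the covering map -/
noncomputable def π : U →* G := (uU.univ G M goodM).choose

theorem π_u (x : ℕ) : π (u x) = M x := (uU.univ G M goodM).choose_spec x

theorem base_mem {i : ℕ} (hi : i < 8) : base i ∈ π.range := by
  rw [base_eq hi]
  apply Subgroup.list_prod_mem
  intro y hy
  obtain ⟨x, _, rfl⟩ := List.mem_map.1 hy
  exact ⟨u x, π_u x⟩

theorem eight : ∀ y : K8, y = 0 ∨ y = dec 1 ∨ y = dec 2 ∨ y = dec 4 ∨ y = dec 1 + dec 2 ∨ y = dec 1 + dec 4 ∨ y = dec 2 + dec 4 ∨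
    y = dec 1 + dec 2 + dec 4 := by decide +kernel

theorem span8 (P : K8 → Prop) (h0 : P 0) (h1 : P (dec 1)) (h2 : P (dec 2)) (h4 : P (dec 4))
    (hadd : ∀ x y, P x → P y → P (x + y)) (y : K8) : P y := by
  rcases eight y with h | h | h | h | h | h | h | h <;> rw [h]
  · exact h0
  · exact h1
  · exact h2
  · exact h4
  · exact hadd _ _ h1 h2
  · exact hadd _ _ h1 h4
  · exact hadd _ _ h2 h4
  · exact hadd _ _ (hadd _ _ h1 h2) h4

theorem q0 (y : K8) : SzLie.szQ hE 0 y ∈ π.range := by
  refine span8 (fun y => SzLie.szQ hE 0 y ∈ π.range) ?_ (base_mem (i := 3) (by norm_num)) (base_mem (i := 4) (by norm_num))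
    (base_mem (i := 5) (by norm_num)) ?_ y
  · show SzLie.szQ hE 0 0 ∈ π.range
    rw [SzLie.szQ_zero hE]; exact one_mem _
  · intro a b ha hb
    have h := mul_mem ha hb
    rw [SzLie.szQ_mul hE] at h
    simpa using h

theorem q1 (x : K8) : ∃ y, SzLie.szQ hE x y ∈ π.range := by
  refine span8 (fun x => ∃ y, SzLie.szQ hE x y ∈ π.range) ⟨0, q0 0⟩ ⟨_, base_mem (i := 0) (by norm_num)⟩
    ⟨_, base_mem (i := 1) (by norm_num)⟩ ⟨_, base_mem (i := 2) (by norm_num)⟩ ?_ x
  rintro a b ⟨y, ha⟩ ⟨y', hb⟩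
  have h := mul_mem ha hb
  rw [SzLie.szQ_mul hE] at h
  exact ⟨_, h⟩

theorem unit8 : ∀ t : K8, t = 0 ∨ ∃ k ∈ List.range 7, t = (dec 2) ^ k := by decide +kernel

theorem surj : π.range = ⊤ := by
  apply SzLie.eq_top_of_gens hE
  · intro x y
    obtain ⟨y0, h0⟩ := q1 x
    have h := mul_mem h0 (q0 (y - y0))
    rw [SzLie.szQ_mul hE, add_zero] at h
    have e : y0 + (y - y0) + x * 0 ^ 4 = y := by
      rw [zero_pow (by norm_num), mul_zero]; ring
    rwa [e] at h
  · intro t
    rcases unit8 (t : K8) with h | ⟨k, _, h⟩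
    · exact absurd h t.ne_zero
    · have key : ∀ k : ℕ, SzLie.szHt hE ((Units.mk0 (dec 2) (by decide +kernel) : K8ˣ) ^ k) ∈ π.range := by
        intro k
        induction k with
        | zero => rw [pow_zero, SzLie.szHt_one hE]; exact one_mem _
        | succ k ih =>
          rw [pow_succ, ← SzLie.szHt_mul hE]
          exact mul_mem ih (base_mem (i := 6) (by norm_num))
      have e : t = (Units.mk0 (dec 2) (by decide +kernel) : K8ˣ) ^ k := by
        apply Units.ext
        rw [Units.val_pow_eq_pow_val]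
        exact h
      rw [e]
      exact key k
  · exact base_mem (i := 7) (by norm_num)

theorem card_mul : Nat.card U = 29120 * Nat.card π.ker := by
  rw [Subgroup.card_eq_card_quotient_mul_card_subgroup π.ker,
    Nat.card_congr (QuotientGroup.quotientKerEquivOfSurjective π (MonoidHom.range_eq_top.1 surj)).toEquiv, cardG]

theorem card_ker_le4 : Nat.card π.ker ≤ 4 := by
  have h1 := bdU.2
  rw [Subgroup.card_top, card_mul] at h1
  omega

/-- the kernel -/
def S : Set U := {1, u 3, u 4, u 3 * u 4}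

theorem S_sub : S ⊆ (π.ker : Set U) := by
  have h3 : π (u 3) = 1 := π_u 3
  have h4 : π (u 4) = 1 := π_u 4
  rintro x (rfl | rfl | rfl | rfl)
  · exact one_mem _
  · exact h3
  · exact h4
  · show π (u 3 * u 4) = 1
    rw [map_mul, h3, h4, one_mul]

theorem S_card : S.ncard = 4 := by
  unfold S
  rw [Set.ncard_insert_of_notMem, Set.ncard_insert_of_notMem, Set.ncard_pair]
  · intro h
    have : u 3 = 1 := by
      have h2 : 1 * u 4 = u 3 * u 4 := by rw [one_mul]; exact h
      exact (mul_right_cancel h2).symm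
    exact u3_ne this
  · rintro (h | h)
    · exact u3_ne_u4 h
    · have h1 : u 3 = u 3 * u 4 := h
      have h2 : u 3 * 1 = u 3 * u 4 := by rw [mul_one]; exact h1
      exact u4_ne (mul_left_cancel h2).symm
  · rintro (h | h | h)
    · exact u3_ne h.symm
    · exact u4_ne h.symm
    · exact u34_ne (show (1 : U) = u 3 * u 4 from h).symm

theorem S_eq : S = (π.ker : Set U) := by
  apply Set.eq_of_subset_of_ncard_le S_sub
  rw [S_card]
  exact card_ker_le4

theorem card_ker4 : Nat.card π.ker = 4 := by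
  have h : Nat.card π.ker = (π.ker : Set U).ncard := rfl
  rw [h, ← S_eq, S_card]

theorem P : PCE π := by
  refine ⟨⟨MonoidHom.range_eq_top.1 surj, ?_⟩, perfU⟩
  intro x hx
  have h : x ∈ S := by rw [S_eq]; exact hx
  rcases h with rfl | rfl | rfl | rfl
  · exact one_mem _
  · exact ucen 3 (by decide)
  · exact ucen 4 (by decide)
  · exact mul_mem (ucen 3 (by decide)) (ucen 4 (by decide))

theorem S_sq {x : U} (h : x ∈ S) : x ^ 2 = 1 := by
  have h3 : u 3 * u 3 = 1 := sq34 rfl
  have h4 : u 4 * u 4 = 1 := sq34 rfl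
  have hc := mem_center_iff.1 (ucen 3 (by decide)) (u 4)
  rcases h with rfl | rfl | rfl | rfl
  · exact one_pow 2
  · rw [pow_two, h3]
  · rw [pow_two, h4]
  · rw [pow_two, mul_assoc, ← mul_assoc (u 4), hc, mul_assoc (u 3), h4, mul_one, h3]

theorem klein : IsKleinFour π.ker where
  card_four := card_ker4
  exponent_two := by
    have h1 : Monoid.exponent π.ker ∣ 2 := by
      rw [Monoid.exponent_dvd_iff_forall_pow_eq_one]
      rintro ⟨x, hx⟩
      apply Subtype.ext
      apply S_sq
      rw [S_eq]; exact hx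
    rcases (Nat.dvd_prime Nat.prime_two).1 h1 with h | h
    · exfalso
      have := Monoid.exp_eq_one_iff.1 h
      have h2 := card_ker4
      rw [Nat.card_of_subsingleton (1 : π.ker)] at h2
      omega
    · exact h



theorem perfG : commutator G = ⊤ := by
  rw [eq_top_iff]
  intro g _
  obtain ⟨x, rfl⟩ := MonoidHom.range_eq_top.1 surj g
  have h : x ∈ commutator U := by rw [perfU]; exact mem_top x
  have h1 : (commutator U).map π ≤ commutator G := by
    rw [commutator_def, commutator_def, map_commutator]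
    exact commutator_mono le_top le_top
  exact h1 ⟨x, h, rfl⟩

theorem mult8 : HasSchurMultiplier G (Multiplicative (ZMod 2 × ZMod 2)) := by
  have hc : Nat.card (Multiplicative (ZMod 2 × ZMod 2)) = 4 := by
    rw [Nat.card_congr Multiplicative.toAdd, Nat.card_prod, Nat.card_zmod]
  have hfin : Finite (Multiplicative (ZMod 2 × ZMod 2)) := Nat.finite_of_card_ne_zero (by rw [hc]; norm_num)
  apply Cfsg.Agent.SchurMult.hasSchurMultiplier_of_card_le
  · haveI := klein
    exact ⟨U, inferInstance, inferInstance, π, P.stem, IsKleinFour.nonempty_mulEquiv⟩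
  · intro Γ' _ _ τ hτ
    rw [hc]
    exact Nat.le_of_dvd (by norm_num) (mb.univ (PCE.of_stem perfG hτ))

theorem main {F : Type*} [Field F] [Fintype F] (h8 : Fintype.card F = 8) :
    HasSchurMultiplier ↥(Cfsg.Lie.Sz F 4) (Multiplicative (ZMod 2 × ZMod 2)) := by
  obtain ⟨e⟩ := Cfsg.Agent.JY.lie_congr (m := 1) le_rfl hF (F := F) h8
  exact Cfsg.Agent.SchurMult.hasSchurMultiplier_of_equiv e mult8

end Cfsg.Agent.MRel.Sz8
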